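import Mathlib
import Cfsg.Agent.Inv.A9N1

/-! The final arithmetic for the character fragment of `3^3 : S4`. -/

set_option autoImplicit false

namespace Cfsg.Agent.A9N

open Finset

/-- The integrality conditions for one irreducible character. -/
def Par (Y : Fin 9 → ℤ) (d : ℕ) : Prop :=
  ∃ (a b c : ℤ) (m : ℕ), Y 0 = 3 * a - 4 * c ∧ Y 1 = -3 * b + 2 * c ∧ Y 2 = -3 * a + 3 * b - c ∧
    (a - Y 3 + 2 * Y 4) % 4 = 0 ∧ (a + Y 3 + 2 * Y 5) % 4 = 0 ∧ (b + Y 6) % 2 = 0 ∧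
    (c + Y 7) % 3 = 0 ∧ (c + Y 8) % 3 = 0 ∧ (d : ℤ) = 6 * a + 12 * b + 8 * c + 27 * m ∧
    0 ≤ m + a ∧ 0 ≤ m + b ∧ 0 ≤ m + c

theorem bd {x B : ℤ} (hB : 0 ≤ B) (h : x ^ 2 < (B + 1) ^ 2) : -B ≤ x ∧ x ≤ B := by
  have := abs_lt_of_sq_lt_sq' h (by omega)
  omega

theorem exn {x B : ℤ} (N : ℕ) (h : -B ≤ x ∧ x ≤ B) (hN : (N : ℤ) = 2 * B + 1) :
    ∃ n < N, x = (n : ℕ) - B := ⟨(x + B).toNat, by omega, by omega⟩

theorem good_of {Y : Fin 9 → ℤ} {a b c : ℤ} (h0 : Y 0 = 3 * a - 4 * c) (h1 : Y 1 = -3 * b + 2 * c)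
    (h2 : Y 2 = -3 * a + 3 * b - c) (h3 : (a - Y 3 + 2 * Y 4) % 4 = 0)
    (h4 : (a + Y 3 + 2 * Y 5) % 4 = 0) (h5 : (b + Y 6) % 2 = 0) (h6 : (c + Y 7) % 3 = 0)
    (h7 : (c + Y 8) % 3 = 0) : good a b c Y := by
  intro hE
  have hA : ellA Y ≤ 648 := by nlinarith [sq_nonneg (ellB Y)]
  unfold ellA at hA
  have s0 := sq_nonneg (Y 0); have s1 := sq_nonneg (Y 1); have s2 := sq_nonneg (Y 2)
  have s3 := sq_nonneg (Y 3); have s4 := sq_nonneg (Y 4); have s5 := sq_nonneg (Y 5)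
  have s6 := sq_nonneg (Y 6); have s7 := sq_nonneg (Y 7); have s8 := sq_nonneg (Y 8)
  have b0 := bd (x := Y 0) (B := 10) (by norm_num) (by linarith)
  have b1 := bd (x := Y 1) (B := 7) (by norm_num) (by linarith)
  have b2 := bd (x := Y 2) (B := 9) (by norm_num) (by linarith)
  obtain ⟨y3, l3, e3⟩ := exn 7 (bd (x := Y 3) (B := 3) (by norm_num) (by linarith)) rfl
  obtain ⟨y4, l4, e4⟩ := exn 5 (bd (x := Y 4) (B := 2) (by norm_num) (by linarith)) rfl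
  obtain ⟨y5, l5, e5⟩ := exn 3 (bd (x := Y 5) (B := 1) (by norm_num) (by linarith)) rfl
  obtain ⟨y6, l6, e6⟩ := exn 5 (bd (x := Y 6) (B := 2) (by norm_num) (by linarith)) rfl
  obtain ⟨y7, l7, e7⟩ := exn 7 (bd (x := Y 7) (B := 3) (by norm_num) (by linarith)) rfl
  obtain ⟨y8, l8, e8⟩ := exn 7 (bd (x := Y 8) (B := 3) (by norm_num) (by linarith)) rfl
  obtain ⟨a', la, ea⟩ := exn (x := a) (B := 14) 29 (by omega) rfl
  obtain ⟨b', lb, eb⟩ := exn (x := b) (B := 7) 15 (by omega) rfl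
  obtain ⟨c', lc, ec⟩ := exn (x := c) (B := 8) 17 (by omega) rfl
  have k := key a' la b' lb c' lc
  rw [← ea, ← eb, ← ec] at k
  have k1 := k (by rw [← h0, ← h1, ← h2]; linarith) y3 l3 y4 l4 y5 l5
  rw [← e3, ← e4, ← e5] at k1
  have k2 := k1 h3 h4 y6 l6
  rw [← e6] at k2
  have k3 := k2 h5 y7 l7 (by rw [← e7]; exact h6) y8 l8 (by rw [← e8]; exact h7)
  rw [← e7, ← e8, ← h0, ← h1, ← h2] at k3
  have e : ![Y 0, Y 1, Y 2, Y 3, Y 4, Y 5, Y 6, Y 7, Y 8] = Y := by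
    funext i; fin_cases i <;> rfl
  rw [e] at k3
  exact k3 hE

variable {ι : Type*} [Fintype ι] {Y : ι → Fin 9 → ℤ}

theorem sum_Q (hG : ∀ i j, ∑ χ, Y χ i * Y χ j = if i = j then cc i else 0) (c : Ce) :
    ∑ χ, c.Q (Y χ) = c.G := by
  unfold Ce.Q Ce.G Ce.quad
  induction c.z with
  | nil => simp
  | cons t l ih => simp only [List.map_cons, List.sum_cons, sum_add_distrib, ih, ← mul_sum, hG]

theorem sum_C {d : ι → ℕ} {N : ℝ}
    (hC : ∀ t, N * ∑ χ, (mon (Y χ 0) (Y χ 1) (Y χ 2) t : ℝ) / d χ = nn t) (c : Ce) :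
    N * ∑ χ, (c.C (Y χ) : ℝ) / d χ = c.cub nn := by
  unfold Ce.C Ce.cub
  induction c.y with
  | nil => simp
  | cons t l ih =>
    simp only [List.map_cons, List.sum_cons, Int.cast_add, Int.cast_mul, add_div, sum_add_distrib,
      mul_add, ih, mul_div_assoc, ← mul_sum]
    rw [mul_left_comm, hC]

theorem ell_le (hG : ∀ i j, ∑ χ, Y χ i * Y χ j = if i = j then cc i else 0) {i0 χ : ι}
    (h0 : Y i0 = ee) (hne : χ ≠ i0) : 208 * ellA (Y χ) + ellB (Y χ) ^ 2 ≤ 134784 := by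
  classical
  let w : Fin 9 → ℤ := ![6, 12, 8, 54, 108, 324, 108, 72, 72]
  let l : Fin 9 → ℤ := fun i => w i * (208 * Y χ i + ellB (Y χ) * ee i)
  have h1 : ∑ ψ, (∑ i, l i * Y ψ i) ^ 2 = ∑ i, l i ^ 2 * cc i := by
    simp only [sq, sum_mul_sum]
    rw [sum_comm]
    refine sum_congr rfl fun i _ => ?_
    rw [sum_comm]
    have : ∀ j, ∑ ψ, l i * Y ψ i * (l j * Y ψ j) = l i * l j * if i = j then cc i else 0 := fun j => by
      rw [← hG, mul_sum]; exact sum_congr rfl fun _ _ => by ring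
    simp [this]
  have h2 : ∑ ψ ∈ {χ, i0}, (∑ i, l i * Y ψ i) ^ 2 ≤ ∑ ψ, (∑ i, l i * Y ψ i) ^ 2 :=
    sum_le_sum_of_subset_of_nonneg (subset_univ _) fun _ _ _ => sq_nonneg _
  rw [sum_pair hne, h1, h0] at h2
  have e1 : ∑ i, l i * Y χ i = 208 * ellA (Y χ) + ellB (Y χ) ^ 2 := by
    simp [l, w, ee, Fin.sum_univ_succ, ellA, ellB]; ring
  have e2 : ∑ i, l i * ee i = 648 * ellB (Y χ) := by
    simp [l, w, ee, Fin.sum_univ_succ, ellB]; ring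
  have e3 : ∑ i, l i ^ 2 * cc i = 648 * (208 ^ 2 * ellA (Y χ) + 856 * ellB (Y χ) ^ 2) := by
    simp [l, w, ee, cc, Fin.sum_univ_succ, ellA, ellB]; ring
  rw [e1, e2, e3] at h2
  by_contra hc
  nlinarith

theorem cert {d : ι → ℕ} {N : ℝ} (hN : 0 < N) (hd : ∀ χ, 0 < d χ)
    (hG : ∀ i j, ∑ χ, Y χ i * Y χ j = if i = j then cc i else 0)
    (hC : ∀ t, N * ∑ χ, (mon (Y χ 0) (Y χ 1) (Y χ 2) t : ℝ) / d χ = nn t) {i0 : ι}
    (h0 : Y i0 = ee) (hd0 : d i0 = 1) (c : Ce)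
    (h : ∀ χ ≠ i0, 0 ≤ c.C (Y χ) + d χ * c.Q (Y χ)) :
    N * ((c.C ee + c.Q ee - c.G : ℤ) : ℝ) ≤ (c.cub nn : ℤ) := by
  classical
  have h1 : ∑ χ ∈ {i0}, ((c.C (Y χ) : ℝ) / d χ + c.Q (Y χ)) ≤
      ∑ χ, ((c.C (Y χ) : ℝ) / d χ + c.Q (Y χ)) := by
    refine sum_le_sum_of_subset_of_nonneg (subset_univ _) fun χ _ hχ => ?_
    have hp : (0 : ℝ) < d χ := by exact_mod_cast hd χ
    have : (0 : ℝ) ≤ c.C (Y χ) + d χ * c.Q (Y χ) := by exact_mod_cast h χ (by simpa using hχ)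
    rw [div_add' _ _ _ hp.ne']
    exact div_nonneg (by linarith) hp.le
  rw [sum_singleton, sum_add_distrib, h0, hd0, ← Int.cast_sum, sum_Q hG] at h1
  have h2 := sum_C hC c
  have := mul_le_mul_of_nonneg_left h1 hN.le
  push_cast at this ⊢
  linarith

theorem c0_val : 0 < c0.C ee + c0.Q ee - c0.G ∧
    c0.cub nn < 648 * 217 * (c0.C ee + c0.Q ee - c0.G) := by decide +kernel
theorem cl_val : ∀ t ∈ cl, t.2.cub nn < 648 * t.1 * (t.2.C ee + t.2.Q ee - t.2.G) := by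
  decide +kernel

theorem arith {d : ι → ℕ} {k : ℕ} (hk : k % 27 = 1) (hd : ∀ χ, 0 < d χ)
    (hG : ∀ i j, ∑ χ, Y χ i * Y χ j = if i = j then cc i else 0)
    (hC : ∀ t, (648 * k : ℕ) * ∑ χ, (mon (Y χ 0) (Y χ 1) (Y χ 2) t : ℝ) / d χ = nn t) {i0 : ι}
    (h0 : Y i0 = ee) (hd0 : d i0 = 1) (hp : ∀ χ, Par (Y χ) (d χ)) (hdv : ∀ χ, d χ ∣ 648 * k)
    (hsq : ∀ χ, d χ ^ 2 ≤ 648 * k) : k = 1 := by
  have hN : (0 : ℝ) < (648 * k : ℕ) := by exact_mod_cast (by omega : 0 < 648 * k)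
  have gd' : ∀ χ ≠ i0, ∃ (a b c : ℤ) (m : ℕ), (d χ : ℤ) = 6 * a + 12 * b + 8 * c + 27 * m ∧
      d0 a b c ≤ d χ ∧ -232 ≤ 6 * a + 12 * b + 8 * c ∧
      (0 ≤ c0.Q (Y χ) ∧ 0 ≤ c0.C (Y χ) + d0 a b c * c0.Q (Y χ)) ∧ ∀ t ∈ cl, ∀ m < 22,
      gd (d0 a b c) t (Y χ) (6 * a + 12 * b + 8 * c + 27 * (m : ℕ)) := fun χ hχ => by
    obtain ⟨a, b, c, m, h1, h2, h3, h4, h5, h6, h7, h8, h9, h10, h11, h12⟩ := hp χ
    have hE := ell_le hG h0 hχ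
    refine ⟨a, b, c, m, h9, ?_, ?_, good_of h1 h2 h3 h4 h5 h6 h7 h8 hE⟩
    · have := hd χ
      unfold d0; omega
    · have hA : ellA (Y χ) ≤ 648 := by nlinarith [sq_nonneg (ellB (Y χ))]
      unfold ellA at hA
      have s0 := sq_nonneg (Y χ 0); have s1 := sq_nonneg (Y χ 1); have s2 := sq_nonneg (Y χ 2)
      have s3 := sq_nonneg (Y χ 3); have s4 := sq_nonneg (Y χ 4); have s5 := sq_nonneg (Y χ 5)
      have s6 := sq_nonneg (Y χ 6); have s7 := sq_nonneg (Y χ 7); have s8 := sq_nonneg (Y χ 8)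
      have b0 := bd (x := Y χ 0) (B := 10) (by norm_num) (by linarith)
      have b1 := bd (x := Y χ 1) (B := 7) (by norm_num) (by linarith)
      have b2 := bd (x := Y χ 2) (B := 9) (by norm_num) (by linarith)
      omega
  have hlt : k < 217 := by
    by_contra hc
    have h1 := cert hN hd hG hC h0 hd0 c0 fun χ hχ => by
      obtain ⟨a, b, c, m, -, h2, -, ⟨h3, h4⟩, -⟩ := gd' χ hχ
      nlinarith
    have h2 : ((648 * k : ℕ) : ℤ) * (c0.C ee + c0.Q ee - c0.G) ≤ c0.cub nn := by exact_mod_cast h1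
    obtain ⟨h3, h4⟩ := c0_val
    have : (648 * 217 : ℤ) ≤ (648 * k : ℕ) := by omega
    nlinarith
  by_contra hk1
  obtain ⟨t, ht, rfl⟩ : ∃ t ∈ cl, t.1 = k := by
    have : k = 28 ∨ k = 55 ∨ k = 82 ∨ k = 109 ∨ k = 136 ∨ k = 163 ∨ k = 190 := by omega
    rcases this with h | h | h | h | h | h | h <;> simp [cl, h]
  have h1 := cert hN hd hG hC h0 hd0 t.2 fun χ hχ => by
    obtain ⟨a, b, c, m, h1, h2, h3, -, h4⟩ := gd' χ hχ
    have hs : (d χ : ℤ) ^ 2 ≤ 648 * t.1 := by exact_mod_cast hsq χ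
    have hb := bd (x := d χ) (B := 361) (by norm_num) (by omega)
    have := h4 t ht m (by omega)
    rw [← h1] at this
    exact this h2 hs (Int.emod_eq_zero_of_dvd (by exact_mod_cast hdv χ))
  have h2 : ((648 * t.1 : ℕ) : ℤ) * (t.2.C ee + t.2.Q ee - t.2.G) ≤ t.2.cub nn := by exact_mod_cast h1
  have := cl_val t ht
  push_cast at h2
  omega

end Cfsg.Agent.A9N
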