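import Mathlib
import Cfsg.Agent.Inv.A9N2

/-! Local analysis for a subgroup `3^3 : S4` with strongly closed `3^3`. -/

set_option autoImplicit false

namespace Cfsg.Agent.A9N

open Subgroup Finset Cfsg.Agent.FGS

variable {G : Type*} [Group G]

structure Md (H : Subgroup G) (E : M → G) : Prop where
  inj : Function.Injective E
  mul : ∀ x y, E (mm x y) = E x * E y
  mem : ∀ g, g ∈ H ↔ ∃ x, E x = g
  cen : ∀ a : V, a ≠ 0 → centralizer {E (a, 0)} ≤ H
  sc : ∀ (a : V) (g : G), g * E (a, 0) * g⁻¹ ∈ H → ∃ b, g * E (a, 0) * g⁻¹ = E (b, 0)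

variable {H : Subgroup G} {E : M → G}

theorem mm_J (a b : V) : mm (a, 0) (b, 0) = (a + b, 0) := by
  simp [mm, act_zero, (mul_zero' _).1]

theorem Md.one (h : Md H E) : E (0, 0) = 1 := by
  have := h.mul (0, 0) (0, 0)
  rw [mm_J, add_zero] at this
  exact mul_eq_left.1 this.symm

theorem Md.add (h : Md H E) (a b : V) : E (a + b, 0) = E (a, 0) * E (b, 0) := by
  rw [← h.mul, mm_J]

theorem Md.memE (h : Md H E) (x : M) : E x ∈ H := (h.mem _).2 ⟨x, rfl⟩

theorem Md.ne (h : Md H E) {a : V} : E (a, 0) = 1 ↔ a = 0 := by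
  rw [← h.one, h.inj.eq_iff]; simp

theorem Md.cube (h : Md H E) (a : V) : E (a, 0) ^ 3 = 1 := by
  rw [pow_three', ← h.add, ← h.add, add3, h.one]

theorem Md.pw (h : Md H E) (x : M) (n : ℕ) : E (pw x n) = E x ^ n := by
  induction n with
  | zero => rw [pow_zero]; exact h.one
  | succ n ih => rw [show A9N.pw x (n + 1) = mm (A9N.pw x n) x from rfl, h.mul, ih, pow_succ]

theorem Md.card_of (h : Md H E) {x y : M} (hx : ∀ g, g * E x * g⁻¹ = E y → g ∈ H) :
    Nat.card {g : G // g * E x * g⁻¹ = E y} = cnt x y := by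
  rw [cnt, ← Fintype.card_subtype, ← Nat.card_eq_fintype_card]
  refine (Nat.card_congr (Equiv.ofBijective (fun p => ⟨E p.1, by
    rw [← h.mul, p.2, h.mul, mul_inv_cancel_right]⟩) ⟨?_, ?_⟩)).symm
  · exact fun a b e => Subtype.ext (h.inj (congrArg Subtype.val e))
  · rintro ⟨g, hg⟩
    obtain ⟨z, rfl⟩ := (h.mem g).1 (hx g hg)
    exact ⟨⟨z, h.inj (by rw [h.mul, h.mul, ← hg, inv_mul_cancel_right])⟩, rfl⟩

theorem Md.card_J (h : Md H E) {a : V} (ha : a ≠ 0) :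
    Nat.card {g : G // g * E (a, 0) * g⁻¹ = E (a, 0)} = cz (cls (a, 0)) := by
  rw [h.card_of fun g hg => h.cen a ha (mem_centralizer_singleton_iff.2
    (mul_inv_eq_iff_eq_mul.1 hg)), cnt_J]

theorem Md.cz_eq (h : Md H E) {a b : V} (ha : a ≠ 0) {g : G} (hg : g * E (a, 0) * g⁻¹ = E (b, 0)) :
    cz (cls (a, 0)) = cz (cls (b, 0)) := by
  have hb : b ≠ 0 := by
    rintro rfl
    rw [h.one] at hg
    exact ha (h.ne.1 (by simpa using hg))
  rw [← h.card_J ha, ← h.card_J hb]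
  refine Nat.card_congr ((MulAut.conj g).toEquiv.subtypeEquiv fun x => ?_)
  rw [← hg]
  simp only [MulEquiv.toEquiv_eq_coe, EquivLike.coe_coe, MulAut.conj_apply]
  constructor
  · intro e
    calc _ = g * (x * E (a, 0) * x⁻¹) * g⁻¹ := by group
      _ = _ := by rw [e]
  · intro e
    calc _ = g⁻¹ * (g * x * g⁻¹ * (g * E (a, 0) * g⁻¹) * (g * x * g⁻¹)⁻¹) * g := by group
      _ = _ := by rw [e]; group

theorem Md.ti (h : Md H E) {a : V} (ha : a ≠ 0) {g : G} (hg : g * E (a, 0) * g⁻¹ ∈ H) : g ∈ H := by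
  obtain ⟨b, hb⟩ := h.sc a g hg
  obtain ⟨m, hm⟩ := conj_J a b (h.cz_eq ha hb)
  have e : E (0, m) * E (a, 0) = E (b, 0) * E (0, m) := by
    rw [← h.mul, ← h.mul]
    simp [mm, hm, act_zero, (mul_zero' _).1, (mul_zero' _).2]
  have : (E (0, m))⁻¹ * g ∈ H := h.cen a ha (mem_centralizer_singleton_iff.2 (by
    calc _ = (E (0, m))⁻¹ * (g * E (a, 0) * g⁻¹) * g := by group
      _ = (E (0, m))⁻¹ * (E (b, 0) * E (0, m)) * ((E (0, m))⁻¹ * g) := by rw [hb]; group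
      _ = _ := by rw [← e]; group))
  simpa using mul_mem (h.memE (0, m)) this

theorem Md.card_rep (h : Md H E) {i : Fin 10} (hi : i ≠ 9) (y : M) :
    Nat.card {g : G // g * E (rep i) * g⁻¹ = E y} = cnt (rep i) y := by
  refine h.card_of fun g hg => ?_
  obtain ⟨n, -, h1, h2⟩ := rep_sp i hi
  refine h.ti h2 ?_
  rw [show ((A9N.pw (rep i) n).1, (0 : Fin 24)) = A9N.pw (rep i) n from Prod.ext rfl h1.symm, h.pw,
    ← conj_pow, hg]
  exact pow_mem (h.memE y) n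

theorem Md.card_H (h : Md H E) : Nat.card H = 648 := by
  rw [← Nat.card_congr (Equiv.ofBijective (fun x : M => (⟨E x, h.memE x⟩ : H))
    ⟨fun a b e => h.inj (congrArg Subtype.val e), fun g => by
      obtain ⟨x, hx⟩ := (h.mem g).1 g.2; exact ⟨x, Subtype.ext hx⟩⟩)]
  simp

theorem Md.index [Finite G] (h : Md H E) : H.index % 27 = 1 := by
  classical
  let f : Multiplicative V →* G := MonoidHom.mk' (fun a => E (a.toAdd, 0)) fun a b => h.add _ _
  letI : MulAction (Multiplicative V) (G ⧸ H) := MulAction.compHom _ f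
  haveI := Fintype.ofFinite (G ⧸ H)
  haveI := Fintype.ofFinite (Quotient (MulAction.orbitRel (Multiplicative V) (G ⧸ H)))
  have h1 := MulAction.sum_card_fixedBy_eq_card_orbits_mul_card_group (Multiplicative V) (G ⧸ H)
  have h2 : ∀ a : Multiplicative V, Fintype.card (MulAction.fixedBy (G ⧸ H) a) =
      1 + if a = 1 then H.index - 1 else 0 := fun a => by
    split_ifs with ha
    · subst ha
      have := H.index_ne_zero_of_finite
      rw [← Nat.card_eq_fintype_card, MulAction.fixedBy_one_eq_univ, Nat.card_univ, ← index_eq_card]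
      omega
    · refine Fintype.card_eq_one_iff.2 ⟨⟨((1 : G) : G ⧸ H), ?_⟩, ?_⟩
      · change ((f a * 1 : G) : G ⧸ H) = (1 : G)
        exact QuotientGroup.eq.2 (by simpa [f] using h.memE (a.toAdd, 0))
      · rintro ⟨x, hx⟩
        obtain ⟨g, rfl⟩ := QuotientGroup.mk_surjective x
        have hx' : ((f a * g : G) : G ⧸ H) = g := hx
        have := inv_mem (QuotientGroup.eq.1 hx')
        refine Subtype.ext (QuotientGroup.eq.2 ?_)
        rw [mul_one]
        refine h.ti (a := a.toAdd) ha ?_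
        have e : ((f a * g)⁻¹ * g)⁻¹ = g⁻¹ * E (a.toAdd, 0) * g⁻¹⁻¹ := by
          change ((E (a.toAdd, 0) * g)⁻¹ * g)⁻¹ = _
          group
        exact e ▸ this
  simp only [h2, sum_add_distrib, sum_ite_eq', mem_univ, if_true, sum_const, card_univ,
    Fintype.card_multiplicative, Fintype.card_prod, Fintype.card_fin, smul_eq_mul] at h1
  have := H.index_ne_zero_of_finite
  omega

theorem tri_cen [Finite G] {u v : G} (hu : u ^ 3 = 1) (hv : v ^ 3 = 1) (hw : (u * v) ^ 3 = 1)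
    (hn : ¬ IsConj u v) : ∃ c : G, c ≠ 1 ∧ c ^ 3 = 1 ∧ Commute c u ∧ Commute c v := by
  obtain ⟨c1, c2⟩ := tri_aux hu hv hw
  set a := u * v⁻¹ with ha
  set b := v⁻¹ * u with hb
  have hab : u * b * u⁻¹ = a := by rw [ha, hb]; group
  have hv' : v = a⁻¹ * u := by rw [ha]; group
  by_cases h3 : 3 ∣ orderOf a
  · obtain ⟨k, hk⟩ := h3
    have k0 : 0 < k := Nat.pos_of_ne_zero (by rintro rfl; exact (orderOf_pos a).ne' hk)
    have a3 : (a ^ k) ^ 3 = 1 := by rw [← pow_mul, mul_comm, ← hk, pow_orderOf_eq_one]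
    have a1 : a ^ k ≠ 1 := pow_ne_one_of_lt_orderOf k0.ne' (by omega)
    have hk' : u * b ^ k * u⁻¹ = a ^ k := by rw [← hab, conj_pow]
    have hk2 : u * a ^ k * u⁻¹ = (a ^ k * b ^ k)⁻¹ := by
      rw [← conj_pow, c2, inv_pow, c1.mul_pow]
    have b3 : (b ^ k) ^ 3 = 1 := by
      rw [← hk', conj_pow] at a3
      simpa using a3
    have cA : Commute (a ^ k) a := (Commute.refl a).pow_left k
    have cB : Commute (b ^ k) a := c1.symm.pow_left k
    have cc : Commute (a ^ k) (b ^ k) := c1.pow_pow k k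
    generalize a ^ k = A at *
    generalize b ^ k = B at *
    have eA : A⁻¹ * A⁻¹ = A := by
      rw [← mul_inv_rev, inv_eq_iff_mul_eq_one, ← pow_three', a3]
    by_cases e : A = B
    · subst e
      have cu : Commute A u := (mul_inv_eq_iff_eq_mul.1 hk').symm
      exact ⟨A, a1, a3, cu, hv' ▸ cA.inv_right.mul_right cu⟩
    · have cu : Commute (A * B⁻¹) u := by
        refine (mul_inv_eq_iff_eq_mul.1 ?_).symm
        calc u * (A * B⁻¹) * u⁻¹ = u * A * u⁻¹ * (u * B * u⁻¹)⁻¹ := by group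
          _ = B⁻¹ * (A⁻¹ * A⁻¹) := by rw [hk2, hk']; group
          _ = _ := by rw [eA, cc.inv_right.eq]
      refine ⟨A * B⁻¹, fun h => e (mul_inv_eq_one.1 h), ?_, cu,
        hv' ▸ (cA.mul_left cB.inv_left).inv_right.mul_right cu⟩
      rw [cc.inv_right.mul_pow, a3, inv_pow, b3]; simp
  · exfalso
    obtain ⟨k, hk⟩ := exists_pow_eq_self_of_coprime (x := a)
      ((Nat.Prime.coprime_iff_not_dvd Nat.prime_three).2 h3)
    refine hn (isConj_iff.2 ⟨((a * b⁻¹) ^ k)⁻¹, ?_⟩)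
    have e1 : u * (a * b⁻¹) ^ k * u⁻¹ = ((a * b)⁻¹ * a⁻¹) ^ k := by
      rw [← conj_pow, ← c2, ← hab]; congr 1; group
    have e2 := tri_aux2 c1 k
    rw [hk, ← e1] at e2
    calc _ = ((a * b⁻¹) ^ k)⁻¹ * (u * (a * b⁻¹) ^ k * u⁻¹) * u := by group
      _ = v := by rw [e2, ha]; group

theorem Md.cen_J (h : Md H E) {a : V} (ha : a ≠ 0) (h2 : cls (a, 0) ≠ 2) {c w : G} (c1 : c ≠ 1)
    (c3 : c ^ 3 = 1) (hc : Commute c (E (a, 0))) (hw : Commute c w) : w ∈ H := by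
  obtain ⟨⟨b, m⟩, rfl⟩ := (h.mem c).1 (h.cen a ha (mem_centralizer_singleton_iff.2 hc.eq))
  have e1 : mm (b, m) (a, 0) = mm (a, 0) (b, m) := h.inj (by rw [h.mul, h.mul, hc.eq])
  have e2 : mm (b, m) (mm (b, m) (b, m)) = (0, 0) :=
    h.inj (by rw [h.mul, h.mul, h.one, ← c3, pow_three])
  simp only [mm, act_zero, Prod.mk.injEq] at e1 e2
  obtain rfl := cen3 a ha h2 m (add_left_cancel (e1.1.trans (add_comm _ _))) e2.2
  exact h.cen b (fun e => c1 (h.ne.2 e)) (mem_centralizer_singleton_iff.2 hw.symm.eq)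

theorem Md.tri [Finite G] (h : Md H E) {x y z : V} (hx : x ≠ 0) (hy : y ≠ 0) (hz : z ≠ 0)
    (hn : cz (cls (x, 0)) ≠ cz (cls (y, 0))) {g k : G}
    (e : g * E (x, 0) * g⁻¹ * (k * E (y, 0) * k⁻¹) = E (z, 0)) : g ∈ H ∧ k ∈ H := by
  obtain ⟨c, c1, c3, cu, cv⟩ := tri_cen (u := g * E (x, 0) * g⁻¹) (v := k * E (y, 0) * k⁻¹)
    (by rw [conj_pow, h.cube]; simp) (by rw [conj_pow, h.cube]; simp) (by rw [e, h.cube]) (by
      intro hc
      obtain ⟨l, hl⟩ := isConj_iff.1 hc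
      refine hn (h.cz_eq hx (g := k⁻¹ * l * g) ?_)
      calc _ = k⁻¹ * (l * (g * E (x, 0) * g⁻¹) * l⁻¹) * k := by group
        _ = _ := by rw [hl]; group)
  have cj : ∀ (l : G) {s : G}, Commute c s → Commute (l⁻¹ * c * l) (l⁻¹ * s * l) := fun l s hs => by
    change _ = _
    calc _ = l⁻¹ * (c * s) * l := by group
      _ = _ := by rw [hs.eq]; group
  have n1 : ∀ l : G, l⁻¹ * c * l ≠ 1 := fun l e => c1 (by
    calc c = l * (l⁻¹ * c * l) * l⁻¹ := by group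
      _ = 1 := by rw [e]; group)
  have n3 : ∀ l : G, (l⁻¹ * c * l) ^ 3 = 1 := fun l => by
    rw [show l⁻¹ * c * l = l⁻¹ * c * l⁻¹⁻¹ by group, conj_pow, c3]; simp
  by_cases h2 : cls (x, 0) = 2
  · have h3 : cls (y, 0) ≠ 2 := fun e => hn (by rw [h2, e])
    have m1 := h.cen_J hy h3 (n1 k) (n3 k) (by simpa [mul_assoc] using cj k cv) (cj k cu)
    have m2 : k⁻¹ ∈ H := h.ti hz (by
      rw [← e]
      convert mul_mem m1 (h.memE (y, 0)) using 1; group)
    have m3 : k⁻¹ * g ∈ H := h.ti hx (by convert m1 using 1; group)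
    exact ⟨by simpa using mul_mem (inv_mem m2) m3, by simpa using inv_mem m2⟩
  · have m1 := h.cen_J hx h2 (n1 g) (n3 g) (by simpa [mul_assoc] using cj g cu) (cj g cv)
    have m2 : g⁻¹ ∈ H := h.ti hz (by
      rw [← e]
      convert mul_mem (h.memE (x, 0)) m1 using 1; group)
    have m3 : g⁻¹ * k ∈ H := h.ti hy (by convert m1 using 1; group)
    exact ⟨by simpa using inv_mem m2, by simpa using mul_mem (inv_mem m2) m3⟩

theorem Md.card3 [Finite G] (h : Md H E) {x y z : V} (hx : x ≠ 0) (hy : y ≠ 0) (hz : z ≠ 0)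
    (hn : cz (cls (x, 0)) ≠ cz (cls (y, 0))) :
    Nat.card {p : G × G // p.1 * E (x, 0) * p.1⁻¹ * (p.2 * E (y, 0) * p.2⁻¹) = E (z, 0)} =
      ∑ a : V, cnt (x, 0) (a, 0) * cnt (y, 0) (z - a, 0) := by
  have c : ∀ {x : V}, x ≠ 0 → ∀ a : V, Nat.card {g : G // g * E (x, 0) * g⁻¹ = E (a, 0)} =
      cnt (x, 0) (a, 0) := fun hx a => h.card_of fun g hg => h.ti hx (hg ▸ h.memE _)
  simp only [← c hx, ← c hy, ← Nat.card_prod]
  rw [← Nat.card_sigma]
  refine (Nat.card_congr (Equiv.ofBijective (fun p => ⟨(p.2.1.1, p.2.2.1), by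
    rw [p.2.1.2, p.2.2.2, ← h.add, add_sub_cancel]⟩) ⟨?_, ?_⟩)).symm
  · rintro ⟨a, ⟨g, hg⟩, ⟨k, hk⟩⟩ ⟨b, ⟨g', hg'⟩, ⟨k', hk'⟩⟩ e
    simp only [Subtype.mk.injEq, Prod.mk.injEq] at e
    obtain ⟨rfl, rfl⟩ := e
    obtain rfl : a = b := by simpa using h.inj (hg.symm.trans hg')
    rfl
  · rintro ⟨⟨g, k⟩, e⟩
    obtain ⟨m1, -⟩ := h.tri hx hy hz hn e
    obtain ⟨a, ha⟩ := h.sc x g (mul_mem (mul_mem m1 (h.memE _)) (inv_mem m1))
    refine ⟨⟨a, ⟨g, ha⟩, ⟨k, ?_⟩⟩, rfl⟩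
    rw [ha] at e
    refine mul_left_cancel (a := E (a, 0)) ?_
    rw [e, ← h.add, add_sub_cancel]

end Cfsg.Agent.A9N
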