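import Mathlib
import Cfsg.Agent.Inv.A9N3
import Cfsg.Agent.Inv.A9N4

/-! Integrality of the character values on the special classes of `3^3 : S4`. -/

set_option autoImplicit false

open scoped ComplexConjugate

namespace Cfsg.Agent.A9N

open Subgroup Finset Cfsg.Agent.FGS Cfsg.Agent.Char Complex

variable {G : Type*} [Group G]

theorem proj {ι : Type*} [Fintype ι] [Nonempty ι] {χ : G → ℂ} (hχ : IsCharacter G χ) (g : ι → G)
    (μ : ι → ℂ) (h : ∀ a, ∃ e : ι → ι, Function.Injective e ∧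
      ∀ b, g (e b) = g a * g b ∧ μ (e b) = μ a * μ b) :
    ∃ n : ℕ, ∑ b, μ b * χ (g b) = Fintype.card ι * n := by
  obtain ⟨k, ρ, rfl⟩ := hχ
  have h0 : (Fintype.card ι : ℂ) ≠ 0 := Nat.cast_ne_zero.2 Fintype.card_ne_zero
  set P : Module.End ℂ (Fin k → ℂ) := ∑ b, μ b • ρ (g b) with hP
  have h1 : ∀ a, (μ a • ρ (g a)) * P = P := fun a => by
    obtain ⟨e, he, h2⟩ := h a
    rw [hP, mul_sum]
    refine (Fintype.sum_bijective e (Finite.injective_iff_bijective.1 he) _ _ fun b => ?_)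
    rw [(h2 b).1, (h2 b).2, map_mul, smul_mul_smul_comm]
  have h2 : P * P = (Fintype.card ι : ℂ) • P := by
    conv_lhs => lhs; rw [hP]
    rw [sum_mul]
    simp only [h1, sum_const, card_univ, Nat.cast_smul_eq_nsmul]
  have h3 : IsIdempotentElem ((Fintype.card ι : ℂ)⁻¹ • P) := by
    rw [IsIdempotentElem, smul_mul_smul_comm, h2, smul_smul, mul_assoc, inv_mul_cancel₀ h0, mul_one]
  have h4 := (LinearMap.IsIdempotentElem.isProj_range _ h3).trace
  refine ⟨Module.finrank ℂ (LinearMap.range ((Fintype.card ι : ℂ)⁻¹ • P)), ?_⟩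
  rw [← h4, map_smul, smul_eq_mul, mul_inv_cancel_left₀ h0, hP, map_sum]
  simp [Representation.character]

noncomputable def rt : ℝ := √3
noncomputable def om : ℂ := (-1 + rt * I) / 2
theorem rt_sq : rt ^ 2 = 3 := Real.sq_sqrt (by norm_num)
theorem rt_sq' : (rt : ℂ) ^ 2 = 3 := by exact_mod_cast rt_sq
theorem om_eq : om ^ 2 + om + 1 = 0 := by
  unfold om; linear_combination (I ^ 2 / 4) * rt_sq' + (3 / 4 : ℂ) * I_sq
theorem om_cube : om ^ 3 = 1 := by linear_combination (om - 1) * om_eq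
theorem om_del : I * (om - om ^ 2) = -rt := by
  have : om - om ^ 2 = rt * I := by rw [show om ^ 2 = -1 - om by linear_combination om_eq, om]; ring
  rw [this]; linear_combination (rt : ℂ) * I_sq

theorem pow_fin {N : ℕ} {z : ℂ} (hz : z ^ (N + 1) = 1) (a b : Fin (N + 1)) :
    z ^ (a + b).1 = z ^ a.1 * z ^ b.1 := by
  rw [Fin.val_add, ← pow_add, ← pow_eq_pow_mod _ hz]

theorem act_inj : ∀ m a b, act m a = act m b → a = b := by decide +kernel

variable {H : Subgroup G} {E : M → G} {χ : G → ℂ}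

theorem Md.pj (h : Md H E) (hχ : IsCharacter G χ) {N : ℕ} (sq : Fin (N + 1) → Fin 24)
    (hs : ∀ n k, A9N.mul (sq n) (sq k) = sq (n + k)) (l : V → Fin 3)
    (hl : ∀ n a b, l (a + act (sq n) b) = l a + l b) {z : ℂ} (hz : z ^ (N + 1) = 1) :
    ∃ m : ℕ, ∑ n, z ^ n.1 * ∑ a, om ^ (l a).1 * χ (E (a, sq n)) = 27 * (N + 1) * m := by
  obtain ⟨m, hm⟩ := proj hχ (fun p : V × Fin (N + 1) => E (p.1, sq p.2))
    (fun p => z ^ p.2.1 * om ^ (l p.1).1) fun a => ⟨fun b => (a.1 + act (sq a.2) b.1, a.2 + b.2),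
      fun b c e => Prod.ext (act_inj _ _ _ (add_left_cancel (congrArg Prod.fst e)))
        (add_left_cancel (congrArg Prod.snd e)),
      fun b => ⟨by rw [← h.mul, mm, hs], by
        simp only [hl, pow_fin hz, pow_fin (N := 2) om_cube]; ring⟩⟩
  refine ⟨m, ?_⟩
  rw [Fintype.sum_prod_type_right] at hm
  simp only [mul_sum, ← mul_assoc]
  rw [hm]; simp

/-- The difference of the sums for `l` and for the trivial form. -/
noncomputable def DD (E : M → G) (χ : G → ℂ) (l : V → Fin 3) (q : Fin 24) : ℂ :=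
  ∑ a, (om ^ (l a).1 - 1) * χ (E (a, q))

theorem Md.pj2 (h : Md H E) (hχ : IsCharacter G χ) {N : ℕ} (sq : Fin (N + 1) → Fin 24)
    (hs : ∀ n k, A9N.mul (sq n) (sq k) = sq (n + k)) (l : V → Fin 3)
    (hl : ∀ n a b, l (a + act (sq n) b) = l a + l b) {z : ℂ} (hz : z ^ (N + 1) = 1) :
    ∃ m : ℤ, ∑ n, z ^ n.1 * DD E χ l (sq n) = 27 * (N + 1) * m := by
  obtain ⟨m, hm⟩ := h.pj hχ sq hs l hl hz
  obtain ⟨m', hm'⟩ := h.pj hχ sq hs (fun _ => 0) (fun _ _ _ => rfl) hz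
  refine ⟨m - m', ?_⟩
  simp only [DD, sub_mul, sum_sub_distrib, mul_sub, hm]
  simp only [Fin.val_zero, pow_zero] at hm'
  rw [hm']; push_cast; ring

theorem Md.val (h : Md H E) (hχ : IsCharacter G χ) {x : M} (hx : cls x ≠ 9) :
    χ (E x) = χ (E (rep (cls x))) := by
  obtain ⟨y, hy⟩ := cls_conj x hx
  have := congrArg E hy
  rw [h.mul, h.mul] at this
  rw [← isChar_classFun hχ (E (rep (cls x))) (E y), this, mul_inv_cancel_right]

theorem sum_tb (φ : V → Fin 3 × Fin 10) (F : Fin 3 × Fin 10 → ℂ) (L : List (ℕ × Fin 3 × Fin 10))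
    (h : univ.val.map φ = (L.map fun t => Multiset.replicate t.1 t.2).sum) :
    ∑ a, F (φ a) = (L.map fun t => t.1 * F t.2).sum := by
  rw [Finset.sum, ← Function.comp_def F φ, ← Multiset.map_map, h]
  clear h
  induction L with
  | nil => simp
  | cons t L ih => simp [ih]

theorem Md.DD_eq (h : Md H E) (hχ : IsCharacter G χ) (l : V → Fin 3) (q : Fin 24)
    (L : List (ℕ × Fin 3 × Fin 10)) (hL : (∀ a, l a ≠ 0 → cls (a, q) ≠ 9) ∧
      univ.val.map (fun a => if l a = 0 then (0, 9) else (l a, cls (a, q))) =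
      (L.map fun t => Multiset.replicate t.1 t.2).sum) :
    DD E χ l q = (L.map fun t => t.1 * ((om ^ t.2.1.1 - 1) * χ (E (rep t.2.2)))).sum := by
  rw [← sum_tb _ (fun t => (om ^ t.1.1 - 1) * χ (E (rep t.2))) L hL.2]
  refine sum_congr rfl fun a _ => ?_
  by_cases e : l a = 0
  · simp [e]
  · simp only [if_neg e]
    rw [h.val hχ (hL.1 a e)]

def l6 (a : V) : Fin 3 := a.1
def l12 (a : V) : Fin 3 := a.1 + a.2.1
def l8 (a : V) : Fin 3 := a.1 + a.2.1 + a.2.2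

/-- The real character values. -/
noncomputable def xr (Y : Fin 9 → ℤ) : Fin 9 → ℝ :=
  ![Y 0, Y 1, Y 2, Y 3, Y 4 - rt * Y 5, Y 4 + rt * Y 5, Y 6, Y 7, Y 8]

theorem Md.par (h : Md H E) (hχ : IsCharacter G χ) {d : ℕ} (hd : χ 1 = d) :
    ∃ Y : Fin 9 → ℤ, Par Y d ∧ ∀ i : Fin 9, χ (E (rep i.castSucc)) = xr Y i := by
  have s0 : ∀ n k : Fin 1, A9N.mul (![0] n) (![0] k) = ![0] (n + k) := by decide +kernel
  have s6 : ∀ n k : Fin 4, A9N.mul (![0, 20, 2, 22] n) (![0, 20, 2, 22] k) =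
      ![0, 20, 2, 22] (n + k) := by decide +kernel
  have s12 : ∀ n k : Fin 2, A9N.mul (![0, 12] n) (![0, 12] k) = ![0, 12] (n + k) := by
    decide +kernel
  have s8 : ∀ n k : Fin 3, A9N.mul (![0, 4, 8] n) (![0, 4, 8] k) = ![0, 4, 8] (n + k) := by
    decide +kernel
  have t6 : ∀ (n : Fin 4) a b, l6 (a + act (![0, 20, 2, 22] n) b) = l6 a + l6 b := by decide +kernel
  have t8 : ∀ (n : Fin 3) a b, l8 (a + act (![0, 4, 8] n) b) = l8 a + l8 b := by decide +kernel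
  obtain ⟨m0, h0⟩ := h.pj hχ _ s0 (fun _ => 0) (fun _ _ _ => rfl) (one_pow _)
  obtain ⟨m6, h6⟩ := h.pj hχ _ s0 l6 (by decide +kernel) (one_pow _)
  obtain ⟨m12, h12⟩ := h.pj hχ _ s0 l12 (by decide +kernel) (one_pow _)
  obtain ⟨m8, h8⟩ := h.pj hχ _ s0 l8 (by decide +kernel) (one_pow _)
  obtain ⟨p0, e0⟩ := h.pj2 hχ _ s6 l6 t6 (one_pow _)
  obtain ⟨p1, e1⟩ := h.pj2 hχ _ s6 l6 t6 I_pow_four
  obtain ⟨p2, e2⟩ := h.pj2 hχ _ s6 l6 t6 (z := -1) (by norm_num)
  obtain ⟨p3, e3⟩ := h.pj2 hχ _ s6 l6 t6 (z := -I) (by linear_combination I_pow_four)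
  obtain ⟨p4, e4⟩ := h.pj2 hχ _ s12 l12 (by decide +kernel) (one_pow _)
  obtain ⟨q1, f1⟩ := h.pj2 hχ _ s8 l8 t8 om_cube
  obtain ⟨q2, f2⟩ := h.pj2 hχ _ s8 l8 t8 (z := om ^ 2) (by linear_combination (om ^ 3 + 1) * om_cube)
  simp only [Fin.sum_univ_succ, Fin.sum_univ_zero, Matrix.cons_val_zero, Matrix.cons_val_succ,
    Fin.val_zero, Fin.val_succ, pow_zero, one_mul, add_zero, one_pow] at h0 h6 h12 h8 e0 e1 e2 e3 e4 f1 f2
  have g6 : DD E χ l6 0 = 27 * (m6 - m0) := by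
    simp only [DD, sub_mul, sum_sub_distrib, one_mul, h6, h0]; push_cast; ring
  have g12 : DD E χ l12 0 = 27 * (m12 - m0) := by
    simp only [DD, sub_mul, sum_sub_distrib, one_mul, h12, h0]; push_cast; ring
  have g8 : DD E χ l8 0 = 27 * (m8 - m0) := by
    simp only [DD, sub_mul, sum_sub_distrib, one_mul, h8, h0]; push_cast; ring
  have g0 : ∑ a, χ (E (a, 0)) = _ := (sum_congr rfl fun a _ => by
      by_cases e : a = 0
      · subst e; rfl
      · exact h.val hχ ((by decide +kernel : ∀ a : V, a ≠ 0 → cls (a, 0) ≠ 9) a e)).trans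
    (sum_tb (fun a => (0, cls (a, 0))) (fun t => χ (E (rep t.2)))
      [(1, 0, 9), (6, 0, 0), (12, 0, 1), (8, 0, 2)] (by decide +kernel))
  have d60 := h.DD_eq hχ l6 0 [(9, 0, 9), (1, 1, 0), (4, 1, 1), (4, 1, 2), (1, 2, 0), (4, 2, 1),
    (4, 2, 2)] (by decide +kernel)
  have d61 := h.DD_eq hχ l6 20 [(9, 0, 9), (9, 1, 4), (9, 2, 5)] (by decide +kernel)
  have d62 := h.DD_eq hχ l6 2 [(9, 0, 9), (9, 1, 3), (9, 2, 3)] (by decide +kernel)
  have d63 := h.DD_eq hχ l6 22 [(9, 0, 9), (9, 1, 5), (9, 2, 4)] (by decide +kernel)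
  have d120 := h.DD_eq hχ l12 0 [(9, 0, 9), (2, 1, 0), (5, 1, 1), (2, 1, 2), (2, 2, 0), (5, 2, 1),
    (2, 2, 2)] (by decide +kernel)
  have d121 := h.DD_eq hχ l12 12 [(9, 0, 9), (9, 1, 6), (9, 2, 6)] (by decide +kernel)
  have d80 := h.DD_eq hχ l8 0 [(9, 0, 9), (3, 1, 0), (3, 1, 1), (3, 1, 2), (3, 2, 0), (3, 2, 1),
    (3, 2, 2)] (by decide +kernel)
  have d81 := h.DD_eq hχ l8 4 [(9, 0, 9), (9, 1, 7), (9, 2, 8)] (by decide +kernel)
  have d82 := h.DD_eq hχ l8 8 [(9, 0, 9), (9, 1, 8), (9, 2, 7)] (by decide +kernel)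
  have r9 : χ (E (rep 9)) = d := by rw [← hd, ← h.one]; rfl
  simp only [List.map_cons, List.map_nil, List.sum_cons, List.sum_nil, Fin.val_zero, Fin.val_one,
    Fin.val_two, r9] at g0 d60 d61 d62 d63 d120 d121 d80 d81 d82
  rw [h0] at g0
  rw [d61, d62, d63, g6] at e0 e1 e2 e3
  rw [d121, g12] at e4
  rw [d81, d82, g8] at f1 f2
  rw [g6] at d60
  rw [g12] at d120
  rw [g8] at d80
  push_cast at g0 d60 d120 d80 e0 e1 e2 e3 e4 f1 f2
  have w := om_eq
  have w3 := om_cube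
  have wd := om_del
  have hI := I_sq
  have hr := rt_sq'
  have key : ∀ i : Fin 9, χ (E (rep i.castSucc)) = ![χ (E (rep 0)), χ (E (rep 1)), χ (E (rep 2)),
      χ (E (rep 3)), χ (E (rep 4)), χ (E (rep 5)), χ (E (rep 6)), χ (E (rep 7)), χ (E (rep 8))] i := by
    intro i; fin_cases i <;> rfl
  simp only [key]
  clear key
  generalize χ (E (rep 0)) = X0 at *
  generalize χ (E (rep 1)) = X1 at *
  generalize χ (E (rep 2)) = X2 at *
  generalize χ (E (rep 3)) = X3 at *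
  generalize χ (E (rep 4)) = X4 at *
  generalize χ (E (rep 5)) = X5 at *
  generalize χ (E (rep 6)) = X6 at *
  generalize χ (E (rep 7)) = X7 at *
  generalize χ (E (rep 8)) = X8 at *
  have k6 : X0 + 4 * X1 + 4 * X2 = -9 * (m6 - m0) := by
    linear_combination (1 / 3) * d60 + (1 / 3) * (X0 + 4 * X1 + 4 * X2) * w
  have k12 : 2 * X0 + 5 * X1 + 2 * X2 = -9 * (m12 - m0) := by
    linear_combination (1 / 3) * d120 + (1 / 3) * (2 * X0 + 5 * X1 + 2 * X2) * w
  have k8 : 3 * (X0 + X1 + X2) = -9 * (m8 - m0) := by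
    linear_combination (1 / 3) * d80 + (X0 + X1 + X2) * w
  have x1 : X1 = -3 * (m12 - m0) + 2 * (m8 - m0) := by
    linear_combination (1 / 3) * k12 - (2 / 9) * k8
  have x2 : X2 = -3 * (m6 - m0) + 3 * (m12 - m0) - (m8 - m0) := by
    linear_combination (1 / 3) * k6 - (1 / 9) * k8 - x1
  have x0 : X0 = 3 * (m6 - m0) - 4 * (m8 - m0) := by linear_combination (1 / 3) * k8 - x1 - x2
  have c0 : 27 * (m6 - m0) - 27 * (X4 + X5) - 27 * X3 = 108 * p0 := by
    linear_combination e0 - 9 * (X3 + X4 + X5) * w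
  have c2 : 27 * (m6 - m0) + 27 * (X4 + X5) - 27 * X3 = 108 * p2 := by
    linear_combination e2 - 9 * (X3 - X4 - X5) * w
  have c1 : 27 * (m6 - m0) + 27 * X3 + 9 * rt * (X5 - X4) = 108 * p1 := by
    linear_combination e1 - 9 * (X4 - X5) * wd - (I * (9 * ((om - 1) * X5 + (om ^ 2 - 1) * X4)) +
      9 * (om + om ^ 2 - 2) * X3) * hI + 9 * X3 * w
  have c3 : 27 * (m6 - m0) + 27 * X3 - 9 * rt * (X5 - X4) = 108 * p3 := by
    linear_combination e3 + 9 * (X4 - X5) * wd - (9 * (om + om ^ 2 - 2) * X3 -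
      I * (9 * ((om - 1) * X5 + (om ^ 2 - 1) * X4))) * hI + 9 * X3 * w
  have x3 : X3 = m6 - m0 - 2 * (p0 + p2) := by linear_combination (-1 / 54) * (c0 + c2)
  have x45 : X4 + X5 = 2 * (p2 - p0) := by linear_combination (1 / 54) * (c2 - c0)
  have xd : X5 - X4 = 2 * rt * (p1 - p3) := by
    linear_combination (rt / 54) * (c1 - c3) - ((X5 - X4) / 3) * hr
  have x4 : X4 = (p2 - p0) - rt * (p1 - p3) := by linear_combination (1 / 2) * (x45 - xd)
  have x5 : X5 = (p2 - p0) + rt * (p1 - p3) := by linear_combination (1 / 2) * (x45 + xd)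
  have x6 : X6 = m12 - m0 - 2 * p4 := by linear_combination (-1 / 27) * e4 + X6 / 3 * w
  have x8 : X8 = 3 * q1 - (m8 - m0) := by
    linear_combination (1 / 27) * (f1 - 9 * X7 * om * w3 - 18 * X8 * w3 + 9 * X8 * w)
  have x7 : X7 = 3 * q2 - (m8 - m0) := by
    linear_combination (1 / 27) * (f2 - 9 * X8 * om ^ 2 * w3 - 9 * X7 * (om ^ 3 + 2 - om) * w3 +
      9 * X7 * w)
  have i1 : (m6 - m0 : ℤ) = p0 + p1 + p2 + p3 := by
    have : ((m6 - m0 : ℤ) : ℂ) = ((p0 + p1 + p2 + p3 : ℤ) : ℂ) := by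
      push_cast; linear_combination (1 / 108) * (c0 + c1 + c2 + c3)
    exact_mod_cast this
  have i2 : (d : ℤ) = 6 * (m6 - m0) + 12 * (m12 - m0) + 8 * (m8 - m0) + 27 * m0 := by
    have : ((d : ℤ) : ℂ) = ((6 * (m6 - m0) + 12 * (m12 - m0) + 8 * (m8 - m0) + 27 * m0 : ℤ) : ℂ) := by
      push_cast; linear_combination -g0 - 6 * x0 - 12 * x1 - 8 * x2
    exact_mod_cast this
  refine ⟨![3 * (m6 - m0) - 4 * (m8 - m0), -3 * (m12 - m0) + 2 * (m8 - m0),
    -3 * (m6 - m0) + 3 * (m12 - m0) - (m8 - m0), m6 - m0 - 2 * (p0 + p2), p2 - p0, p1 - p3,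
    m12 - m0 - 2 * p4, 3 * q2 - (m8 - m0), 3 * q1 - (m8 - m0)],
    ⟨m6 - m0, m12 - m0, m8 - m0, m0, rfl, rfl, rfl, ?_, ?_, ?_, ?_, ?_, i2, by omega, by omega,
      by omega⟩, fun i => ?_⟩
  · change (m6 - m0 - (m6 - m0 - 2 * (p0 + p2)) + 2 * (p2 - p0) : ℤ) % 4 = 0; omega
  · change (m6 - m0 + (m6 - m0 - 2 * (p0 + p2)) + 2 * (p1 - p3) : ℤ) % 4 = 0; omega
  · change (m12 - m0 + (m12 - m0 - 2 * p4) : ℤ) % 2 = 0; omega
  · change (m8 - m0 + (3 * q2 - (m8 - m0)) : ℤ) % 3 = 0; omega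
  · change (m8 - m0 + (3 * q1 - (m8 - m0)) : ℤ) % 3 = 0; omega
  · fin_cases i <;> simp [xr, x0, x1, x2, x3, x4, x5, x6, x7, x8]

noncomputable def TT : Fin 9 → Fin 9 → ℝ := fun i k =>
  if i = 4 then (if k = 4 ∨ k = 5 then 1 / 2 else 0) else
  if i = 5 then (if k = 4 then -rt / 6 else if k = 5 then rt / 6 else 0) else if k = i then 1 else 0

theorem TT_xr (Y : Fin 9 → ℤ) (i : Fin 9) : (Y i : ℝ) = ∑ k, TT i k * xr Y k := by
  have hr := rt_sq
  fin_cases i <;> simp [TT, xr, Fin.sum_univ_succ]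
  · ring
  · linear_combination (-(Y 5 : ℝ) / 3) * hr

theorem TT_sq (i j : Fin 9) : ∑ k, TT i k * TT j k * cz k.castSucc =
    ((if i = j then cc i else 0 : ℤ) : ℝ) := by
  have hr := rt_sq
  fin_cases i <;> fin_cases j <;> simp [TT, cz, cc, Fin.sum_univ_succ]
  all_goals first | linear_combination (2 / 3) * hr | ring

def tx : Fin 7 → Fin 9 := ![0, 0, 0, 0, 0, 1, 1]
def ty : Fin 7 → Fin 9 := ![2, 1, 1, 1, 2, 2, 2]
def tz : Fin 7 → Fin 9 := ![0, 0, 1, 2, 2, 1, 2]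

theorem t_val : ∀ t : Fin 7, (tx t).1 < 3 ∧ (ty t).1 < 3 ∧ (rep (tx t).castSucc).2 = 0 ∧
    (rep (ty t).castSucc).2 = 0 ∧ (rep (tz t).castSucc).2 = 0 ∧ (rep (tx t).castSucc).1 ≠ 0 ∧
    (rep (ty t).castSucc).1 ≠ 0 ∧ (rep (tz t).castSucc).1 ≠ 0 ∧
    cz (cls ((rep (tx t).castSucc).1, 0)) ≠ cz (cls ((rep (ty t).castSucc).1, 0)) ∧
    ((∑ a : V, (if cls (a, 0) = (tx t).castSucc then cz (tx t).castSucc else 0) *
      (if cls ((rep (tz t).castSucc).1 - a, 0) = (ty t).castSucc then cz (ty t).castSucc else 0) : ℕ) : ℤ)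
      = nn t := by decide +kernel

theorem Md.top [Finite G] (h : Md H E) : H = ⊤ := by
  choose d d0 dd hd using fun χ : IrrCharacter G => isIrr_degree' χ.2
  choose Y hY hX using fun χ : IrrCharacter G => h.par (isIrr_isChar χ.2) (hd χ)
  have hc : Nat.card G = 648 * H.index := by rw [← H.card_mul_index, h.card_H]
  let i0 : IrrCharacter G := ⟨fun _ => 1, isIrr_one⟩
  refine index_eq_one.1 (arith (Y := Y) (d := d) (i0 := i0) h.index d0 (fun i j => ?_) (fun t => ?_)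
    ?_ ?_ hY (fun χ => hc ▸ dd χ) fun χ => ?_)
  · have h1 : ∀ k l : Fin 9, ∑ χ, xr (Y χ) k * xr (Y χ) l = if k = l then (cz k.castSucc : ℝ) else 0 := by
      intro k l
      have := tsum2 (E (rep k.castSucc)) (E (rep l.castSucc))
      rw [h.card_rep (Fin.castSucc_ne_last k), cnt_rep] at this
      simp only [hX, conj_ofReal, Fin.castSucc_inj] at this
      refine ofReal_injective ?_
      push_cast
      rw [this]; split_ifs <;> simp
    refine Int.cast_injective (α := ℝ) ?_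
    rw [← TT_sq]
    push_cast
    simp only [TT_xr, sum_mul_sum]
    rw [sum_comm]
    refine sum_congr rfl fun k _ => ?_
    rw [sum_comm]
    have : ∀ l, ∑ χ, TT i k * xr (Y χ) k * (TT j l * xr (Y χ) l) =
        TT i k * TT j l * if k = l then (cz k.castSucc : ℝ) else 0 := fun l => by
      rw [← h1, mul_sum]; exact sum_congr rfl fun _ _ => by ring
    simp [this]
  · obtain ⟨h1, h2, h3, h4, h5, h6, h7, h8, h9, h10⟩ := t_val t
    have e : ∀ {x : M}, x.2 = 0 → (x.1, 0) = x := fun hx => Prod.ext rfl hx.symm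
    have k1 := h.card3 h6 h7 h8 h9
    rw [e h3, e h4, e h5] at k1
    simp only [cnt_rJ (tx t).castSucc h1, cnt_rJ (ty t).castSucc h2] at k1
    have := tsum3 (E (rep (tx t).castSucc)) (E (rep (ty t).castSucc)) (E (rep (tz t).castSucc))
    rw [k1, hc] at this
    simp only [hX, hd, conj_ofReal] at this
    have e2 : ∀ χ, (mon (Y χ 0) (Y χ 1) (Y χ 2) t : ℝ) =
        xr (Y χ) (tx t) * xr (Y χ) (ty t) * xr (Y χ) (tz t) := fun χ => by
      fin_cases t <;> simp [mon, xr, tx, ty, tz]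
    simp only [e2, ← h10]
    refine ofReal_injective ?_
    generalize (∑ a : V, (if cls (a, 0) = (tx t).castSucc then cz (tx t).castSucc else 0) *
      (if cls ((rep (tz t).castSucc).1 - a, 0) = (ty t).castSucc then cz (ty t).castSucc else 0) : ℕ)
      = N at this ⊢
    push_cast at this ⊢
    exact this
  · have h1 : ∀ i, xr (Y i0) i = 1 := fun i => by
      exact_mod_cast (show ((xr (Y i0) i : ℝ) : ℂ) = 1 from (hX i0 i).symm)
    funext i
    refine Int.cast_injective (α := ℝ) ?_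
    rw [TT_xr]
    fin_cases i <;> simp [h1, TT, ee, Fin.sum_univ_succ]
    all_goals ring
  · exact_mod_cast (show (d i0 : ℂ) = 1 from (hd i0).symm)
  · have := tsum2 (1 : G) 1
    simp only [hd, conj_natCast, mul_one, mul_inv_cancel, Nat.card_subtype_true] at this
    have h2 : ∑ χ, d χ * d χ = Nat.card G := by exact_mod_cast this
    rw [← hc, ← h2, sq]
    exact single_le_sum (f := fun χ => d χ * d χ) (fun _ _ => Nat.zero_le _) (mem_univ χ)

end Cfsg.Agent.A9N
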