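import Mathlib
import Cfsg.Agent.Char.Indicator
import Cfsg.Agent.Char.Expand
import Cfsg.Agent.Char.Virtual

/-! The centralizer ring of a permutation action: central idempotents as matrices. -/

set_option autoImplicit false
open Cfsg

namespace Cfsg.Agent.Inv.CR

open Finset Matrix MulAction Cfsg.Agent.Char
open scoped ComplexConjugate

variable {G : Type*} [Group G] {Ω : Type*} [MulAction G Ω] [DecidableEq Ω]

/-- The permutation matrix of `g`. -/
def pm (Ω : Type*) [MulAction G Ω] [DecidableEq Ω] (g : G) : Matrix Ω Ω ℂ :=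
  Matrix.of fun u v => if g • v = u then 1 else 0

/-- The permutation character. -/
noncomputable def pc (G : Type*) [Group G] (Ω : Type*) [MulAction G Ω] : G → ℂ :=
  fun g => (Nat.card (fixedBy Ω g) : ℂ)

omit [DecidableEq Ω] in
theorem pc_isChar [Finite Ω] : IsCharacter G (pc G Ω) := isChar_perm Ω

theorem pm_one : pm Ω (1 : G) = 1 := by
  ext u v; simp [pm, Matrix.one_apply, eq_comm]

theorem pm_conjTranspose (g : G) : (pm Ω g)ᴴ = pm Ω g⁻¹ := by
  ext u v
  simp only [pm, conjTranspose_apply, of_apply, inv_smul_eq_iff, eq_comm (a := v)]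
  split_ifs <;> simp

/-- Invariant matrices. -/
def IsInv (G : Type*) [Group G] {Ω : Type*} [MulAction G Ω] (M : Matrix Ω Ω ℂ) : Prop :=
  ∀ (g : G) (u v : Ω), M (g • u) (g • v) = M u v

variable [Fintype Ω]

theorem pm_mul_apply (g : G) (M : Matrix Ω Ω ℂ) (u v : Ω) : (pm Ω g * M) u v = M (g⁻¹ • u) v := by
  simp only [Matrix.mul_apply, pm, of_apply, ite_mul, one_mul, zero_mul, smul_eq_iff_eq_inv_smul]
  simp

theorem mul_pm_apply (g : G) (M : Matrix Ω Ω ℂ) (u v : Ω) : (M * pm Ω g) u v = M u (g • v) := by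
  simp [Matrix.mul_apply, pm]

theorem pm_mul (g h : G) : pm Ω (g * h) = pm Ω g * pm Ω h := by
  ext u v
  rw [mul_pm_apply]
  simp [pm, mul_smul]

theorem pm_mulVec (g : G) (w : Ω → ℂ) (u : Ω) : (pm Ω g *ᵥ w) u = w (g⁻¹ • u) := by
  simp only [mulVec, dotProduct, pm, of_apply, ite_mul, one_mul, zero_mul, smul_eq_iff_eq_inv_smul]
  simp

theorem trace_pm (g : G) : (pm Ω g).trace = pc G Ω g := by
  simp only [Matrix.trace, Matrix.diag, pm, of_apply, sum_boole, pc]
  rw [Nat.card_eq_fintype_card, Fintype.card_subtype]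
  rfl

omit [DecidableEq Ω] in
theorem IsInv.mul {M N : Matrix Ω Ω ℂ} (hM : IsInv G M) (hN : IsInv G N) : IsInv G (M * N) := by
  intro g u v
  simp only [Matrix.mul_apply]
  rw [← Equiv.sum_comp (MulAction.toPerm g)]
  exact sum_congr rfl fun w _ => by simp only [toPerm_apply]; rw [hM, hN]

theorem IsInv.comm {M : Matrix Ω Ω ℂ} (hM : IsInv G M) (g : G) : pm Ω g * M = M * pm Ω g := by
  ext u v
  rw [pm_mul_apply, mul_pm_apply, ← hM g, smul_inv_smul]

variable [Fintype G]

/-- The central idempotent of a character acting on the permutation module. -/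
noncomputable def E (Ω : Type*) [MulAction G Ω] [DecidableEq Ω] (χ : G → ℂ) : Matrix Ω Ω ℂ :=
  ∑ g, (χ 1 / Nat.card G * conj (χ g)) • pm Ω g

omit [Fintype Ω] in
theorem isInv_E {χ : G → ℂ} (h : IsClassFunction G χ) : IsInv G (E Ω χ) := by
  intro g u v
  simp only [E, Matrix.sum_apply, Matrix.smul_apply, pm, of_apply]
  rw [← Equiv.sum_comp (MulAut.conj g).toEquiv]
  refine sum_congr rfl fun x _ => ?_
  have h1 : χ (g * x * g⁻¹) = χ x := by simpa using classFun_conj_inv h x g⁻¹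
  simp [h1, mul_smul]

omit [Fintype Ω] in
theorem E_conjTranspose {χ : G → ℂ} (h : IsCharacter G χ) : (E Ω χ)ᴴ = E Ω χ := by
  simp only [E, conjTranspose_sum, conjTranspose_smul, pm_conjTranspose]
  rw [← Equiv.sum_comp (Equiv.inv G)]
  refine sum_congr rfl fun x _ => ?_
  simp [isChar_inv h, isChar_conj_one h]

theorem E_mul_E {χ ψ : G → ℂ} (hχ : IsIrrCharacter G χ) (hψ : IsIrrCharacter G ψ)
    [Decidable (ψ = χ)] : E Ω χ * E Ω ψ = if ψ = χ then E Ω χ else 0 := by
  have h1 : E Ω χ * E Ω ψ = ∑ k : G, (χ 1 / Nat.card G * (ψ 1 / Nat.card G) *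
      ∑ g : G, conj (χ g) * ψ (g * k⁻¹)) • pm Ω k := by
    simp only [E, Finset.sum_mul, Finset.mul_sum, Finset.sum_smul]
    rw [Finset.sum_comm (f := fun k g => (χ 1 / Nat.card G * (ψ 1 / Nat.card G) *
      (conj (χ g) * ψ (g * k⁻¹))) • pm Ω k), Finset.sum_comm]
    refine sum_congr rfl fun g _ => ?_
    rw [← Equiv.sum_comp (Equiv.mulLeft g⁻¹)]
    refine sum_congr rfl fun k _ => ?_
    rw [smul_mul_smul_comm, ← pm_mul, Equiv.coe_mulLeft, mul_inv_cancel_left,
      ← isIrr_inv hψ, _root_.mul_inv_rev, inv_inv, classFun_mul_comm (isIrr_classFun hψ)]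
    congr 1; ring
  rw [h1]
  simp only [isIrr_sum_conj_mul_mul hψ hχ]
  split_ifs with h
  · subst h
    refine sum_congr rfl fun k _ => ?_
    rw [isIrr_inv hχ]
    have := isIrr_one_ne_zero hχ
    have := card_ne_zero (G := G)
    congr 1; field_simp
  · simp

omit [Fintype Ω] in
theorem sum_E : ∑ χ : IrrCharacter G, E Ω (χ : G → ℂ) = 1 := by
  classical
  simp only [E]
  rw [Finset.sum_comm, ← pm_one (G := G), Finset.sum_eq_single (1 : G)]
  · rw [← Finset.sum_smul]
    have h1 := sum_irr_mul_conj_of_isConj (IsConj.refl (1 : G))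
    have h2 : ∑ χ : IrrCharacter G, (χ : G → ℂ) 1 / Nat.card G * conj ((χ : G → ℂ) 1) = 1 := by
      simp only [div_mul_eq_mul_div, ← Finset.sum_div, h1]
      rw [show Subgroup.centralizer ({1} : Set G) = ⊤ by simp, Subgroup.card_top,
        div_self card_ne_zero]
    rw [h2, one_smul]
  · intro g _ hg
    rw [← Finset.sum_smul]
    have h1 := sum_irr_mul_conj_of_not_isConj (g := (1 : G)) (h := g) (by simpa [eq_comm] using hg)
    simp only [div_mul_eq_mul_div, ← Finset.sum_div, h1]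
    simp
  · simp

theorem trace_E_mul {χ : G → ℂ} (hχ : IsIrrCharacter G χ) (h : G) :
    (E Ω χ * pm Ω h).trace = classInner (pc G Ω) χ * χ h := by
  classical
  simp only [E, Finset.sum_mul, smul_mul_assoc, ← pm_mul, trace_sum, trace_smul, trace_pm,
    smul_eq_mul]
  have h1 : ∀ g, pc G Ω g = ∑ ψ : IrrCharacter G, classInner (pc G Ω) ψ * (ψ : G → ℂ) g :=
    classFun_apply_eq_sum (isChar_classFun pc_isChar)
  calc ∑ g, χ 1 / Nat.card G * conj (χ g) * pc G Ω (g * h)
      = ∑ ψ : IrrCharacter G, χ 1 / Nat.card G * classInner (pc G Ω) ψ *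
          ∑ g, conj (χ g) * (ψ : G → ℂ) (g * h) := by
        simp only [h1 (_ * h), Finset.mul_sum]
        rw [Finset.sum_comm]
        exact sum_congr rfl fun _ _ => sum_congr rfl fun _ _ => by ring
    _ = _ := by
        rw [Finset.sum_eq_single ⟨χ, hχ⟩]
        · rw [isIrr_sum_conj_mul_mul hχ hχ, if_pos rfl]
          have := isIrr_one_ne_zero hχ
          have := card_ne_zero (G := G)
          field_simp
        · intro ψ _ hψ
          rw [isIrr_sum_conj_mul_mul ψ.2 hχ, if_neg (fun h => hψ (Subtype.ext h)), mul_zero]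
        · simp

theorem trace_E {χ : G → ℂ} (hχ : IsIrrCharacter G χ) :
    (E Ω χ).trace = classInner (pc G Ω) χ * χ 1 := by
  rw [← trace_E_mul hχ, pm_one, mul_one]

omit [Fintype G] [DecidableEq Ω] in
theorem eq_zero_of_trace {M : Matrix Ω Ω ℂ} (h1 : Mᴴ = M) (h2 : M * M = M) (h3 : M.trace = 0) :
    M = 0 := by
  open scoped ComplexOrder in
  exact trace_mul_conjTranspose_self_eq_zero_iff.mp (by rw [h1, h2, h3])

theorem E_mul_self {χ : G → ℂ} (hχ : IsIrrCharacter G χ) : E Ω χ * E Ω χ = E Ω χ := by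
  classical
  rw [E_mul_E hχ hχ, if_pos rfl]

theorem E_mul_ne {χ ψ : G → ℂ} (hχ : IsIrrCharacter G χ) (hψ : IsIrrCharacter G ψ) (h : χ ≠ ψ) :
    E Ω χ * E Ω ψ = 0 := by
  classical
  rw [E_mul_E hχ hψ, if_neg h.symm]

theorem E_eq_zero {χ : G → ℂ} (hχ : IsIrrCharacter G χ) (h : classInner (pc G Ω) χ = 0) :
    E Ω χ = 0 :=
  eq_zero_of_trace (E_conjTranspose (isIrr_isChar hχ)) (E_mul_self hχ) (by rw [trace_E hχ, h, zero_mul])

theorem E_ne_zero {χ : G → ℂ} (hχ : IsIrrCharacter G χ) (h : classInner (pc G Ω) χ ≠ 0) :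
    E Ω χ ≠ 0 := fun h0 => by
  have := trace_E (Ω := Ω) hχ
  rw [h0, trace_zero] at this
  exact mul_ne_zero h (isIrr_one_ne_zero hχ) this.symm

/-- In the multiplicity-free case the idempotents span the centralizer ring. -/
theorem exists_eq_sum (hm : ∀ χ : IrrCharacter G, classInner (pc G Ω) χ = 0 ∨ classInner (pc G Ω) χ = 1)
    {M : Matrix Ω Ω ℂ} (hM : IsInv G M) :
    ∃ θ : IrrCharacter G → ℂ, M = ∑ χ, θ χ • E Ω (χ : G → ℂ) := by
  classical
  set Q := orbitRel.Quotient G (Ω × Ω)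
  haveI : Fintype Q := Fintype.ofFinite _
  let L : Matrix Ω Ω ℂ →ₗ[ℂ] (Q → ℂ) :=
    { toFun := fun M q => M q.out.1 q.out.2, map_add' := fun _ _ => rfl, map_smul' := fun _ _ => rfl }
  have hL : ∀ M N, IsInv G M → IsInv G N → L M = L N → M = N := by
    intro M N h1 h2 h
    ext u v
    obtain ⟨g, hg⟩ : (Quotient.mk'' (u, v) : Q).out ∈ orbit G (u, v) :=
      orbitRel_apply.mp (Quotient.mk_out' (s₁ := orbitRel G (Ω × Ω)) (u, v))
    have h3 := congrFun h (Quotient.mk'' (u, v))
    change M _ _ = N _ _ at h3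
    rw [← hg] at h3
    exact (h1 g u v).symm.trans (h3.trans (h2 g u v))
  set C := {χ : IrrCharacter G // classInner (pc G Ω) χ = 1}
  have hcard : Fintype.card C = Fintype.card Q := by
    have h1 : classInner (pc G Ω) (pc G Ω) = _ := classInner_perm_perm (G := G) Ω Ω
    rw [classInner_eq_sum (isChar_classFun pc_isChar)] at h1
    rw [Fintype.card_subtype, card_filter, ← Nat.card_eq_fintype_card]
    apply Nat.cast_injective (R := ℂ)
    rw [← h1]
    push_cast
    refine sum_congr rfl fun χ _ => ?_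
    rcases hm χ with h | h <;> simp [h]
  have hinv : ∀ θ : C → ℂ, IsInv G (∑ χ, θ χ • E Ω ((χ : IrrCharacter G) : G → ℂ)) := by
    intro θ g u v
    simp only [Matrix.sum_apply, Matrix.smul_apply, isInv_E (irr_classFun _) g u v]
  have hli : LinearIndependent ℂ fun χ : C => L (E Ω ((χ : IrrCharacter G) : G → ℂ)) := by
    rw [Fintype.linearIndependent_iff]
    intro θ hθ χ
    have h1 : ∑ χ, θ χ • E Ω ((χ : IrrCharacter G) : G → ℂ) = 0 :=
      hL _ _ (hinv θ) (fun _ _ _ => rfl) (by simpa only [map_sum, map_smul, map_zero] using hθ)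
    have h2 := congrArg (· * E Ω ((χ : IrrCharacter G) : G → ℂ)) h1
    simp only [Finset.sum_mul, smul_mul_assoc, zero_mul] at h2
    rw [Finset.sum_eq_single χ, E_mul_self χ.1.2] at h2
    · exact (smul_eq_zero.mp h2).resolve_right (E_ne_zero χ.1.2 (by rw [χ.2]; exact one_ne_zero))
    · intro ψ _ hψ
      rw [E_mul_ne ψ.1.2 χ.1.2 (fun h => hψ (Subtype.ext (Subtype.ext h))), smul_zero]
    · simp
  have hsp := hli.span_eq_top_of_card_eq_finrank' (by simp [hcard])
  obtain ⟨θ, hθ⟩ := (Submodule.mem_span_range_iff_exists_fun ℂ).mp (hsp ▸ Submodule.mem_top (x := L M))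
  have h3 := hL _ _ (hinv θ) hM (by simpa only [map_sum, map_smul] using hθ)
  refine ⟨fun χ => if h : classInner (pc G Ω) χ = 1 then θ ⟨χ, h⟩ else 0, ?_⟩
  rw [← h3, ← Fintype.sum_subtype_add_sum_subtype (fun χ : IrrCharacter G => classInner (pc G Ω) χ = 1)]
  rw [Finset.sum_eq_zero (s := univ) (f := fun i : {x : IrrCharacter G // ¬ classInner (pc G Ω) x = 1} => _),
    add_zero]
  · exact sum_congr rfl fun χ _ => by simp only [dif_pos χ.2]; rfl
  · intro χ _
    simp only [dif_neg χ.2, zero_smul]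

omit [DecidableEq Ω] [Fintype G] [Fintype Ω] in
theorem card_orbits_prod [IsPretransitive G Ω] (a : Ω) :
    Nat.card (orbitRel.Quotient (stabilizer G a) Ω) = Nat.card (orbitRel.Quotient G (Ω × Ω)) := by
  refine Nat.card_congr (Equiv.ofBijective (Quotient.map' (fun b => (a, b)) ?_) ⟨?_, ?_⟩)
  · rintro b c ⟨⟨g, hg⟩, rfl⟩
    exact ⟨g, Prod.ext hg rfl⟩
  · intro b c
    induction b using Quotient.inductionOn'
    induction c using Quotient.inductionOn'
    intro h
    obtain ⟨g, hg⟩ := Quotient.exact' h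
    exact Quotient.sound' ⟨⟨g, congrArg Prod.fst hg⟩, congrArg Prod.snd hg⟩
  · intro q
    induction q using Quotient.inductionOn' with
    | h q =>
      obtain ⟨g, hg⟩ := exists_smul_eq G q.1 a
      exact ⟨Quotient.mk'' (g • q.2), Quotient.sound' ⟨g, Prod.ext hg rfl⟩⟩

theorem E_one_apply [IsPretransitive G Ω] (u v : Ω) :
    E Ω (fun _ : G => (1 : ℂ)) u v = (Fintype.card Ω : ℂ)⁻¹ := by
  have h1 : ∀ v w, E Ω (fun _ : G => (1 : ℂ)) u v = E Ω (fun _ : G => (1 : ℂ)) u w := by
    intro v w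
    obtain ⟨h, rfl⟩ := exists_smul_eq G v w
    simp only [E, Matrix.sum_apply, Matrix.smul_apply, pm, of_apply]
    rw [← Equiv.sum_comp (Equiv.mulRight h)]
    simp [mul_smul]
  have h2 : ∑ w, E Ω (fun _ : G => (1 : ℂ)) u w = 1 := by
    simp only [E, Matrix.sum_apply, Matrix.smul_apply, pm, of_apply]
    rw [Finset.sum_comm]
    simp only [← Finset.smul_sum, smul_eq_iff_eq_inv_smul, sum_ite_eq', mem_univ, if_true]
    simp [← Nat.card_eq_fintype_card, card_ne_zero]
  rw [sum_congr rfl fun w _ => h1 w v, sum_const, card_univ, nsmul_eq_mul] at h2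
  exact eq_inv_of_mul_eq_one_right h2

end Cfsg.Agent.Inv.CR
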