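import Mathlib
import Cfsg.Agent.Inv.CRing

/-! Orbital matrices; rank three groups of Wielandt type. -/

set_option autoImplicit false
open Cfsg

namespace Cfsg.Agent.Inv.CR

open Finset Matrix MulAction Cfsg.Agent.Char
open scoped ComplexConjugate

variable {G : Type*} [Group G] {Ω : Type*} [MulAction G Ω]

open Classical in
/-- The orbital matrix of the pair `(a, b)`. -/
noncomputable def ob (G : Type*) [Group G] {Ω : Type*} [MulAction G Ω] (a b : Ω) : Matrix Ω Ω ℂ :=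
  Matrix.of fun u v => if ∃ g : G, g • a = u ∧ g • b = v then 1 else 0

theorem isInv_ob (a b : Ω) : IsInv G (ob G a b) := by
  intro g u v
  have : (∃ h : G, h • a = g • u ∧ h • b = g • v) ↔ ∃ h : G, h • a = u ∧ h • b = v :=
    ⟨fun ⟨h, h1, h2⟩ => ⟨g⁻¹ * h, by simp [mul_smul, h1], by simp [mul_smul, h2]⟩,
      fun ⟨h, h1, h2⟩ => ⟨g * h, by simp [mul_smul, h1], by simp [mul_smul, h2]⟩⟩
  simp only [ob, of_apply]
  rw [this]

open Classical in
theorem ob_apply (a b v : Ω) :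
    ob G a b a v = if v ∈ orbit (stabilizer G a) b then 1 else 0 := by
  have : (∃ h : G, h • a = a ∧ h • b = v) ↔ v ∈ orbit (stabilizer G a) b :=
    ⟨fun ⟨h, h1, h2⟩ => ⟨⟨h, h1⟩, h2⟩, fun ⟨h, h2⟩ => ⟨h, h.2, h2⟩⟩
  simp only [ob, of_apply, this]

theorem IsInv.ext' [IsPretransitive G Ω] {M N : Matrix Ω Ω ℂ} (hM : IsInv G M) (hN : IsInv G N)
    (a : Ω) (h : ∀ v, M a v = N a v) : M = N := by
  ext u v
  obtain ⟨g, rfl⟩ := exists_smul_eq G a u
  rw [← smul_inv_smul g v, hM, hN, h]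

theorem IsInv.apply_of_mem {M : Matrix Ω Ω ℂ} (hM : IsInv G M) {a b v : Ω}
    (h : v ∈ orbit (stabilizer G a) b) : M a v = M a b := by
  obtain ⟨⟨g, hg⟩, rfl⟩ := h
  rw [← hM g a b, mem_stabilizer_iff.mp hg]
  rfl

theorem eq_of_mem_orbit_self {a v : Ω} (h : v ∈ orbit (stabilizer G a) a) : v = a := by
  obtain ⟨⟨g, hg⟩, rfl⟩ := h
  exact hg

theorem not_mem_orbit {a b : Ω} (h : b ≠ a) : a ∉ orbit (stabilizer G a) b := fun h1 =>
  h (eq_of_mem_orbit_self (G := G) (mem_orbit_symm.mp h1))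

variable [Fintype Ω]

theorem sum_ob (a b : Ω) : ∑ v, ob G a b a v = Nat.card (orbit (stabilizer G a) b) := by
  classical
  simp only [ob_apply, sum_boole]
  rw [Nat.card_eq_fintype_card, Fintype.card_subtype]

theorem IsInv.sum_row [IsPretransitive G Ω] {M : Matrix Ω Ω ℂ} (hM : IsInv G M) (a u : Ω) :
    ∑ v, M u v = ∑ v, M a v := by
  obtain ⟨g, rfl⟩ := exists_smul_eq G a u
  rw [← Equiv.sum_comp (MulAction.toPerm g)]
  exact sum_congr rfl fun v _ => hM g a v

theorem trace_ob [IsPretransitive G Ω] {a b : Ω} (h : b ≠ a) : (ob G a b).trace = 0 := by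
  refine sum_eq_zero fun u _ => ?_
  obtain ⟨g, rfl⟩ := exists_smul_eq G a u
  rw [Matrix.diag_apply, isInv_ob, ob_apply, if_neg (not_mem_orbit h)]

theorem trace_ob_mul [IsPretransitive G Ω] (a b : Ω) : (ob G a b * (ob G a b)ᴴ).trace =
    Fintype.card Ω * Nat.card (orbit (stabilizer G a) b) := by
  have : ∀ u, (ob G a b * (ob G a b)ᴴ) u u = Nat.card (orbit (stabilizer G a) b) := by
    intro u
    rw [← sum_ob, ← (isInv_ob a b).sum_row a u, Matrix.mul_apply]
    refine sum_congr rfl fun v _ => ?_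
    simp only [conjTranspose_apply, ob, of_apply]
    split_ifs <;> simp
  simp [Matrix.trace, this]

theorem ob_mul_nat (a b u v : Ω) : ∃ n : ℕ, (ob G a b * ob G a b) u v = n := by
  classical
  refine ⟨(univ.filter fun w => (∃ g : G, g • a = u ∧ g • b = w) ∧ ∃ g : G, g • a = w ∧ g • b = v).card, ?_⟩
  rw [Matrix.mul_apply, card_filter]
  push_cast
  refine sum_congr rfl fun w _ => ?_
  simp only [ob, of_apply]
  split_ifs <;> simp_all

variable [Fintype G] [DecidableEq Ω]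

theorem sum_mul_E (θ : IrrCharacter G → ℂ) (χ : IrrCharacter G) :
    (∑ ψ, θ ψ • E Ω (ψ : G → ℂ)) * E Ω (χ : G → ℂ) = θ χ • E Ω (χ : G → ℂ) := by
  simp only [Finset.sum_mul, smul_mul_assoc]
  rw [Finset.sum_eq_single χ, E_mul_self χ.2]
  · intro ψ _ hψ
    rw [E_mul_ne ψ.2 χ.2 (fun h => hψ (Subtype.ext h)), smul_zero]
  · simp

theorem trace_sum_E (θ : IrrCharacter G → ℂ) : (∑ ψ, θ ψ • E Ω (ψ : G → ℂ)).trace =
    ∑ ψ, θ ψ * (classInner (pc G Ω) ψ * (ψ : G → ℂ) 1) := by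
  simp only [trace_sum, trace_smul, trace_E (Subtype.property _), smul_eq_mul]

theorem trace_sum_E_mul (θ : IrrCharacter G → ℂ) :
    ((∑ ψ, θ ψ • E Ω (ψ : G → ℂ)) * (∑ ψ, θ ψ • E Ω (ψ : G → ℂ))ᴴ).trace =
    ∑ ψ, θ ψ * conj (θ ψ) * (classInner (pc G Ω) ψ * (ψ : G → ℂ) 1) := by
  rw [← trace_sum_E, conjTranspose_sum, Finset.mul_sum]
  congr 1
  refine sum_congr rfl fun ψ _ => ?_
  rw [conjTranspose_smul, E_conjTranspose (irr_isChar ψ), mul_smul_comm, sum_mul_E, smul_smul,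
    mul_comm]
  rfl

theorem theta_one [IsPretransitive G Ω] {θ : IrrCharacter G → ℂ} {a b : Ω}
    (h : ob G a b = ∑ ψ, θ ψ • E Ω (ψ : G → ℂ)) :
    θ ⟨fun _ => 1, isIrr_one⟩ = Nat.card (orbit (stabilizer G a) b) := by
  have h1 := congrFun (congrFun (sum_mul_E (Ω := Ω) θ ⟨fun _ => 1, isIrr_one⟩) a) a
  rw [← h, Matrix.mul_apply] at h1
  simp only [E_one_apply, Matrix.smul_apply, ← Finset.sum_mul, sum_ob, smul_eq_mul] at h1
  haveI : Nonempty Ω := ⟨a⟩
  exact (mul_right_cancel₀ (inv_ne_zero (Nat.cast_ne_zero.mpr Fintype.card_ne_zero)) h1).symm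

omit [DecidableEq Ω] in
theorem inner_pc_one [IsPretransitive G Ω] [Nonempty Ω] : classInner (pc G Ω) (fun _ => 1) = 1 := by
  have h1 : classInner (pc G Ω) (fun _ => 1) = _ := classInner_perm_one (G := G) Ω
  rw [h1, Nat.cast_eq_one, Nat.card_eq_one_iff_unique]
  refine ⟨⟨fun a b => ?_⟩, ⟨Quotient.mk'' (Classical.arbitrary Ω)⟩⟩
  induction a using Quotient.inductionOn'
  induction b using Quotient.inductionOn'
  exact Quotient.sound' (exists_smul_eq G _ _)

theorem arith {m k r s : ℤ} (hk : 2 ≤ k) (hkm : k ≤ m - 1) (h1 : k + r * (m - 1) + s * m = 0)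
    (h2 : k * k + r * r * (m - 1) + s * s * m = 2 * m * k) :
    ∃ a : ℤ, 0 ≤ a ∧ m = 2 * a ^ 2 + 2 * a + 1 ∧ k = a * (2 * a + 1) := by
  have hm : 3 ≤ m := by omega
  have h3 : r * r * (m - 1) ≤ m * m := by nlinarith [mul_self_nonneg s, mul_self_nonneg (m - k)]
  have h4 : -(m + 1) < r ∧ r < m + 1 := by
    constructor <;> by_contra h <;> push Not at h
    · have : (m + 1) * (m + 1) ≤ r * r := by nlinarith
      nlinarith
    · have : (m + 1) * (m + 1) ≤ r * r := by nlinarith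
      nlinarith
  obtain ⟨c, hc⟩ : ∃ c, c = -(r + s) := ⟨_, rfl⟩
  have h5 : k - r = m * c := by rw [hc]; linarith
  have h6 : 0 ≤ c := by by_contra h; nlinarith
  have h7 : c ≤ 1 := by by_contra h; nlinarith
  have h8 : c = 0 ∨ c = 1 := by omega
  rcases h8 with rfl | rfl
  · have hr : r = k := by linarith
    have hs : s = -k := by linarith
    subst hr hs
    have : m * r * (r - 1) = 0 := by linarith
    have h9 : 0 < m * r * (r - 1) := by
      apply mul_pos (mul_pos _ _) <;> omega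
    omega
  · have hr : r = k - m := by linarith
    have hs : s = m - 1 - k := by linarith
    subst hr hs
    refine ⟨m - k - 1, by omega, ?_, ?_⟩
    · apply mul_left_cancel₀ (show m ≠ 0 by omega); linarith
    · apply mul_left_cancel₀ (show m ≠ 0 by omega); linarith

theorem rank_three_core [IsPretransitive G Ω] {m : ℕ} (hm : Fintype.card Ω = 2 * m) {a b c : Ω}
    (hb : b ≠ a) (hc : c ≠ a) (hbc : c ∉ orbit (stabilizer G a) b)
    (hall : ∀ v, v = a ∨ v ∈ orbit (stabilizer G a) b ∨ v ∈ orbit (stabilizer G a) c)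
    (hk : Nat.card (orbit (stabilizer G a) b) ≠ 1)
    (hkl : Nat.card (orbit (stabilizer G a) b) ≤ Nat.card (orbit (stabilizer G a) c))
    {χ₁ χ₂ : G → ℂ} (h₁ : IsIrrCharacter G χ₁) (h₂ : IsIrrCharacter G χ₂)
    (hπ : pc G Ω = fun g => 1 + χ₁ g + χ₂ g) (hd₁ : χ₁ 1 = (m : ℂ) - 1) (hd₂ : χ₂ 1 = m) :
    ∃ t : ℕ, 0 < t ∧ m = 2 * t ^ 2 + 2 * t + 1 ∧
      Nat.card (orbit (stabilizer G a) b) = t * (2 * t + 1) ∧
      Nat.card (orbit (stabilizer G a) c) = (t + 1) * (2 * t + 1) := by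
  classical
  haveI : Nonempty Ω := ⟨a⟩
  set k := Nat.card (orbit (stabilizer G a) b) with hkd
  set l := Nat.card (orbit (stabilizer G a) c) with hld
  set e₀ : IrrCharacter G := ⟨fun _ => 1, isIrr_one⟩ with he₀
  set e₁ : IrrCharacter G := ⟨χ₁, h₁⟩ with he₁
  set e₂ : IrrCharacter G := ⟨χ₂, h₂⟩ with he₂
  have hπ' : pc G Ω = (e₀ : G → ℂ) + e₁ + e₂ := hπ
  have hin : ∀ ψ : IrrCharacter G, classInner (pc G Ω) ψ =
      (if e₀ = ψ then 1 else 0) + (if e₁ = ψ then 1 else 0) + (if e₂ = ψ then 1 else 0) := by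
    intro ψ
    rw [hπ', classInner_add_left, classInner_add_left, classInner_irr, classInner_irr, classInner_irr]
  have h12 : e₁ ≠ e₂ := fun h => by
    have : χ₁ 1 = χ₂ 1 := congrFun (congrArg Subtype.val h) 1
    rw [hd₁, hd₂] at this
    simp at this
  have h0 := hin e₀
  rw [show classInner (pc G Ω) e₀ = 1 from inner_pc_one, if_pos rfl] at h0
  have h10 : e₁ ≠ e₀ := fun h => by
    rw [if_pos h] at h0
    split_ifs at h0 <;> norm_num at h0
  have h20 : e₂ ≠ e₀ := fun h => by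
    rw [if_pos h, if_neg h10] at h0
    norm_num at h0
  have hsum : ∀ F : IrrCharacter G → ℂ, ∑ ψ, F ψ * (classInner (pc G Ω) ψ * (ψ : G → ℂ) 1) =
      F e₀ + F e₁ * (m - 1) + F e₂ * m := by
    intro F
    simp only [hin, add_mul, mul_add, sum_add_distrib, ite_mul, mul_ite, one_mul, zero_mul, mul_zero,
      sum_ite_eq, mem_univ, if_true]
    simp [he₀, he₁, he₂, hd₁, hd₂]
  have hmf : ∀ χ : IrrCharacter G, classInner (pc G Ω) χ = 0 ∨ classInner (pc G Ω) χ = 1 := by
    intro χ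
    rw [hin]
    by_cases a0 : e₀ = χ
    · subst a0; simp [h10, h20]
    by_cases a1 : e₁ = χ
    · subst a1; simp [a0, h12.symm]
    by_cases a2 : e₂ = χ <;> simp [a0, a1, a2]
  obtain ⟨θ, hθ⟩ := exists_eq_sum hmf (isInv_ob (G := G) a b)
  have t0 : θ e₀ = k := theta_one hθ
  have hdisj : ∀ v, v ∈ orbit (stabilizer G a) b → v ∉ orbit (stabilizer G a) c := fun v h1 h2 =>
    hbc (by rw [← orbit_eq_iff.mpr h1]; exact mem_orbit_symm.mp h2)
  have hdec : ∀ M : Matrix Ω Ω ℂ, IsInv G M →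
      M = M a a • (1 : Matrix Ω Ω ℂ) + M a b • ob G a b + M a c • ob G a c := by
    intro M hM
    refine hM.ext' (fun g u v => ?_) a fun v => ?_
    · simp only [Matrix.add_apply, Matrix.smul_apply, isInv_ob a b g, isInv_ob a c g,
        Matrix.one_apply, smul_left_cancel_iff]
    · simp only [Matrix.add_apply, Matrix.smul_apply, ob_apply, Matrix.one_apply]
      rcases hall v with rfl | h | h
      · simp [not_mem_orbit hb, not_mem_orbit hc]
      · have : a ≠ v := fun h' => not_mem_orbit (G := G) hb (by subst h'; exact h)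
        simp [h, hdisj v h, this, hM.apply_of_mem h]
      · have : a ≠ v := fun h' => not_mem_orbit (G := G) hc (by subst h'; exact h)
        have h' : v ∉ orbit (stabilizer G a) b := fun h' => hdisj v h' h
        simp [h, h', this, hM.apply_of_mem h]
  have hn0 : (Fintype.card Ω : ℂ) ≠ 0 := Nat.cast_ne_zero.mpr Fintype.card_ne_zero
  have hJ : 1 + ob G a b + ob G a c = (Fintype.card Ω : ℂ) • E Ω (e₀ : G → ℂ) := by
    rw [hdec _ (isInv_E (irr_classFun e₀))]
    simp only [he₀, E_one_apply, smul_add, smul_smul, mul_inv_cancel₀ hn0, one_smul]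
  have hkl' : 1 + k + l = 2 * m := by
    have h1 := congrArg (fun M : Matrix Ω Ω ℂ => ∑ v, M a v) hJ
    simp only [Matrix.add_apply, sum_add_distrib, sum_ob, Matrix.smul_apply, he₀, E_one_apply,
      smul_eq_mul, mul_inv_cancel₀ hn0, Matrix.one_apply, sum_ite_eq, mem_univ, if_true, sum_const,
      card_univ, nsmul_eq_mul, mul_one] at h1
    rw [hm] at h1
    exact_mod_cast h1
  obtain ⟨κ, hκ⟩ := ob_mul_nat (G := G) a b a a
  obtain ⟨lam, hlam⟩ := ob_mul_nat (G := G) a b a b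
  obtain ⟨μ, hμ⟩ := ob_mul_nat (G := G) a b a c
  have hsq := hdec _ ((isInv_ob (G := G) a b).mul (isInv_ob a b))
  rw [hκ, hlam, hμ] at hsq
  have hq : ∀ e : IrrCharacter G, e ≠ e₀ → classInner (pc G Ω) e ≠ 0 →
      θ e * θ e = κ + lam * θ e - μ * (1 + θ e) := by
    intro e he he'
    have h1 : ob G a b * E Ω (e : G → ℂ) = θ e • E Ω (e : G → ℂ) := by rw [hθ, sum_mul_E]
    have h2 : ob G a c * E Ω (e : G → ℂ) = -(1 + θ e) • E Ω (e : G → ℂ) := by
      have h3 := congrArg (· * E Ω (e : G → ℂ)) hJ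
      simp only [add_mul, one_mul, smul_mul_assoc, h1,
        E_mul_ne e₀.2 e.2 (fun h => he (Subtype.ext h).symm), smul_zero] at h3
      rw [eq_neg_of_add_eq_zero_right h3, neg_smul, add_smul, one_smul]
    have h3 := congrArg (· * E Ω (e : G → ℂ)) hsq
    simp only [add_mul, one_mul, smul_mul_assoc, mul_assoc, h1, h2, mul_smul_comm, smul_smul,
      ← add_smul] at h3
    have h4 := smul_left_injective ℂ (E_ne_zero e.2 he') h3
    rw [h4]; ring
  have q1 := hq e₁ h10 (by rw [hin]; simp [h10.symm, h12.symm])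
  have q2 := hq e₂ h20 (by rw [hin]; simp [h20.symm, h12])
  have hrs : θ e₁ ≠ θ e₂ := fun h => by
    have h1 : ob G a b = (θ e₀ - θ e₁) • E Ω (e₀ : G → ℂ) + θ e₁ • 1 := by
      rw [← sum_E (G := G), Finset.smul_sum, hθ, ← Finset.sum_ite_eq_of_mem univ e₀
        (fun ψ => (θ e₀ - θ e₁) • E Ω (ψ : G → ℂ)) (mem_univ _), ← sum_add_distrib]
      refine sum_congr rfl fun ψ _ => ?_
      by_cases a0 : e₀ = ψ
      · subst a0; simp [sub_smul]
      by_cases a1 : e₁ = ψ
      · subst a1; simp [a0]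
      by_cases a2 : e₂ = ψ
      · subst a2; simp [a0, h]
      rw [E_eq_zero ψ.2 (by rw [hin]; simp [a0, a1, a2])]; simp
    have h2 := congrFun (congrFun h1 a) b
    have h3 := congrFun (congrFun h1 a) c
    simp only [Matrix.add_apply, Matrix.smul_apply, he₀, E_one_apply, ob_apply, mem_orbit_self,
      if_true, if_neg hbc, Matrix.one_apply_ne hb.symm, Matrix.one_apply_ne hc.symm] at h2 h3
    exact one_ne_zero (h2.trans h3.symm)
  have e1 : θ e₁ + θ e₂ = lam - μ :=
    mul_left_cancel₀ (sub_ne_zero.mpr hrs) (by linear_combination q1 - q2)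
  have e2 := trace_ob (G := G) hb
  rw [hθ, trace_sum_E, hsum, t0] at e2
  have e3 := trace_ob_mul (G := G) a b
  rw [hθ, trace_sum_E_mul, hsum (fun ψ => θ ψ * conj (θ ψ)), t0, hm, ← hkd] at e3
  obtain ⟨s, hs⟩ : ∃ s : ℤ, θ e₂ = s :=
    ⟨-k - (m - 1) * (lam - μ), by push_cast; linear_combination e2 - ((m : ℂ) - 1) * e1⟩
  obtain ⟨r, hr⟩ : ∃ r : ℤ, θ e₁ = r := ⟨lam - μ - s, by push_cast; linear_combination e1 - hs⟩
  rw [hr, hs] at e2 e3
  simp only [map_natCast, map_intCast] at e3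
  have hk0 : 0 < k := by
    haveI : Nonempty (orbit (stabilizer G a) b) := ⟨⟨b, mem_orbit_self b⟩⟩
    exact Nat.card_pos
  obtain ⟨t, ht0, ht1, ht2⟩ := arith (m := m) (k := k) (r := r) (s := s) (by omega) (by omega)
    (by exact_mod_cast e2) (by exact_mod_cast e3)
  lift t to ℕ using ht0
  have ht1' : m = 2 * t ^ 2 + 2 * t + 1 := by exact_mod_cast ht1
  have ht2' : k = t * (2 * t + 1) := by exact_mod_cast ht2
  refine ⟨t, Nat.pos_of_ne_zero fun h => ?_, ht1', ht2', ?_⟩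
  · rw [h] at ht2'; omega
  · nlinarith

omit [Fintype G] [DecidableEq Ω] in
theorem exists_of_rank_three {a : Ω} (h : Nat.card (orbitRel.Quotient (stabilizer G a) Ω) = 3) :
    ∃ b c : Ω, b ≠ a ∧ c ≠ a ∧ c ∉ orbit (stabilizer G a) b ∧
      (∀ v, v = a ∨ v ∈ orbit (stabilizer G a) b ∨ v ∈ orbit (stabilizer G a) c) ∧
      Nat.card (orbit (stabilizer G a) b) ≤ Nat.card (orbit (stabilizer G a) c) := by
  classical
  haveI : Fintype (orbitRel.Quotient (stabilizer G a) Ω) := Fintype.ofFinite _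
  have h1 : (univ.erase (Quotient.mk'' a : orbitRel.Quotient (stabilizer G a) Ω)).card = 2 := by
    rw [card_erase_of_mem (mem_univ _), card_univ, ← Nat.card_eq_fintype_card, h]
  obtain ⟨x, y, hxy, h2⟩ := card_eq_two.mp h1
  induction x using Quotient.inductionOn' with | h b => ?_
  induction y using Quotient.inductionOn' with | h c => ?_
  have hb : b ≠ a := fun h => by
    have : (Quotient.mk'' b : orbitRel.Quotient (stabilizer G a) Ω) ∈ univ.erase (Quotient.mk'' a) := by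
      rw [h2]; simp
    simp [h] at this
  have hc : c ≠ a := fun h => by
    have : (Quotient.mk'' c : orbitRel.Quotient (stabilizer G a) Ω) ∈ univ.erase (Quotient.mk'' a) := by
      rw [h2]; simp
    simp [h] at this
  have hall : ∀ v, v = a ∨ v ∈ orbit (stabilizer G a) b ∨ v ∈ orbit (stabilizer G a) c := by
    intro v
    by_cases hv : (Quotient.mk'' v : orbitRel.Quotient (stabilizer G a) Ω) = Quotient.mk'' a
    · exact Or.inl (eq_of_mem_orbit_self (G := G) (Quotient.exact' hv))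
    · have : (Quotient.mk'' v : orbitRel.Quotient (stabilizer G a) Ω) ∈ univ.erase (Quotient.mk'' a) := by
        simp [hv]
      rw [h2, mem_insert, mem_singleton] at this
      exact Or.inr (this.imp Quotient.exact' Quotient.exact')
  rcases le_total (Nat.card (orbit (stabilizer G a) b)) (Nat.card (orbit (stabilizer G a) c)) with h3 | h3
  · exact ⟨b, c, hb, hc, fun h => hxy (Quotient.sound' h).symm, hall, h3⟩
  · exact ⟨c, b, hc, hb, fun h => hxy (Quotient.sound' h), fun v => (hall v).imp_right Or.symm, h3⟩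

theorem rank_three [IsPretransitive G Ω] {m : ℕ} (hm : Fintype.card Ω = 2 * m) {a : Ω}
    (h : Nat.card (orbitRel.Quotient (stabilizer G a) Ω) = 3)
    (hk : ∀ b, b ≠ a → Nat.card (orbit (stabilizer G a) b) ≠ 1)
    {χ₁ χ₂ : G → ℂ} (h₁ : IsIrrCharacter G χ₁) (h₂ : IsIrrCharacter G χ₂)
    (hπ : pc G Ω = fun g => 1 + χ₁ g + χ₂ g) (hd₁ : χ₁ 1 = (m : ℂ) - 1) (hd₂ : χ₂ 1 = m) :
    ∃ t : ℕ, 0 < t ∧ m = 2 * t ^ 2 + 2 * t + 1 ∧ ∀ b : Ω, b ≠ a →
      Nat.card (orbit (stabilizer G a) b) = t * (2 * t + 1) ∨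
      Nat.card (orbit (stabilizer G a) b) = (t + 1) * (2 * t + 1) := by
  obtain ⟨b, c, hb, hc, hbc, hall, hle⟩ := exists_of_rank_three h
  obtain ⟨t, h1, h2, h3, h4⟩ := rank_three_core hm hb hc hbc hall (hk b hb) hle h₁ h₂ hπ hd₁ hd₂
  refine ⟨t, h1, h2, fun v hv => ?_⟩
  rcases hall v with h | h | h
  · exact absurd h hv
  · left; rw [orbit_eq_iff.mpr h, h3]
  · right; rw [orbit_eq_iff.mpr h, h4]

omit [Fintype G] [DecidableEq Ω] [Fintype Ω] in
theorem fix_of_card_orbit {a b : Ω} (h : Nat.card (orbit (stabilizer G a) b) = 1) :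
    stabilizer G a ≤ stabilizer G b := by
  intro g hg
  haveI := (Nat.card_eq_one_iff_unique.mp h).1
  exact congrArg Subtype.val (Subsingleton.elim (⟨_, mem_orbit b (⟨g, hg⟩ : stabilizer G a)⟩ :
    orbit (stabilizer G a) b) ⟨b, mem_orbit_self b⟩)

omit [Fintype G] [DecidableEq Ω] [Fintype Ω] in
theorem fix_all [Finite G] [IsPreprimitive G Ω] (N : Subgroup G) [hN : N.Normal] {a b : Ω}
    (hb : b ≠ a) (h : N ⊓ stabilizer G a ≤ stabilizer G b) (c : Ω) :
    N ⊓ stabilizer G a ≤ stabilizer G c := by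
  haveI : Nontrivial Ω := ⟨b, a, hb⟩
  have hco := (isCoatom_stabilizer_iff_preprimitive G a).mpr inferInstance
  have key : ∀ g : G, g • a = a ∨ g • a = b →
      g⁻¹ ∈ Subgroup.normalizer ((N ⊓ stabilizer G a : Subgroup G) : Set G) := by
    intro g hg
    refine Subgroup.mem_normalizer_fintype fun y hy => ⟨hN.conj_mem y hy.1 _, ?_⟩
    have h1 : y • g • a = g • a := by
      rcases hg with hg | hg <;> rw [hg]
      · exact hy.2
      · exact h hy
    change (g⁻¹ * y * g⁻¹⁻¹) • a = a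
    rw [inv_inv, mul_smul, mul_smul, h1, inv_smul_smul]
  obtain ⟨g, hg⟩ := exists_smul_eq G a b
  have h1 : Subgroup.normalizer ((N ⊓ stabilizer G a : Subgroup G) : Set G) = ⊤ := by
    refine hco.2 _ (lt_of_le_of_ne (fun y hy => inv_mem_iff.mp (key y (Or.inl hy))) fun h2 => hb ?_)
    have h3 : g ∈ stabilizer G a := h2 ▸ inv_mem_iff.mp (key g (Or.inr hg))
    exact hg.symm.trans h3
  have h2 := Subgroup.normalizer_eq_top_iff.mp h1
  intro y hy
  obtain ⟨k, rfl⟩ := exists_smul_eq G a c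
  have h3 : (k⁻¹ * y * k) • a = a := (h2.conj_mem' y hy k).2
  rw [mul_smul, mul_smul, inv_smul_eq_iff] at h3
  exact h3

end Cfsg.Agent.Inv.CR
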