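import Mathlib
import Cfsg.Agent.Inv.StrongTT
import Cfsg.Agent.PLocal.LX1
import Cfsg.Agent.BG.AmbHall

/-! Transfer and large extraspecial subgroups. -/

set_option autoImplicit false

namespace Cfsg.Agent.Inv

open Subgroup Fischer PLocal

variable {G : Type*} [Group G] [Finite G] {Q : Subgroup G} {z : G}

theorem ls_odd_index (h : LS Q z) : Odd (centralizer ({z} : Set G)).index := by
  obtain ⟨T, hT, hQT⟩ := BG.Amb.exists_sylow_ge (p := 2) h.isPGroup
    (M := centralizer ({z} : Set G)) fun x hx => mem_centralizer_singleton_iff.2 (h.central x hx).symm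
  have h1 := BG.Amb.sylow_of_sylow_normalizer (M := ⊤) le_top (fun g hg => ?_) hT
  · have h2 := (BG.Amb.sylow_not_dvd h1)
    rw [relIndex_top_right] at h2
    exact Nat.odd_iff.2 (Nat.two_dvd_ne_zero.1 fun h3 =>
      h2 (h3.trans (index_dvd_of_le (BG.Amb.hall_le hT))))
  · rcases h.cent' (g := g * z * g⁻¹) (fun x hx => by
      have h2 := mem_centralizer_singleton_iff.1
        (BG.Amb.hall_le hT ((mem_normalizer_iff''.1 hg.2 x).1 (hQT hx)))
      rw [commute_cj_iff]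
      exact h2.symm) with e | e
    · exact absurd (by simpa using e) h.ne
    · exact mem_centralizer_singleton_iff.2 (mul_inv_eq_iff_eq_mul.1 e)

theorem es_cent_noncomm (h : ES Q z) (hc : 8 < Nat.card Q) {s : G} (hs : s ∈ Q) :
    ∃ p ∈ Q, ∃ q ∈ Q, Commute s p ∧ Commute s q ∧ ¬ Commute p q := by
  classical
  by_contra hn
  push Not at hn
  have h1 : ∀ t ∈ Q, Commute s t → t = 1 ∨ t = z ∨ t = s ∨ t = s * z := fun t ht hst =>
    h.cent_cent hs ht fun p hp hsp => hn t ht p hp hst hsp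
  obtain ⟨y, hy, hsy⟩ : ∃ y ∈ Q, ∀ t ∈ Q, Commute s t ∨ Commute s (y * t) := by
    by_cases h2 : ∃ y ∈ Q, ¬ Commute s y
    · obtain ⟨y, hy, h2⟩ := h2
      refine ⟨y, hy, fun t ht => or_iff_not_imp_left.2 fun h3 => Commute.symm ?_⟩
      exact (h.commute_mul_iff hy ht hs).2
        ⟨fun h => (h2 h.symm).elim, fun h => (h3 h.symm).elim⟩
    · push Not at h2
      exact ⟨1, one_mem _, fun t ht => Or.inl (h2 t ht)⟩
  have h3 : (Q : Set G) ⊆ ↑({1, z, s, s * z, y⁻¹, y⁻¹ * z, y⁻¹ * s, y⁻¹ * (s * z)} : Finset G) := by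
    intro t ht
    simp only [Finset.coe_insert, Finset.coe_singleton, Set.mem_insert_iff, Set.mem_singleton_iff]
    rcases hsy t ht with h4 | h4
    · rcases h1 t ht h4 with e | e | e | e <;> simp [e]
    · have e0 : t = y⁻¹ * (y * t) := by group
      rcases h1 _ (mul_mem hy ht) h4 with e | e | e | e <;> rw [e] at e0 <;> simp [e0]
  have h4 := Set.ncard_le_ncard h3
  rw [Set.ncard_coe_finset] at h4
  have h5 : Nat.card Q ≤ 8 := h4.trans ((Finset.card_insert_le _ _).trans (Nat.succ_le_succ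
    ((Finset.card_insert_le _ _).trans (Nat.succ_le_succ Finset.card_le_six))))
  omega

omit [Finite G] in
theorem mul_mem_of_not {H K : Subgroup G} (hi : K.relIndex H = 2) {a b : G} (ha : a ∈ H)
    (hb : b ∈ H) : a * b ∈ K ↔ (a ∈ K ↔ b ∈ K) := by
  have := mul_mem_iff_of_index_two (H := K.subgroupOf H) hi (a := ⟨a, ha⟩) (b := ⟨b, hb⟩)
  simpa [mem_subgroupOf] using this

omit [Finite G] in
theorem comm_mem_of_two {H K : Subgroup G} (hi : K.relIndex H = 2) {a b : G} (ha : a ∈ H)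
    (hb : b ∈ H) : a * b * a⁻¹ * b⁻¹ ∈ K := by
  rw [mul_mem_of_not hi (mul_mem (mul_mem ha hb) (inv_mem ha)) (inv_mem hb),
    mul_mem_of_not hi (mul_mem ha hb) (inv_mem ha), mul_mem_of_not hi ha hb, inv_mem_iff,
    inv_mem_iff]
  tauto

omit [Finite G] in
theorem conj_mem_of_two {H K : Subgroup G} (hi : K.relIndex H = 2) {a b : G} (ha : a ∈ H)
    (hb : b ∈ H) : a * b * a⁻¹ ∈ K ↔ b ∈ K := by
  rw [mul_mem_of_not hi (mul_mem ha hb) (inv_mem ha), mul_mem_of_not hi ha hb, inv_mem_iff]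
  tauto

theorem es_exists_invol (h : ES Q z) (hc : 8 < Nat.card Q) {H K : Subgroup G} (hQ : Q ≤ H)
    (hi : K.relIndex H = 2) (hn : ¬ Q ≤ K) : ∃ x ∈ Q, x ∉ K ∧ x * x = 1 := by
  by_contra h0
  push Not at h0
  have h1 : ∀ x ∈ Q, x ∉ K → x * x = z := fun x hx hK => (h.sq x hx).resolve_left (h0 x hx hK)
  obtain ⟨a, ha, haK⟩ := SetLike.not_le_iff_exists.1 hn
  have h2 : ∀ u ∈ Q, Commute a u → u ∈ K → u * u = 1 := by
    intro u hu hc hK
    have := h1 _ (mul_mem ha hu) (by rw [mul_mem_of_not hi (hQ ha) (hQ hu)]; tauto)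
    rw [← sq, hc.mul_pow, sq, sq, h1 a ha haK] at this
    exact mul_eq_left.1 this
  have h3 : ∀ u ∈ Q, ∀ v ∈ Q, Commute a u → Commute a v → u ∈ K → v ∈ K → Commute u v := by
    intro u hu v hv hau hav huK hvK
    have e := h2 _ (mul_mem hu hv) (hau.mul_right hav) (mul_mem huK hvK)
    have e1 := h2 u hu hau huK
    have e2 := h2 v hv hav hvK
    calc u * v = u * (u * (v * (u * v)) * v) := by
          rw [show u * (v * (u * v)) = u * v * (u * v) by group, e, one_mul]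
      _ = (u * u) * v * u * (v * v) := by group
      _ = v * u := by rw [e1, e2]; group
  have h4 : ∀ p ∈ Q, Commute a p → ∃ u ∈ Q, Commute a u ∧ u ∈ K ∧ (p = u ∨ p = a * u) := by
    intro p hp hap
    by_cases hK : p ∈ K
    · exact ⟨p, hp, hap, hK, Or.inl rfl⟩
    · refine ⟨a⁻¹ * p, mul_mem (inv_mem ha) hp, (Commute.refl a).inv_right.mul_right hap, ?_,
        Or.inr (by group)⟩
      rw [mul_mem_of_not hi (inv_mem (hQ ha)) (hQ hp), inv_mem_iff]; tauto
  obtain ⟨p, hp, q, hq, hap, haq, hpq⟩ := es_cent_noncomm h hc ha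
  obtain ⟨u, hu, hau, huK, e1⟩ := h4 p hp hap
  obtain ⟨v, hv, hav, hvK, e2⟩ := h4 q hq haq
  have h5 := h3 u hu v hv hau hav huK hvK
  refine hpq ?_
  rcases e1 with rfl | rfl <;> rcases e2 with rfl | rfl
  exacts [h5, hau.symm.mul_right h5, hav.mul_left h5,
    ((Commute.refl a).mul_right hav).mul_left (hau.symm.mul_right h5)]

omit [Finite G] in
theorem pr_swap {Q' : Subgroup G} {s : G} (h : Pr Q Q' z s) :
    ∃ k : G, k * z * k⁻¹ = s ∧ k * s * k⁻¹ = z := by
  have hs1 : s ≠ 1 := h.r.ne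
  obtain ⟨y, hy, e⟩ := h.l.exists_conj h.hs h.r.ne h.ne
  obtain ⟨y', hy', e'⟩ := h.r.exists_conj h.hz h.l.ne h.ne.symm
  exact ⟨_, conj_swap h.l.zsq h.r.zsq h.comm (by rw [← (h.l.central y hy).eq]; group) e e'
    (by rw [← (h.r.central y' hy').eq]; group)⟩

/-- A large extraspecial subgroup of width at least two lies in every subgroup of index two of the
centraliser. -/
theorem ls_le_of_index_two (hG : ∀ M : Subgroup G, M.index ≠ 2) (h : LS Q z) (hc : 8 < Nat.card Q)
    {K : Subgroup G} (hK : K ≤ centralizer {z}) (hi : K.relIndex (centralizer {z}) = 2) :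
    Q ≤ K := by
  by_contra hn
  have hQ : Q ≤ centralizer {z} := fun x hx =>
    mem_centralizer_singleton_iff.2 (h.central x hx).symm
  obtain ⟨x, hx, hxK, hxx⟩ := es_exists_invol h.toES hc hQ hi hn
  obtain ⟨g, h1, h2⟩ := strong_transfer hG (ls_odd_index h) hK hi (x := x) (n := 1)
    (by rw [pow_one, sq, hxx]) (fun g k _ => by rw [pow_mul, sq, hxx]; simp)
    (R := Q ⊓ centralizer {x}) h.isPGroup.to_inf_left
    fun r hr => (mem_centralizer_singleton_iff.1 hr.2).symm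
  have h3 : ∀ p ∈ Q, Commute x p → Commute (g * z * g⁻¹) p := fun p hp hc => by
    rw [commute_cj_iff]
    exact (mem_centralizer_singleton_iff.1
      (h2 p ⟨hp, mem_centralizer_singleton_iff.2 hc.symm⟩)).symm
  obtain ⟨p, hp, q, hq, hxp, hxq, hpq⟩ := es_cent_noncomm h.toES hc hx
  have hz : p * q * p⁻¹ * q⁻¹ = z := by
    rw [h.conj_eq hp hq hpq, mul_assoc, (h.central _ (inv_mem hq)).eq, mul_inv_cancel_left]
  have hzK : z ∈ K := hz ▸ comm_mem_of_two hi (hQ hp) (hQ hq)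
  have hzK' : g⁻¹ * z * g ∈ K := by
    have := comm_mem_of_two hi (h2 p ⟨hp, mem_centralizer_singleton_iff.2 hxp.symm⟩)
      (h2 q ⟨hq, mem_centralizer_singleton_iff.2 hxq.symm⟩)
    rw [← hz]
    convert this using 1; group
  have hne : g * z * g⁻¹ ≠ z := fun e => by
    have hg : g⁻¹ ∈ centralizer {z} :=
      inv_mem (mem_centralizer_singleton_iff.2 (mul_inv_eq_iff_eq_mul.1 e))
    exact hxK ((conj_mem_of_two hi hg (hQ hx)).1 (by simpa using h1))
  have hs : g * z * g⁻¹ ∈ Q ∧ g * z * g⁻¹ ∉ K := by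
    rcases ls_cent_P h hx hxx (h3 z h.mem (h.central x hx).symm) h3 with e | e | e | e
    · exact absurd (by simpa using e) h.ne
    · exact absurd e hne
    · rw [e]; exact ⟨hx, hxK⟩
    · rw [e]; exact ⟨mul_mem hx h.mem, fun h4 => hxK ((mul_mem_cancel_right hzK).1 h4)⟩
  obtain ⟨k, e1, e2⟩ := pr_swap (pr_of h hs.1 hne)
  have hk : g⁻¹ * k ∈ centralizer {z} := by
    rw [mem_centralizer_singleton_iff]
    calc g⁻¹ * k * z = g⁻¹ * (k * z * k⁻¹) * k := by group
      _ = _ := by rw [e1]; group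
  refine hs.2 ((conj_mem_of_two hi hk (hQ hs.1)).1 ?_)
  convert hzK' using 1
  calc _ = g⁻¹ * (k * (g * z * g⁻¹) * k⁻¹) * g := by group
    _ = _ := by rw [e2]

end Cfsg.Agent.Inv
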