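import Mathlib
import Cfsg.Agent.Inv.Rk2
import Cfsg.Agent.Inv.MCl4
import Cfsg.Agent.PGrp.Alperin
import Cfsg.Agent.PGrp.Narrow
import Cfsg.Agent.PGrp.IndexP

/-!
# `p`-groups without normal subgroups of order `p ^ 3` and exponent `p` (Blackburn)
-/

set_option autoImplicit false

namespace Cfsg.Agent.Inv.Rk

open Cfsg Subgroup PGrp Cfsg.Agent.Inv.Rg Cfsg.Agent.H23.Kr
open scoped commutatorElement Pointwise
open BG

universe u

variable {G : Type u} [Group G] {p n : ℕ} [Finite G] [hp : Fact p.Prime] {K T V H : Subgroup G}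

/-- No normal subgroup of order `p ^ 3` and exponent `p`. -/
def NoE (p : ℕ) (G : Type u) [Group G] : Prop :=
  ∀ E : Subgroup G, E.Normal → Nat.card E = p ^ 3 → ¬ ∀ x ∈ E, x ^ p = 1

theorem NoE.card_le (h : NoE p G) (hG : IsPGroup p G) (K : Subgroup G) [K.Normal] (he : ∀ x ∈ K, x ^ p = 1) :
    Nat.card K ≤ p ^ 2 := by
  obtain ⟨k, hk⟩ := exists_card_eq_pow hG K
  by_contra hc
  rw [hk, Nat.pow_le_pow_iff_right hp.out.one_lt] at hc
  obtain ⟨E, h1, h2, h3⟩ := exists_normal_le_card_eq hG K 3 (hk ▸ Nat.pow_le_pow_right hp.out.pos (by omega))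
  exact h E h1 h3 fun x hx => he x (h2 hx)

theorem NoE.rank (h : NoE p G) (hp2 : p ≠ 2) (hG : IsPGroup p G) : PRankLE p 2 (⊤ : Subgroup G) := by
  refine (Rank.pRankLE_congr topEquiv).2 (by_contra fun hr => ?_)
  obtain ⟨A, h1, h2, h3⟩ := exists_normal_elementary_cube hp2 hG hr
  exact h A h1 h3 h2.2

theorem mul_pow_of_cyclic_commutator (hp2 : p ≠ 2) (hG : IsPGroup p G) (hc : IsCyclic (_root_.commutator G))
    {x y : G} (hx : x ^ p = 1) (hy : y ^ p = 1) : (x * y) ^ p = 1 := by
  have := omegaOne_normal (p := p) (_root_.commutator G)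
  have hZ := le_center_of_card_le_prime hG _ (card_omegaOne_le_of_isCyclic (hG.to_subgroup _) hc)
  have h1 : ∀ a b g : G, ⁅a, b⁆ ^ p = 1 → Commute g ⁅a, b⁆ := fun a b g h =>
    mem_center_iff.1 (hZ (mem_omegaOne (commutator_mem_commutator (mem_top a) (mem_top b)) h)) g
  have hn : (⊤ : Subgroup G) ≤ 𝐍(zpowers ⁅y, x⁆) := le_normalizer_of_normal.trans
    (Amb.norm_le_norm_of_cyclic hc (zpowers_le.2 (commutator_mem_commutator (mem_top y) (mem_top x))))
  obtain ⟨m, hm⟩ := hG.exists_orderOf_eq_pow ⁅y, x⁆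
  obtain ⟨-, -, -, h2, -⟩ := commutator_of_cyclic_odd hp.out hp2 hm (hn (mem_top y)) (by rw [hy]; exact .one_left _)
  have h3 := commutator_pow_left_of_commute₂ (h1 _ _ y h2) (h1 _ _ _ h2) p
  rw [hy, commutatorElement_one_left, pow_eq_one_of_dvd h2 (prime_dvd_choose_two hp.out hp2), mul_one] at h3
  exact mul_pow_eq_one_of_commute_of_odd (hp.out.odd_of_ne_two hp2) (h1 _ _ _ h3.symm) (h1 _ _ _ h3.symm) hx hy

theorem NoE.meta (h : NoE p G) (hp2 : p ≠ 2) (hG : IsPGroup p G) (hc : IsCyclic (_root_.commutator G)) :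
    IsMetacyclic G := by
  have := omegaOne_normal (p := p) (⊤ : Subgroup G)
  exact isMetacyclic_of_isCyclic_commutator hp2 hG (h.card_le hG _ fun x => pow_eq_one_of_mem_omegaOne
    fun a _ b _ => mul_pow_of_cyclic_commutator hp2 hG hc) hc

omit [Finite G] in
theorem mul_pow_of_le (hp2 : p ≠ 2) (h1 : ⁅K, K⁆ ≤ V) (h2 : K ≤ 𝐂(V)) (h3 : ∀ v ∈ V, v ^ p = 1) :
    ∀ x ∈ K, ∀ y ∈ K, (x * y) ^ p = x ^ p * y ^ p := fun x hx y hy =>
  have h4 := h1 (commutator_mem_commutator hy hx)
  mul_pow_of_commute_of_odd (hp.out.odd_of_ne_two hp2) (h2 hx _ h4).symm (h2 hy _ h4).symm (h3 _ h4)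

omit hp in
theorem card_le_omega (h : ∀ x ∈ K, ∀ y ∈ K, (x * y) ^ p = x ^ p * y ^ p) (hT : ∀ x ∈ K, x ^ p ∈ T) :
    Nat.card K ≤ Nat.card (omegaOne p K) * Nat.card T := by
  let f : K →* T := MonoidHom.mk' (fun x => ⟨x ^ p, hT x x.2⟩) fun x y => Subtype.ext (h x x.2 y y.2)
  rw [← f.ker.card_mul_index, index_ker, ← card_map_of_injective K.subtype_injective]
  refine Nat.mul_le_mul (card_le_of_le ?_) (card_le_card_group _)
  rintro _ ⟨x, hx, rfl⟩
  exact mem_omegaOne x.2 (congrArg Subtype.val hx)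

theorem step_eq (hG : IsPGroup p G) (T V : Subgroup G) [T.Normal] [V.Normal] (h : T ≤ V)
    (hc : Nat.card V = Nat.card T * p) : ⁅V, ⊤⁆ ≤ T := by
  obtain ⟨K, -, h2, -, h3, h4, -⟩ := exists_step (hG.to_subgroup ⊤) le_top le_normalizer_of_normal
    le_normalizer_of_normal (lt_of_le_of_ne h fun e => by
      rw [e] at hc
      exact hp.out.one_lt.ne' (Nat.eq_of_mul_eq_mul_left Nat.card_pos (hc.symm.trans (mul_one _).symm)))
  rwa [eq_of_le_of_card_le h2 (hc.trans h3.symm).le] at h4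

theorem NoE.mcl_of (h : NoE p G) (hp2 : p ≠ 2) (hn : Nat.card G = p ^ n) [T.Normal] [H.Normal]
    (hT : Nat.card T = p) (hH : Nat.card H = p ^ 4) (hTH : T ≤ H) (he : ∀ x ∈ H, x ^ p ∈ T) : MCl p G n := by
  have hG : IsPGroup p G := .of_card hn
  have hr := h.rank hp2 hG
  have h1 := hp.out.one_lt
  have hTe : ∀ x ∈ T, x ^ p = 1 := fun x hx => by
    have := congrArg Subtype.val (pow_card_eq_one' (x := (⟨x, hx⟩ : T)))
    rwa [hT] at this
  have hTZ := le_center_of_card_eq_prime hG T hT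
  obtain ⟨W, hWH, hWn, hWe, hW⟩ := exists_normal_elementary_sq hp2 hG H fun hc => by
    have := card_le_of_isCyclic_of_pow (p := p ^ 2) (by positivity) hc fun x hx => by
      rw [pow_two, pow_mul, hTe _ (he x hx)]
    rw [hH, Nat.pow_le_pow_iff_right h1] at this
    omega
  have hm : ∀ b ∈ 𝐂(W), b ^ p = 1 → b ∈ W := fun b => mem_of_rank hr le_top hW hWe.2 (mem_top b)
  have hTW : T ≤ W := fun x hx => hm x (center_le_centralizer _ (hTZ hx)) (hTe x hx)
  have hWC : W ≤ 𝐂(W) := Amb.comm_le_cent hWe.1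
  have hCi : ∀ X : Subgroup G, (𝐂(W)).relIndex X ≤ p := fun X => ((relIndex_le_of_le_right le_top
    (by simpa using index_ne_zero_of_finite)).trans_eq (relIndex_top_right _)).trans
    (index_centralizer_le_of_card_eq_sq hG W hW)
  have hWT := step_eq hG T W hTW (by rw [hW, hT, pow_two])
  obtain ⟨U, hUn, u1, u2, u3⟩ := exists_normal_between_card_eq hG W (H ⊓ 𝐂(W)) (le_inf hWH hWC) 1 (by
    have a1 := card_inf_mul_relIndex (𝐂(W)) H
    have a3 := Nat.mul_le_mul_left (Nat.card ↥(𝐂(W) ⊓ H)) (hCi H)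
    rw [a1, hH, pow_succ p 3, inf_comm] at a3
    rw [hW, ← pow_add]
    exact Nat.le_of_mul_le_mul_right a3 hp.out.pos)
  rw [pow_one] at u3
  have hUW := step_eq hG W U u1 u3
  rw [hW, ← pow_succ] at u3
  have key : ∀ g ∈ 𝐂(W), g ^ p ∈ T → g ∈ U := fun g g1 g2 => by
    have a1 : U ⊔ zpowers g ≤ 𝐂(W) := sup_le (u2.trans inf_le_right) (zpowers_le.2 g1)
    have a2 := mul_pow_of_le hp2 (Amb.der_sup_le le_normalizer_of_normal ((commutator_mono le_rfl le_top).trans hUW)
      ((commutator_mono le_rfl le_top).trans hUW) ((Amb.der_eq_bot_iff.2 inferInstance).le.trans bot_le)) a1 hWe.2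
    have a3 := (card_le_omega a2 (T := T) fun x hx => by
      obtain ⟨u, hu, i, rfl⟩ := (mem_sup_zpowers_nat (le_normalizer_of_normal (mem_top g))).1 hx
      rw [a2 u (mem_sup_left hu) _ (mem_sup_right (pow_mem (mem_zpowers g) i)), ← pow_mul, mul_comm i, pow_mul]
      exact mul_mem (he u (u2 hu).1) (pow_mem g2 i)).trans (Nat.mul_le_mul_right _
        (card_le_of_le (omegaOne_le_iff.2 fun x hx => hm x (a1 hx))))
    rw [hW, hT, ← pow_succ, ← u3] at a3
    exact (eq_of_le_of_card_le le_sup_left a3).ge (mem_sup_right (mem_zpowers g))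
  obtain ⟨s, s1, s2⟩ : ∃ s ∈ H, s ∉ 𝐂(W) := by
    by_contra hc
    push Not at hc
    have := card_le_of_le (show H ≤ U from fun x hx => key x (hc x hx) (he x hx))
    rw [hH, u3, Nat.pow_le_pow_iff_right h1] at this
    omega
  have hD : 𝐂(W) ⊓ centralizer {s} ≤ T := fun g hg => by_contra fun hgT => by
    obtain ⟨j, j1, j2⟩ := exists_pow_notMem_pow_mem hgT (hG g)
    have j3 := pow_mem hg (p ^ j)
    generalize g ^ p ^ j = a at *
    have rel : ∀ {X Y : Subgroup G}, X ≤ Y → Nat.card Y = Nat.card X * p → X.relIndex Y = p := fun h1 h2 =>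
      Nat.eq_of_mul_eq_mul_left Nat.card_pos ((card_eq_card_mul_relIndex h1).symm.trans h2)
    have hs : Commute a s := mem_centralizer_singleton_iff.1 j3.2
    by_cases haW : a ∈ W
    · refine s2 ?_
      rw [← sup_zpowers_eq_of_relIndex_prime hp.out (rel hTW (by rw [hW, hT, pow_two])) hTW haW j1,
        centralizer_sup_zpowers]
      exact ⟨fun t ht => (mem_center_iff.1 (hTZ ht) s).symm, mem_centralizer_singleton_iff.2 hs.symm⟩
    have e1 := sup_zpowers_eq_of_relIndex_prime hp.out (rel u1 (by rw [u3, hW, ← pow_succ])) u1 (key a j3.1 j2) haW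
    have e2 := sup_zpowers_eq_of_relIndex_prime hp.out (rel (u2.trans inf_le_left) (by rw [u3, hH, ← pow_succ]))
      (u2.trans inf_le_left) s1 fun h => s2 (u2 h).2
    rw [← e1, sup_assoc] at e2
    have a2 := mul_pow_of_le hp2 (K := H) (e2 ▸ Amb.der_sup_le le_normalizer_of_normal
      ((commutator_mono le_rfl le_top).trans hWT) ((commutator_mono le_rfl le_top).trans hWT)
      ((Amb.der_eq_bot_iff.2 (isMulCommutative_sup_zpowers inferInstance (by
        rw [centralizer_zpowers]; exact mem_centralizer_singleton_iff.2 hs.symm))).le.trans bot_le))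
      (Amb.le_cent_symm (hTZ.trans (center_le_centralizer _))) hTe
    have := omegaOne_normal (p := p) H
    have a3 := (card_le_omega a2 he).trans (Nat.mul_le_mul_right _ (h.card_le hG _ fun x =>
      pow_eq_one_of_mem_omegaOne fun x hx y hy h1 h2 => by rw [a2 x hx y hy, h1, h2, one_mul]))
    rw [hH, hT, ← pow_succ, Nat.pow_le_pow_iff_right h1] at a3
    omega
  have h4 : 4 ≤ n := by
    have := card_le_card_group H
    rwa [hH, hn, Nat.pow_le_pow_iff_right h1] at this
  refine .of_cls hn (by omega) (nilpotencyClass_eq_of_card_centralizer_le hn (by omega) s ?_)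
  rw [← card_inf_mul_relIndex (𝐂(W)), pow_two]
  exact Nat.mul_le_mul ((card_le_of_le hD).trans hT.le) (hCi _)

omit [Finite G] in
theorem map_Γ (N : Subgroup G) [N.Normal] (i : ℕ) : (Γ G i).map (QuotientGroup.mk' N) = Γ (G ⧸ N) i := by
  unfold Γ
  rw [map_lowerCentralSeries, map_top_of_surjective _ (QuotientGroup.mk'_surjective N)]

omit [Finite G] in
theorem comap_Γ (N : Subgroup G) [N.Normal] {i : ℕ} (h : N ≤ Γ G i) :
    (Γ (G ⧸ N) i).comap (QuotientGroup.mk' N) = Γ G i := by
  rw [← map_Γ, comap_map_eq, QuotientGroup.ker_mk', sup_eq_left.2 h]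

omit [Finite G] in
theorem card_quot (hn : Nat.card G = p ^ (n + 1)) (T : Subgroup G) [T.Normal] (hT : Nat.card T = p) :
    Nat.card (G ⧸ T) = p ^ n := by
  have := card_quotient_mul_card T
  rw [hT, hn, pow_succ] at this
  exact Nat.eq_of_mul_eq_mul_right hp.out.pos this

theorem NoE.mcl_succ (h : NoE p G) (hp2 : p ≠ 2) (hn : Nat.card G = p ^ (n + 1)) {c : ℕ}
    (h0 : Γ G (c + 1) = ⊥) [T.Normal] (hT : Nat.card T = p) (hTc : T ≤ Γ G c) (hq : MCl p (G ⧸ T) n) :
    MCl p G (n + 1) := by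
  have hG : IsPGroup p G := .of_card hn
  have h1 := hp.out.one_lt
  have h3 := hq.three
  refine ⟨hn, by omega, fun hb => ?_⟩
  rw [add_tsub_cancel_right] at hb
  obtain rfl : n = c + 1 := by
    by_contra hc
    rcases Nat.lt_or_gt_of_ne hc with hc | hc
    · rw [eq_bot_iff.2 (hTc.trans ((Γ_antitone (by omega)).trans hb.le)), card_bot] at hT
      omega
    · exact hq.ne (by rw [← map_Γ, eq_bot_iff.2 ((Γ_antitone (by omega)).trans h0.le), Subgroup.map_bot])
  have hc : ∀ i, 2 ≤ i → i ≤ c → Nat.card (Γ G i) = p ^ (c + 2 - i) := fun i a1 a2 => by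
    rw [← comap_Γ T (hTc.trans (Γ_antitone a2)), card_comap_mk', hT, hq.card_Γ a1 (by omega), ← pow_succ']
    congr 1
    omega
  have hZ : Γ G c ≤ center G := fun y hy => mem_center_iff.2 fun g => commutatorElement_eq_one_iff_mul_comm.1 (by
    have := Γ_comm (mem_Γ_one g) hy
    rwa [add_comm, h0] at this)
  have hY := hc c (by omega) le_rfl
  rw [show c + 2 - c = 2 by omega] at hY
  obtain rfl | h4 : c = 2 ∨ 3 ≤ c := by omega
  · have : (Γ G 2).Normal := normal_of_le_center hZ
    obtain ⟨A, -, a1, -, a2⟩ := exists_normal_between_card_eq hG (Γ G 2) ⊤ le_top 1 (by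
      rw [hY, card_top, hn, ← pow_add]
      exact Nat.pow_le_pow_right hp.out.pos (by omega))
    have a3 := card_eq_card_mul_relIndex a1
    rw [a2, pow_one] at a3
    have a4 := (Nat.eq_of_mul_eq_mul_left Nat.card_pos a3).symm
    obtain ⟨a, ha, ha'⟩ : ∃ a ∈ A, a ∉ Γ G 2 := by
      by_contra hc
      push Not at hc
      rw [relIndex_eq_one.2 hc] at a4
      omega
    have a5 := A.card_mul_index
    rw [a2, hY, hn, ← pow_add, pow_succ p (2 + 1)] at a5
    have a6 := index_center_of_abelian_index_prime hG (fun hc => hq.not_comm ⟨⟨fun x y => by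
      induction x using QuotientGroup.induction_on
      induction y using QuotientGroup.induction_on
      rw [← QuotientGroup.mk_mul, hc.1.1, QuotientGroup.mk_mul]⟩⟩) (A := A)
      (sup_zpowers_eq_of_relIndex_prime hp.out a4 a1 ha ha' ▸ isMulCommutative_sup_zpowers
        (isMulCommutative_of_le hZ inferInstance) fun y hy => (mem_center_iff.1 (hZ hy) a).symm)
      (Nat.eq_of_mul_eq_mul_left (by positivity) a5)
    have a7 := (center G).card_mul_index
    have a8 := Nat.mul_le_mul_right (p * p ^ 2) (card_le_of_le hZ)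
    rw [a6, show Nat.card (_root_.commutator G) = p ^ 2 from hY] at a7
    rw [a7, hY, hn, ← pow_succ', ← pow_add, Nat.pow_le_pow_iff_right h1] at a8
    omega
  obtain ⟨c, rfl⟩ : ∃ d, c = d + 1 := ⟨c - 1, by omega⟩
  have hYe : ∀ y ∈ Γ G (c + 1), y ^ p = 1 := fun y hy => pow_eq_one_of_mem_omegaOne_of_comm inferInstance
    (Γ_succ_le (by omega) (N := omegaOne p (center G)) (fun g u hu => by
      have a1 : ⁅g, u⁆ ∈ center G := hZ (add_comm 1 c ▸ Γ_comm (mem_Γ_one g) hu)
      refine mem_omegaOne a1 ?_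
      have a2 : g ^ p ∈ Γ G 2 := (comap_Γ T (hTc.trans (Γ_antitone (by omega)))).le
        (hq.pow_mem le_rfl (mem_Γ_one (g : G ⧸ T)))
      have a3 := Γ_comm a2 hu
      rw [add_comm, show c + 2 = c + 1 + 1 from rfl, h0, mem_bot,
        commutator_pow_left_of_commute (mem_center_iff.1 a1 g)] at a3
      exact a3) hy)
  have key : ∀ T' : Subgroup G, Nat.card T' = p → T' ≤ Γ G (c + 1) → ∀ x ∈ Γ G c, x ^ p ∈ T' := fun T' a1 a2 x hx => by
    have := normal_of_le_center (a2.trans hZ)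
    have hq' : MCl p (G ⧸ T') (c + 1 + 1) := ⟨card_quot hn T' a1, by omega, fun e => by
      have a3 := comap_Γ T' a2
      rw [add_tsub_cancel_right] at e
      rw [e, MonoidHom.comap_bot, QuotientGroup.ker_mk'] at a3
      rw [← a3, a1] at hY
      exact absurd hY (by nlinarith)⟩
    have a3 := hq'.pow_mem_Γ (i := c) (by omega) ((map_Γ T' c).le (mem_map_of_mem _ hx))
    have := hp.out.two_le
    rwa [hq'.bot (by omega), mem_bot, ← map_pow, QuotientGroup.mk'_apply, QuotientGroup.eq_one_iff] at a3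
  obtain ⟨y, y1, y2⟩ : ∃ y ∈ Γ G (c + 1), y ∉ T := by
    by_contra hc
    push Not at hc
    have := card_le_of_le hc
    rw [hY, hT] at this
    nlinarith
  have y3 : orderOf y = p := Rank.orderOf_eq_of_pow (hYe y y1) fun e => y2 (e ▸ one_mem T)
  refine h (Γ G c) (by unfold Γ; infer_instance) (by rw [hc c (by omega) (by omega)]; congr 1; omega) fun x hx => ?_
  obtain ⟨k, hk⟩ := mem_zpowers_iff.1 (key (zpowers y) (by rw [Nat.card_zpowers, y3]) (zpowers_le.2 y1) x hx)
  rw [← hk, ← orderOf_dvd_iff_zpow_eq_one, y3]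
  exact dvd_of_zpow_mem hp.out (hYe y y1 ▸ one_mem T) y2 (hk ▸ key T hT hTc x hx)

theorem meta_or_mcl_aux (hp2 : p ≠ 2) (n : ℕ) : ∀ (G : Type u) [Group G] [Finite G], Nat.card G = p ^ n →
    NoE p G → IsMetacyclic G ∨ MCl p G n := by
  induction n with
  | zero =>
    intro G _ _ hn h
    have := (Nat.card_eq_one_iff_unique.1 hn).1
    exact .inl (isMetacyclic_of_isCyclic inferInstance)
  | succ n ih =>
    intro G _ _ hn h
    have hG : IsPGroup p G := .of_card hn
    by_cases hc : IsCyclic (_root_.commutator G)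
    · exact .inl (h.meta hp2 hG hc)
    have := hG.isNilpotent
    obtain ⟨z, z1, z2, z3⟩ := exists_mem_center_orderOf_eq hG
      ((⊤ : Subgroup G).lowerCentralSeries (Group.nilpotencyClass G - 1)) fun e => by
        have a1 := Subgroup.lowerCentralSeries_eq_bot_iff_nilpotencyClass_le.1 e
        have := Group.nilpotencyClass_zero_iff_subsingleton.1 (show Group.nilpotencyClass G = 0 by omega)
        exact hc inferInstance
    have := normal_of_le_center (zpowers_le.2 z2)
    have hT : Nat.card (zpowers z) = p := by rw [Nat.card_zpowers, z3]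
    by_cases hq : NoE p (G ⧸ zpowers z)
    · exact .inr ((ih _ (card_quot hn _ hT) hq).elim (fun hm => (hc (isCyclic_commutator_of_quotient z2 hm)).elim)
        (h.mcl_succ hp2 hn (c := Group.nilpotencyClass G) Subgroup.lowerCentralSeries_nilpotencyClass hT (zpowers_le.2 z1)))
    · unfold NoE at hq
      push Not at hq
      obtain ⟨E, e1, e2, e3⟩ := hq
      refine .inr (h.mcl_of hp2 hn hT (H := E.comap (QuotientGroup.mk' _)) ?_ ?_ fun x hx => ?_)
      · rw [card_comap_mk', hT, e2, ← pow_succ']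
      · intro x hx
        rw [mem_comap, QuotientGroup.mk'_apply, (QuotientGroup.eq_one_iff x).2 hx]
        exact one_mem E
      · rw [← QuotientGroup.eq_one_iff, QuotientGroup.mk_pow]
        exact e3 _ hx

theorem NoE.meta_or_mcl (h : NoE p G) (hp2 : p ≠ 2) (hn : Nat.card G = p ^ n) : IsMetacyclic G ∨ MCl p G n :=
  meta_or_mcl_aux hp2 n G hn h

end Cfsg.Agent.Inv.Rk
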