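import Mathlib
import Cfsg.Agent.BG.Quo
import Cfsg.Agent.BG.AmbCent
import Cfsg.Agent.Core.Super
import Cfsg.Agent.FGS.Semi
import Cfsg.Agent.Fusion.Small
import Cfsg.Agent.Fusion.Func2
import Cfsg.Agent.Fusion.Model2
import Cfsg.Agent.Fusion.Br3

/-! Supersoluble fusion systems: chains of strongly closed subgroups with cyclic steps. -/

namespace Cfsg.Agent.Inv

open Subgroup Fusion BG BG.QuoApi
open scoped commutatorElement

section grp

variable {G : Type*} [Group G] {p : ℕ} [hp : Fact p.Prime]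

/-- A normal step with cyclic quotient. -/
def Step (D E : Subgroup G) : Prop := E ≤ nz D ∧ IsCyclic (quo D E)

theorem Step.of_zpowers {D E : Subgroup G} {x : G} (h : E ≤ nz D) (e : E = D ⊔ zpowers x) :
    Step D E := by
  have hx : x ∈ nz D := h (e ▸ (le_sup_right : zpowers x ≤ D ⊔ zpowers x) (mem_zpowers x))
  refine ⟨h, ?_⟩
  rw [e, quo_self_sup (zpowers_le.2 hx), show zpowers x = zpowers ((⟨x, hx⟩ : nz D) : G) from rfl,
    quo_zpowers]
  infer_instance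

theorem Step.inf {D E : Subgroup G} (h : Step D E) (P : Subgroup G) : Step (P ⊓ D) (P ⊓ E) := by
  have h1 : P ⊓ E ≤ nz D := inf_le_right.trans h.1
  have h2 : P ⊓ E ≤ nz (P ⊓ D) := fun _ hg => mem_nz_inf (le_nz _ hg.1) (h1 hg)
  refine ⟨h2, ?_⟩
  haveI := h.2
  have h3 : IsCyclic (quo D (P ⊓ E)) := isCyclic_of_le (quo_mono inf_le_right : _ ≤ quo D E)
  have e := mapEquivOfKerEq (quoHom h1) (quoHom h2) (by
    rw [quoHom_ker, quoHom_ker]
    ext x
    exact ⟨fun h => ⟨x.2.1, h⟩, fun h => h.2⟩) ⊤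
  rw [← MonoidHom.range_eq_map, ← MonoidHom.range_eq_map, quoHom_range, quoHom_range] at e
  exact e.isCyclic.1 h3

theorem pow_mem_cz_of_cyclic [Finite G] {X : Subgroup G} (hX : IsCyclic X) (h : IsPGroup p X)
    {a : G} (ha : a ∈ nz X) (hc : (orderOf a).Coprime p) : a ^ (p - 1) ∈ cz X := by
  obtain ⟨k, hk⟩ := h.exists_card_eq
  have h1 : X.normalizerMonoidHom ⟨a, ha⟩ ^ (p ^ (k - 1) * (p - 1)) = 1 := by
    rcases k.eq_zero_or_pos with rfl | h0
    · haveI : Subsingleton X := (Nat.card_eq_one_iff_unique.1 (by simpa using hk)).1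
      exact MulEquiv.ext fun _ => Subsingleton.elim _ _
    · rw [← Nat.totient_prime_pow hp.out h0, ← hk, ← IsCyclic.card_mulAut, pow_card_eq_one']
  have h2 : (X.normalizerMonoidHom ⟨a, ha⟩ ^ (p - 1)) ^ orderOf a = 1 := by
    rw [← pow_mul, mul_comm, pow_mul, ← map_pow]
    rw [show (⟨a, ha⟩ : nz X) ^ orderOf a = 1 from Subtype.ext (pow_orderOf_eq_one a), map_one, one_pow]
  rw [mul_comm, pow_mul] at h1
  have h3 := pow_gcd_eq_one.2 ⟨h1, h2⟩
  rw [(hc.symm.pow_left _).gcd_eq_one, pow_one, ← map_pow, ← MonoidHom.mem_ker,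
    normalizerMonoidHom_ker, mem_subgroupOf] at h3
  exact h3

theorem Step.triv [Finite G] {D E A : Subgroup G} (h : Step D E) (hE : IsPGroup p E)
    (h1 : A ≤ nz D) (h2 : A ≤ nz E) :
    ⁅⁅A, A⁆, E⁆ ≤ D ∧ ∀ a ∈ A, (orderOf a).Coprime p → ⁅zpowers (a ^ (p - 1)), E⁆ ≤ D := by
  have h3 : quo D A ≤ nz (quo D E) := quo_le_normalizer h2
  refine ⟨?_, fun a ha hc => ?_⟩
  · rw [← quo_le_centralizer_iff ((commutator_le_self _).trans h1) h.1, quo_commutator h1 h1]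
    exact Amb.der_le_cent_of_cyclic h.2 h3
  · have ha' : a ^ (p - 1) ∈ nz D := pow_mem (h1 ha) _
    rw [← quo_le_centralizer_iff (zpowers_le.2 ha') h.1,
      show zpowers (a ^ (p - 1)) = zpowers ((⟨_, ha'⟩ : nz D) : G) from rfl, quo_zpowers, zpowers_le,
      show (⟨_, ha'⟩ : nz D) = ⟨a, h1 ha⟩ ^ (p - 1) from rfl, map_pow]
    refine pow_mem_cz_of_cyclic h.2 (isPGroup_quo hE D) (h3 (mk_mem_quo ha)) ?_
    exact hc.coprime_dvd_left ((orderOf_map_dvd _ _).trans (Subgroup.orderOf_mk a _).dvd)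

theorem pmod_of_comm [Finite G] {K : Subgroup G} {n : ℕ} (c : Fin (n + 1) → Subgroup G)
    (h0 : c 0 = ⊥) (hc : ∀ i, IsPGroup p (c i)) (h : ∀ i : Fin n, ⁅K, c i.succ⁆ ≤ c i.castSucc)
    (hn : ∀ i : Fin n, c i.succ ≤ nz (c i.castSucc)) (i) : PMod p K (cz (c i)) :=
  pmod_cz_chain c h0 hc (fun i g hg x hx => by
    have := (mem_nz.1 (inv_mem (hn i hx)) _).1 (h i (commutator_mem_commutator hg hx))
    convert this using 1
    rw [commutatorElement_def]; group) i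

theorem chain_pmod [Finite G] {A : Subgroup G} {n : ℕ} (c : Fin (n + 1) → Subgroup G)
    (h0 : c 0 = ⊥) (hc : ∀ i, IsPGroup p (c i)) (hA : ∀ i, A ≤ nz (c i))
    (h : ∀ i : Fin n, Step (c i.castSucc) (c i.succ)) (i) :
    PMod p ⁅A, A⁆ (cz (c i)) ∧ ∀ a ∈ A, (orderOf a).Coprime p → a ^ (p - 1) ∈ cz (c i) :=
  ⟨pmod_of_comm c h0 hc (fun i => ((h i).triv (hc _) (hA _) (hA _)).1) (fun i => (h i).1) i,
    fun a ha h1 => (pmod_of_comm c h0 hc (fun i => ((h i).triv (hc _) (hA _) (hA _)).2 a ha h1)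
      (fun i => (h i).1) i).mem_of_coprime (mem_zpowers _)
        (h1.coprime_dvd_left (orderOf_pow_dvd _))⟩

omit hp in
theorem exists_chain_of_step [Finite G] (Φ : Subgroup G → Prop) (S : Subgroup G)
    (h : ∀ N, Φ N → N < S → ∃ x ∈ S, x ∉ N ∧ Φ (N ⊔ zpowers x)) (N : Subgroup G) :
    Φ N → N ≤ S → ∃ (m : ℕ) (c : Fin (m + 1) → Subgroup G), c 0 = N ∧ c (Fin.last m) = S ∧
      (∀ i, Φ (c i)) ∧
      ∀ i : Fin m, c i.castSucc ≤ c i.succ ∧ ∃ x ∈ S, c i.succ = c i.castSucc ⊔ zpowers x := by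
  induction N using WellFoundedGT.induction with
  | ind N ih =>
  intro h1 h2
  rcases h2.eq_or_lt with rfl | h3
  · exact ⟨0, fun _ => N, rfl, rfl, fun _ => h1, fun i => i.elim0⟩
  obtain ⟨x, hx, hxN, h4⟩ := h N h1 h3
  obtain ⟨m, c, k0, k1, k2, k3⟩ := ih (N ⊔ zpowers x) (lt_of_le_of_ne le_sup_left fun e =>
    hxN (e ▸ (le_sup_right : zpowers x ≤ N ⊔ zpowers x) (mem_zpowers x))) h4
    (sup_le h2 (zpowers_le.2 hx))
  refine ⟨m + 1, Fin.cons N c, rfl, k1, fun i => ?_, fun i => ?_⟩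
  · induction i using Fin.cases with
    | zero => exact h1
    | succ i => exact k2 i
  · induction i using Fin.cases with
    | zero => exact ⟨(le_sup_left.trans k0.ge :), x, hx, k0⟩
    | succ i => exact k3 i

theorem exists_step [Finite G] {S K N : Subgroup G} (hS : IsPGroup p S) (hK : K ≤ nz S)
    (h1 : ⁅K, K⁆ ≤ cz S) (h2 : ∀ k ∈ K, k ^ (p - 1) ∈ cz S) (hN : S ⊔ K ≤ nz N) (h : N < S) :
    ∃ x ∈ S, x ∉ N ∧ S ⊔ K ≤ nz (N ⊔ zpowers x) := by
  have hSN := le_sup_left.trans hN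
  have hKN := le_sup_right.trans hN
  have hle := Rank.omegaCenter_le p (quo N S)
  obtain ⟨X, k1, k2, k3⟩ := Core.exists_invariant_card_prime (K := quo N K)
    (Rank.omegaCenter_elem p (quo N S)) (Rank.omegaCenter_ne_bot (isPGroup_quo hS N)
      fun e => h.not_ge ((quo_eq_bot_iff hSN).1 e))
    ((quo_le_normalizer hK).trans (Rank.normalizer_le_normalizer_omegaCenter p _))
    (by rw [← quo_commutator hKN hKN]; exact (quo_le_centralizer h1).trans (centralizer_le hle))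
    (fun k hk => by
      obtain ⟨y, hy, rfl⟩ := mem_quo.1 hk
      rw [← map_pow]
      exact centralizer_le hle (quo_centralizer_le N S (mk_mem_quo (h2 y hy))))
  haveI : IsCyclic X := isCyclic_of_prime_card k2
  obtain ⟨x, rfl⟩ := Amb.cyclic_iff_exists.1 this
  obtain ⟨y, hy, rfl⟩ := mem_quo.1 (hle (k1 (mem_zpowers x)))
  refine ⟨y, hy, fun hyN => ?_, ?_⟩
  · rw [quoMk_eq_one_iff.2 hyN, zpowers_one_eq_bot, card_bot] at k2
    exact hp.out.one_lt.ne k2
  · rw [sup_comm N, ← quo_le_normalizer_iff' hN (zpowers_le.2 y.2), quo_zpowers, quo_sup hSN hKN]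
    exact sup_le (((Rank.le_centralizer_omegaCenter p _).trans (centralizer_le k1)).trans
      (cz_le_nz _)) k3

/-- Every `p'`-group of automorphisms is abelian of exponent dividing `p - 1`. -/
def PAut (p : ℕ) (X : Type*) [Group X] : Prop :=
  ∀ H : Subgroup (MulAut X), (Nat.card H).Coprime p → IsMulCommutative H ∧ ∀ h ∈ H, h ^ (p - 1) = 1

omit hp in
theorem PAut.conj {X : Type*} [Group X] (h : PAut p X) {P K : Subgroup G} (e : X ≃* P)
    (hK : K ≤ nz P) (hc : (Nat.card K).Coprime p) :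
    ⁅K, K⁆ ≤ cz P ∧ ∀ k ∈ K, k ^ (p - 1) ∈ cz P := by
  let φ : K →* MulAut X :=
    (MulAut.congr e.symm).toMonoidHom.comp (P.normalizerMonoidHom.comp (inclusion hK))
  have hφ : ∀ k : K, φ k = 1 → (k : G) ∈ cz P := fun k hk => by
    have : inclusion hK k ∈ P.normalizerMonoidHom.ker :=
      (MulAut.congr e.symm).injective (hk.trans (map_one _).symm)
    rwa [normalizerMonoidHom_ker, mem_subgroupOf] at this
  obtain ⟨h1, h2⟩ := h φ.range (hc.coprime_dvd_left (card_range_dvd φ))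
  refine ⟨commutator_le.2 fun a ha b hb => hφ ⁅(⟨a, ha⟩ : K), ⟨b, hb⟩⁆ ?_,
    fun k hk => hφ (⟨k, hk⟩ ^ (p - 1)) (by rw [map_pow]; exact h2 _ ⟨_, rfl⟩)⟩
  rw [map_commutatorElement, commutatorElement_eq_one_iff_mul_comm]
  exact congrArg Subtype.val (h1.is_comm.comm (⟨_, _, rfl⟩ : φ.range) ⟨_, _, rfl⟩)

omit hp in
theorem pAut_of_equiv {X Y : Type*} [Group X] [Group Y] (e : X ≃* Y) (h : PAut p X) : PAut p Y := by
  intro H hc
  let f := (MulAut.congr e.symm).toMonoidHom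
  obtain ⟨h1, h2⟩ := h (H.map f) (hc.coprime_dvd_left (card_map_dvd H f))
  refine ⟨⟨⟨fun a b => Subtype.ext ((MulAut.congr e.symm).injective ?_)⟩⟩,
    fun a ha => (MulAut.congr e.symm).injective ?_⟩
  · rw [coe_mul, coe_mul, map_mul, map_mul]
    exact congrArg Subtype.val (h1.is_comm.comm (⟨_, _, a.2, rfl⟩ : H.map f) ⟨_, _, b.2, rfl⟩)
  · rw [map_pow, map_one]
    exact h2 _ ⟨_, ha, rfl⟩

open FGS SemidirectProduct in
theorem pAut_of_sd {X : Type*} [Group X] [Finite X]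
    (h : ∀ H : Subgroup (MulAut X), (Nat.card (sdA H.subtype)).Coprime p →
      PMod p ⁅sdA H.subtype, sdA H.subtype⁆ (cz (sdG H.subtype)) ∧
        ∀ a ∈ sdA H.subtype, (orderOf a).Coprime p → a ^ (p - 1) ∈ cz (sdG H.subtype)) :
    PAut p X := by
  intro H hc
  rw [← card_sdA H.subtype] at hc
  obtain ⟨h1, h2⟩ := h H hc
  have key : ∀ a : H, (inr a : X ⋊[H.subtype] H) ∈ cz (sdG H.subtype) → a = 1 := fun a ha =>
    Subtype.ext (MulEquiv.ext fun x => inl_injective (φ := H.subtype) (by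
      have := sd_conj H.subtype a x
      rw [← mem_cz.1 ha _ ⟨x, rfl⟩, mul_inv_cancel_right] at this
      exact this.symm))
  have hc' : ∀ a ∈ sdA H.subtype, (orderOf a).Coprime p := fun a ha =>
    hc.coprime_dvd_left (orderOf_dvd_natCard _ ha)
  refine ⟨⟨⟨fun a b => commutatorElement_eq_one_iff_mul_comm.1 (key _ ?_)⟩⟩, fun a ha => ?_⟩
  · refine h1.mem_of_coprime ?_ (hc' _ ⟨_, rfl⟩)
    rw [map_commutatorElement]
    exact commutator_mem_commutator ⟨_, rfl⟩ ⟨_, rfl⟩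
  · refine congrArg Subtype.val (key (⟨a, ha⟩ ^ (p - 1)) ?_)
    rw [map_pow]
    exact h2 _ ⟨_, rfl⟩ (hc' _ ⟨_, rfl⟩)

end grp

section fs

variable {G : Type*} [Group G] [Finite G] {p : ℕ} [hp : Fact p.Prime] {F : FS G}

/-- A chain of strongly closed subgroups with cyclic steps. -/
def Chain (F : FS G) : Prop :=
  ∃ (m : ℕ) (c : Fin (m + 1) → Subgroup G), c 0 = ⊥ ∧ c (Fin.last m) = F.S ∧ (∀ i, F.SC (c i)) ∧
    ∀ i : Fin m, c i.castSucc ≤ c i.succ ∧ ∃ x ∈ F.S, c i.succ = c i.castSucc ⊔ zpowers x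

theorem Chain.pmod (h : Chain F) (hS : IsPGroup p F.S) {E : Subgroup G} (hE : E ≤ F.S) :
    PMod p ⁅F.aut E, F.aut E⁆ (cz E) ∧
      ∀ a ∈ F.aut E, (orderOf a).Coprime p → a ^ (p - 1) ∈ cz E := by
  obtain ⟨m, c, h0, h1, h2, h3⟩ := h
  have := chain_pmod (p := p) (A := F.aut E) (fun i => E ⊓ c i) (by simp [h0])
    (fun _ => hS.to_le (inf_le_left.trans hE)) (fun i => (h2 i).aut_le hE)
    (fun i => by
      obtain ⟨-, x, -, e⟩ := h3 i
      exact (Step.of_zpowers ((h2 _).1.trans (h2 _).S_le_nz) e).inf E) (Fin.last m)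
  simpa only [h1, inf_eq_left.2 hE] using this

theorem Chain.nor (h : Chain F) (hF : F.Sat p) : F.Nor F.S := by
  refine hF.nor_S_of_opm fun P hP => ?_
  have h1 : F.S ⊓ nz P ≤ F.aut P := fun g hg => FS.mem_aut_of (F.inner hP.le hg.1) hg.2
  have h2 : ⁅F.aut P, F.aut P⁆ ≤ F.aut P := commutator_le_self _
  refine le_sup_right.trans (le_opm (X := ⁅F.aut P, F.aut P⁆ ⊔ F.S ⊓ nz P) (sup_le h2 h1) ?_ ?_)
  · exact le_normalizer_iff_commutator_le_right.2 ((commutator_mono le_rfl (sup_le h2 h1)).trans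
      le_sup_left)
  · rw [sup_comm]
    exact ((PMod.of_pg (hF.pg.to_le inf_le_left) _).sup_self (h1.trans
      (le_normalizer_iff_commutator_le_right.2 (commutator_mono le_rfl h2)))).trans
      (h.pmod hF.pg hP.le).1

theorem chain_of_nor (hF : F.Sat p) (hr : Rich F.S) (hn : F.Nor F.S) (h : PAut p F.S) :
    Chain F := by
  obtain ⟨H, hH⟩ := FS.Con.exists_model ⟨hF, _, hn, F.cent_S⟩ hr le_rfl
  obtain ⟨k, hk⟩ := hF.pg.exists_card_eq
  have hc : (F.S.relIndex H).Coprime p := ((Nat.Prime.coprime_iff_not_dvd hp.out).2 hH.syl.nd).symm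
  obtain ⟨K, k1, -, k2, k3⟩ := Core.exists_complement_in F.S H hH.le (hH.le_nz_of_nor hn)
    (by rw [hk]; exact hc.symm.pow_left _)
  have k4 := k1.trans (hH.le_nz_of_nor hn)
  obtain ⟨h1, h2⟩ := h.conj (MulEquiv.refl _) k4 (k3 ▸ hc)
  obtain ⟨m, c, c0, c1, c2, c3⟩ := exists_chain_of_step (fun N => N ≤ F.S ∧ H ≤ nz N) F.S
    (fun N hN h3 => by
      obtain ⟨x, x1, x2, x3⟩ := exists_step hF.pg k4 h1 h2 (k2 ▸ hN.2) h3
      exact ⟨x, x1, x2, sup_le hN.1 (zpowers_le.2 x1), k2 ▸ x3⟩) ⊥ ⟨bot_le, le_normalizer_of_normal⟩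
    bot_le
  exact ⟨m, c, c0, c1, fun i => (hH.nor_of (c2 i).1 (c2 i).2).sc, c3⟩

end fs

variable {Ω : Type*} [Group Ω] {S : Subgroup Ω} {F : FusionSystem S}

/-- A chain of strongly closed subgroups with cyclic steps. -/
def Chain' (F : FusionSystem S) : Prop :=
  ∃ (m : ℕ) (c : Fin (m + 1) → Subgroup Ω), c 0 = ⊥ ∧ c (Fin.last m) = S ∧
    (∀ i : Fin (m + 1), F.StronglyClosed (c i)) ∧
      ∀ i : Fin m, c i.castSucc ≤ c i.succ ∧ ∃ x ∈ S, c i.succ = c i.castSucc ⊔ Subgroup.zpowers x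

theorem chain_iff {G : Type*} [Group G] {ι : S →* G} {F' : FS G} (r : Rep ι F F') :
    Chain' F ↔ Chain F' := by
  constructor
  · rintro ⟨m, c, h0, h1, h2, h3⟩
    refine ⟨m, fun i => im ι (c i), by simp only [h0, im_bot], by simp only [h1, r.S_eq],
      fun i => (r.sc_iff (h2 i).1).1 (h2 i), fun i => ⟨im_mono ι (h3 i).1, ?_⟩⟩
    obtain ⟨x, hx, e⟩ := (h3 i).2
    exact ⟨fn ι x, r.S_eq ▸ fn_mem_im ι hx, by
      simp only [e]; rw [im_sup ι (h2 _).1 (zpowers_le.2 hx), im_zpowers ι hx]⟩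
  · rintro ⟨m, c, h0, h1, h2, h3⟩
    have hc : ∀ i, im ι (pre ι (c i)) = c i := fun i =>
      im_pre ι ((h2 i).1.trans (r.S_eq.le.trans (im_le_range ι S)))
    refine ⟨m, fun i => pre ι (c i), ?_, ?_, fun i => ?_, fun i => ⟨pre_mono ι (h3 i).1, ?_⟩⟩
    · rw [← im_eq_bot r.inj (pre_le ι _), hc, h0]
    · simp only [h1, r.S_eq]; exact pre_im r.inj le_rfl
    · rw [r.sc_iff (pre_le ι _), hc]; exact h2 i
    · obtain ⟨x, hx, e⟩ := (h3 i).2
      obtain ⟨y, hy, rfl⟩ := (mem_im le_rfl).1 (r.S_eq ▸ hx)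
      refine ⟨y, hy, (im_inj r.inj (pre_le ι _) (sup_le (pre_le ι _) (zpowers_le.2 hy))).1 ?_⟩
      rw [im_sup ι (pre_le ι _) (zpowers_le.2 hy), im_zpowers ι hy, hc, hc, e]

theorem exists_of_model {G : Type*} [Group G] [Finite G] {p : ℕ} [Fact p.Prime] {κ : S →* G}
    (hκ : Function.Injective κ) {L : Subgroup G} (h : Syl p κ.range L)
    (hc : ∀ F : FusionSystem S, F.IsSaturated p → Chain' F) : Chain (FS.ofGroup κ.range L) := by
  obtain ⟨E, r⟩ := exists_rep' hκ le_rfl (FS.ofGroup κ.range L) (im_self κ).symm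
  exact (chain_iff r).1 (hc E (r.sat_of (FS.ofGroup_sat h)))

open FGS in
theorem ss_iff [Finite S] {p : ℕ} [hp : Fact p.Prime] (hS : IsPGroup p S) :
    (∀ F : FusionSystem S, F.IsSaturated p → Chain' F) ↔
      (∀ F : FusionSystem S, F.IsSaturated p → F.IsNormal S) ∧ PAut p S := by
  constructor
  · refine fun h => ⟨fun F hF => ?_, pAut_of_sd fun H hc => ?_⟩
    · obtain ⟨G, _, _, ι, F', r, -⟩ := exists_rich_rep F
      rw [r.nor_iff le_rfl, ← r.S_eq]
      exact ((chain_iff r).1 (h F hF)).nor (r.sat hS hF)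
    · have h1 : IsPGroup p (sdG H.subtype) := hS.of_equiv (sdEquivG _)
      have h2 : Syl p (sdG H.subtype) ⊤ := ⟨le_top, h1, by
        rw [← sd_sup H.subtype, relIndex_sup_left]
        exact fun h3 => (Nat.Prime.coprime_iff_not_dvd hp.out).1 hc.symm
          (h3.trans (Subgroup.relIndex_dvd_card _ _))⟩
      have h3 := (exists_of_model SemidirectProduct.inl_injective h2 h).pmod h1 le_rfl
      have h4 : sdA H.subtype ≤ (FS.ofGroup (sdG H.subtype) ⊤).aut (sdG H.subtype) := fun g _ =>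
        FS.mem_aut_of (FS.ofGroup_M_of le_rfl (cj_of_nz (le_normalizer_of_normal (mem_top g))).le
          (mem_top g)) (le_normalizer_of_normal (mem_top g))
      exact ⟨h3.1.mono (commutator_mono h4 h4) le_rfl, fun a ha => h3.2 a (h4 ha)⟩
  · rintro ⟨h1, h2⟩ F hF
    obtain ⟨G, _, _, ι, F', r, hr⟩ := exists_rich_rep F
    refine (chain_iff r).2 (chain_of_nor (r.sat hS hF) ?_ ?_ ?_)
    · rwa [r.S_eq, im_self]
    · rw [r.S_eq, ← r.nor_iff le_rfl]; exact h1 F hF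
    · refine pAut_of_equiv ?_ h2
      rw [r.S_eq]; exact eta r.inj le_rfl

end Cfsg.Agent.Inv
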