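import Mathlib
import Cfsg.Agent.Inv.SSol

/-! Abelian `p`-groups all of whose `p'`-groups of automorphisms are abelian of exponent
dividing `p - 1`. -/

namespace Cfsg.Agent.Inv

open Subgroup Fusion FGS SemidirectProduct

variable {p : ℕ}

theorem PAut.left {A B : Type*} [Group A] [Group B] (h : PAut p (A × B)) : PAut p A := by
  let f : MulAut A →* MulAut (A × B) :=
    { toFun := fun a => MulEquiv.prodCongr a (MulEquiv.refl B)
      map_one' := rfl
      map_mul' := fun _ _ => rfl }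
  have hf : Function.Injective f := fun a b e => MulEquiv.ext fun x =>
    congrArg Prod.fst (MulEquiv.congr_fun e (x, 1))
  intro H hc
  obtain ⟨h1, h2⟩ := h (H.map f) (hc.coprime_dvd_left (card_map_dvd H f))
  refine ⟨⟨⟨fun a b => Subtype.ext (hf ?_)⟩⟩, fun a ha => hf ?_⟩
  · rw [coe_mul, coe_mul, map_mul, map_mul]
    exact congrArg Subtype.val (h1.is_comm.comm (⟨_, _, a.2, rfl⟩ : H.map f) ⟨_, _, b.2, rfl⟩)
  · rw [map_pow, map_one]
    exact h2 _ ⟨_, ha, rfl⟩

theorem isPGroup_zpowers' {G : Type*} [Group G] {e : ℕ} {x : G} (h : x ^ p ^ e = 1) :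
    IsPGroup p (zpowers x) := by
  rintro ⟨_, i, rfl⟩
  exact ⟨e, Subtype.ext (by
    simp only [SubgroupClass.coe_pow, OneMemClass.coe_one]
    rw [← zpow_natCast, ← zpow_mul, mul_comm, zpow_mul, zpow_natCast, h, one_zpow])⟩

theorem not_pAut_sq [hp : Fact p.Prime] {C : Type*} [CommGroup C] [Finite C] [Nontrivial C]
    (hC : IsPGroup p C) : ¬ PAut p (C × C) := by
  intro h
  obtain ⟨g, hg⟩ := exists_ne (1 : C)
  by_cases h2 : p = 2
  · subst h2
    let ρ : MulAut (C × C) :=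
      { toFun := fun x => (x.2⁻¹, x.1 * x.2⁻¹)
        invFun := fun x => (x.1⁻¹ * x.2, x.1⁻¹)
        left_inv := fun x => by ext <;> simp [mul_comm]
        right_inv := fun x => by ext <;> simp
        map_mul' := fun x y => by ext <;> simp [mul_comm, mul_left_comm, mul_assoc] }
    have h3 : ρ ^ 3 = 1 := by
      ext x <;> simp [ρ, pow_succ, mul_comm]
    have := (h (zpowers ρ) (by
      rw [Nat.card_zpowers]
      exact Nat.Coprime.coprime_dvd_left (orderOf_dvd_of_pow_eq_one h3) (by decide))).2 ρ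
      (mem_zpowers ρ)
    have := congrArg Prod.snd (MulEquiv.congr_fun this (g, 1))
    simp [ρ] at this
    exact hg this
  · let σ : MulAut (C × C) := MulEquiv.prodComm
    let r : MulAut (C × C) :=
      { toFun := fun x => (x.2, x.1⁻¹)
        invFun := fun x => (x.2⁻¹, x.1)
        left_inv := fun x => by ext <;> simp
        right_inv := fun x => by ext <;> simp
        map_mul' := fun x y => by ext <;> simp [mul_comm] }
    have h3 : σ ^ 2 ^ 1 = 1 := by ext x <;> rfl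
    have h4 : r ^ 2 ^ 2 = 1 := by ext x <;> simp [r, pow_succ]
    have h5 : σ * r * σ⁻¹ = r⁻¹ := by ext x <;> rfl
    have h6 : IsPGroup 2 (zpowers σ ⊔ zpowers r : Subgroup _) :=
      isPGroup_sup_of_nz (isPGroup_zpowers' h3) (isPGroup_zpowers' h4) (zpowers_le.2 (by
        rw [mem_nz_iff, cj_zpowers, h5, zpowers_inv]))
    obtain ⟨k, hk⟩ := @IsPGroup.exists_card_eq 2 _ _ ⟨Nat.prime_two⟩ _ h6
    have h7 := (h _ (by
      rw [hk]; exact ((Nat.coprime_primes Nat.prime_two hp.out).2 (Ne.symm h2)).pow_left _)).1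
    have h8 := congrArg (fun x : (zpowers σ ⊔ zpowers r : Subgroup _) => (x.1 (g, 1)).1)
      (h7.is_comm.comm ⟨σ, mem_sup_left (mem_zpowers _)⟩ ⟨r, mem_sup_right (mem_zpowers _)⟩)
    have h9 : g⁻¹ = g := h8
    obtain ⟨j, hj⟩ := hC g
    have := pow_gcd_eq_one.2 ⟨hj, show g ^ 2 = 1 by rw [pow_two]; nth_rw 1 [← h9]; simp⟩
    rw [(((Nat.coprime_primes hp.out Nat.prime_two).2 h2).pow_left _).gcd_eq_one, pow_one] at this
    exact hg this

/-- Elements of order dividing `p` and height at least `j`. -/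
def Ht (p : ℕ) (X : Type*) [CommGroup X] (j : ℕ) : Subgroup X :=
  (powMonoidHom p).ker ⊓ (powMonoidHom (p ^ j)).range

theorem mem_Ht {X : Type*} [CommGroup X] {j : ℕ} {x : X} :
    x ∈ Ht p X j ↔ x ^ p = 1 ∧ ∃ y, y ^ p ^ j = x := Iff.rfl

theorem pAut_of_ht [hp : Fact p.Prime] {X : Type*} [CommGroup X] [Finite X] (hX : IsPGroup p X)
    (h : ∀ j, ∃ z, Ht p X j = Ht p X (j + 1) ⊔ zpowers z) : PAut p X := by
  obtain ⟨M, hM⟩ := hX.exists_card_eq
  have hM' : ∀ x : X, x ^ p ^ M = 1 := fun x => hM ▸ pow_card_eq_one'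
  refine pAut_of_sd fun H _ => ?_
  have hP : ∀ U : Subgroup X, IsPGroup p (U.map (inl : X →* X ⋊[H.subtype] H)) := fun U =>
    (hX.to_subgroup U).map _
  have h1 := chain_pmod (p := p) (A := sdA H.subtype)
    (fun i : Fin (M + 1) => (Ht p X (M - i)).map (inl : X →* X ⋊[H.subtype] H))
    (by
      have : Ht p X M = ⊥ := eq_bot_iff.2 fun x ⟨_, y, hy⟩ => mem_bot.2 (hy.symm.trans (hM' y))
      simp [this])
    (fun _ => hP _)
    (fun i => sdA_le_normalizer_iff.2 fun a x hx => by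
      obtain ⟨h1, y, rfl⟩ := mem_Ht.1 hx
      exact mem_Ht.2 ⟨by rw [← map_pow, h1, map_one], _, (map_pow _ _ _).symm⟩)
    (fun i => by
      obtain ⟨z, hz⟩ := h (M - (i + 1))
      refine Step.of_zpowers (x := inl z) ((map_inl_le_sdG _).trans
        (sdG_le_normalizer_iff.2 inferInstance)) ?_
      simp only [Fin.val_succ, Fin.val_castSucc]
      rw [hz, Subgroup.map_sup, MonoidHom.map_zpowers, show M - (i + 1) + 1 = M - i by omega])
    (Fin.last M)
  simp only [Fin.val_last, Nat.sub_self] at h1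
  have h2 : PMod p (sdA H.subtype ⊓ cz ((Ht p X 0).map inl)) (cz (sdG H.subtype)) := by
    have := pmod_cz_chain (p := p) (K := sdA H.subtype ⊓ cz ((Ht p X 0).map inl))
      (fun i : Fin (M + 1) => (powMonoidHom (p ^ (i : ℕ)) : X →* X).ker.map
        (inl : X →* X ⋊[H.subtype] H))
      (by
        have : (powMonoidHom 1 : X →* X).ker = ⊥ := eq_bot_iff.2 fun x hx => by simpa using hx
        simp [this])
      (fun _ => hP _) (fun i g hg x hx => by
        obtain ⟨⟨a, rfl⟩, ha⟩ := hg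
        obtain ⟨y, hy, rfl⟩ := hx
        have h3 := mem_cz.1 ha _ (mem_map_of_mem inl (show y ^ p ^ (i : ℕ) ∈ Ht p X 0 from
          mem_Ht.2 ⟨by rw [← pow_mul, ← pow_succ]; exact hy, _, by rw [pow_zero, pow_one]⟩))
        have h4 := sd_conj H.subtype a (y ^ p ^ (i : ℕ))
        rw [← h3, mul_inv_cancel_right] at h4
        rw [sd_conj, ← map_inv, ← map_mul]
        refine mem_map_of_mem _ ?_
        rw [MonoidHom.mem_ker, powMonoidHom_apply, Fin.val_castSucc, mul_pow, ← map_pow,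
          ← inl_injective h4, inv_pow, inv_mul_cancel]) (Fin.last M)
    have e : (powMonoidHom (p ^ M) : X →* X).ker = ⊤ := eq_top_iff.2 fun x _ => hM' x
    simpa only [Fin.val_last, e, ← MonoidHom.range_eq_map] using this
  exact ⟨(h1.1.inf.mono le_rfl (inf_le_inf_right _ (commutator_le_self _))).trans h2,
    fun a ha hc => h2.mem_of_coprime ⟨pow_mem ha _, h1.2 a ha hc⟩
      (hc.coprime_dvd_left (orderOf_pow_dvd _))⟩

theorem zmod_ht [hp : Fact p.Prime] {e j : ℕ} (h : e ≠ j + 1) (y : Multiplicative (ZMod (p ^ e)))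
    (hy : (y ^ p ^ j) ^ p = 1) : ∃ w : Multiplicative (ZMod (p ^ e)), w ^ p ^ (j + 1) = y ^ p ^ j := by
  obtain ⟨a, rfl⟩ : ∃ a : ℕ, Multiplicative.ofAdd (a : ZMod (p ^ e)) = y :=
    ⟨y.toAdd.val, by simp⟩
  rcases h.lt_or_gt with h | h
  · refine ⟨1, ?_⟩
    rw [one_pow, ← ofAdd_nsmul, nsmul_eq_mul, eq_comm, ofAdd_eq_one,
      (ZMod.natCast_eq_zero_iff _ _).2 (pow_dvd_pow p (by omega)), zero_mul]
  · rw [← pow_mul, ← pow_succ, ← ofAdd_nsmul, nsmul_eq_mul, ofAdd_eq_one, ← Nat.cast_mul,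
      ZMod.natCast_eq_zero_iff] at hy
    have : p ^ (j + 1) * p ∣ p ^ (j + 1) * a :=
      pow_succ p (j + 1) ▸ (pow_dvd_pow p (by omega)).trans hy
    obtain ⟨b, rfl⟩ := Nat.dvd_of_mul_dvd_mul_left (pow_pos hp.out.pos _) this
    refine ⟨Multiplicative.ofAdd (b : ZMod (p ^ e)), ?_⟩
    rw [← ofAdd_nsmul, ← ofAdd_nsmul, nsmul_eq_mul, nsmul_eq_mul]
    push_cast
    ring_nf

theorem ht_pi [hp : Fact p.Prime] {ι : Type} (e : ι → ℕ) (he : Function.Injective e) (j : ℕ) :
    ∃ z, Ht p (∀ i, Multiplicative (ZMod (p ^ e i))) j =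
      Ht p (∀ i, Multiplicative (ZMod (p ^ e i))) (j + 1) ⊔ zpowers z := by
  classical
  have hle : Ht p (∀ i, Multiplicative (ZMod (p ^ e i))) (j + 1) ≤ Ht p _ j :=
    fun x ⟨h1, y, hy⟩ => mem_Ht.2 ⟨h1, y ^ p, by rw [← pow_mul, ← pow_succ']; exact hy⟩
  by_cases h : ∃ i, e i = j + 1
  · obtain ⟨i, hi⟩ := h
    have hz : Pi.mulSingle i (Multiplicative.ofAdd (1 : ZMod (p ^ e i))) ^ p ^ j ∈
        Ht p (∀ i, Multiplicative (ZMod (p ^ e i))) j := mem_Ht.2 ⟨by
      rw [← pow_mul, ← pow_succ, ← hi, ← Pi.mulSingle_pow, ← ofAdd_nsmul, nsmul_eq_mul,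
        ZMod.natCast_self, zero_mul, ofAdd_zero, Pi.mulSingle_one], _, rfl⟩
    refine ⟨_, le_antisymm ?_ (sup_le hle (zpowers_le.2 hz))⟩
    rintro x hx
    obtain ⟨h1, y, rfl⟩ := mem_Ht.1 hx
    set z := Pi.mulSingle (M := fun i => Multiplicative (ZMod (p ^ e i))) i
      (Multiplicative.ofAdd (1 : ZMod (p ^ e i))) with hzd
    have h2 := mul_mem hx (inv_mem (pow_mem hz (y i).toAdd.val))
    have h3 : ∀ k, ∃ w : Multiplicative (ZMod (p ^ e k)),
        w ^ p ^ (j + 1) = (y ^ p ^ j * ((z ^ p ^ j) ^ (y i).toAdd.val)⁻¹) k := fun k => by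
      by_cases hk : k = i
      · subst hk
        refine ⟨1, ?_⟩
        rw [one_pow, eq_comm, ← pow_mul, mul_comm (p ^ j), pow_mul]
        simp [hzd, ← ofAdd_nsmul]
      · obtain ⟨w, hw⟩ := zmod_ht (fun h => hk (he (h.trans hi.symm))) (y k) (congrFun h1 k)
        exact ⟨w, by simp [hzd, hw, Pi.mulSingle_eq_of_ne hk]⟩
    choose w hw using h3
    rw [← inv_mul_cancel_right (y ^ p ^ j) ((z ^ p ^ j) ^ (y i).toAdd.val)]
    exact mul_mem (mem_sup_left (mem_Ht.2 ⟨h2.1, w, funext hw⟩))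
      (mem_sup_right (pow_mem (mem_zpowers _) _))
  · refine ⟨1, le_antisymm (fun x hx => mem_sup_left ?_) (sup_le hle (by simp))⟩
    obtain ⟨h1, y, rfl⟩ := mem_Ht.1 hx
    choose w hw using fun k => zmod_ht (fun hk => h ⟨k, hk⟩) (y k) (congrFun h1 k)
    exact mem_Ht.2 ⟨h1, w, funext hw⟩

/-- Splitting off one coordinate. -/
def splitAt {ι : Type} [DecidableEq ι] (i : ι) (β : ι → Type) [∀ j, Group (β j)] :
    (∀ j, β j) ≃* β i × ∀ j : {j // j ≠ i}, β j :=
  { Equiv.piSplitAt i β with map_mul' := fun _ _ => rfl }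

theorem pAut_iff_of_comm [hp : Fact p.Prime] {X : Type*} [Group X] [Finite X] (hX : IsPGroup p X)
    (hc : IsMulCommutative X) : PAut p X ↔ ¬ ∃ (n : ℕ) (H : Type) (_ : CommGroup H), 0 < n ∧
      Nonempty (X ≃* (Multiplicative (ZMod (p ^ n)) × Multiplicative (ZMod (p ^ n))) × H) := by
  classical
  constructor
  · rintro h ⟨n, H, _, hn, ⟨e⟩⟩
    haveI : Fact (1 < p ^ n) := ⟨Nat.one_lt_pow hn.ne' hp.out.one_lt⟩
    exact not_pAut_sq (IsPGroup.of_card (n := n) (by simp)) (pAut_of_equiv e h).left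
  · intro h
    letI : CommGroup X := { (inferInstance : Group X) with mul_comm := hc.is_comm.comm }
    obtain ⟨ι, _, n, h1, ⟨f⟩⟩ := CommGroup.equiv_prod_multiplicative_zmod_of_finite X
    have h2 : ∀ i, ∃ k, n i = p ^ k := fun i => by
      haveI : NeZero (n i) := ⟨by have := h1 i; omega⟩
      have := ((hX.of_equiv f).of_surjective (Pi.evalMonoidHom _ i)
        (Function.surjective_eval i)).exists_card_eq
      simpa using this
    choose e he using h2
    obtain rfl : n = fun i => p ^ e i := funext he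
    have hi : Function.Injective e := fun i j hij => by
      by_contra hne
      refine h ⟨e i, _, inferInstance, Nat.pos_of_ne_zero fun h0 => by simpa [h0] using h1 i,
        ⟨(f.trans (splitAt i _)).trans (((MulEquiv.refl _).prodCongr
          ((splitAt ⟨j, Ne.symm hne⟩ _).trans ((AddEquiv.toMultiplicative
            (ZMod.ringEquivCongr (congrArg (p ^ ·) hij.symm)).toAddEquiv).prodCongr (MulEquiv.refl _)))).trans
          MulEquiv.prodAssoc.symm)⟩⟩
    exact pAut_of_equiv f.symm (pAut_of_ht (hX.of_equiv f) (ht_pi e hi))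

end Cfsg.Agent.Inv
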