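import Mathlib
import Cfsg.Agent.Inv.CRing2
import Cfsg.Agent.Char.Galois

/-! Wielandt's theorem on primitive groups of degree `2p`, part 1: eigenvalue multiplicities. -/

set_option autoImplicit false
open Cfsg

namespace Cfsg.Agent.Inv.W2p

open Finset Matrix MulAction Cfsg.Agent.Char Cfsg.Agent.Inv.CR
open scoped ComplexConjugate

variable {G : Type*} [Group G] {p : ℕ} [hp : Fact p.Prime]

/-- Powers of `x` indexed by residues. -/
def X (x : G) (i : ZMod p) : G := x ^ i.val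

theorem X_zero (x : G) : X x (0 : ZMod p) = 1 := by simp [X]

theorem X_one (x : G) : X x (1 : ZMod p) = x := by simp [X, ZMod.val_one]

theorem X_natCast {x : G} (hx : x ^ p = 1) (n : ℕ) : X x (n : ZMod p) = x ^ n := by
  rw [X, ZMod.val_natCast, ← pow_eq_pow_mod n hx]

theorem X_add {x : G} (hx : x ^ p = 1) (i j : ZMod p) : X x (i + j) = X x i * X x j := by
  rw [← ZMod.natCast_zmod_val i, ← ZMod.natCast_zmod_val j, ← Nat.cast_add, X_natCast hx,
    X_natCast hx, X_natCast hx, pow_add]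

theorem X_pow {x : G} (hx : x ^ p = 1) (i : ZMod p) (n : ℕ) : X x i ^ n = X x (i * (n : ZMod p)) := by
  rw [← ZMod.natCast_zmod_val i, ← Nat.cast_mul, X_natCast hx, X_natCast hx, pow_mul]

theorem X_neg {x : G} (hx : x ^ p = 1) (i : ZMod p) : X x (-i) = (X x i)⁻¹ :=
  eq_inv_of_mul_eq_one_left (by rw [← X_add hx, neg_add_cancel, X_zero])

theorem conj_X {x g : G} (hx : x ^ p = 1) {u : ZMod p} (h : g * x * g⁻¹ = X x u) (i : ZMod p) :
    g * X x i * g⁻¹ = X x (u * i) := by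
  rw [X, ← conj_pow, h, X_pow hx, ZMod.natCast_zmod_val]

/-- The standard additive character. -/
noncomputable abbrev ps (p : ℕ) [Fact p.Prime] : AddChar (ZMod p) ℂ := ZMod.stdAddChar

theorem sum_ps (j : ZMod p) : ∑ i : ZMod p, ps p (i * j) = if j = 0 then (p : ℂ) else 0 := by
  rw [AddChar.sum_mulShift j (ZMod.isPrimitive_stdAddChar p), ZMod.card]
  split_ifs <;> simp

theorem conj_ps (j : ZMod p) : conj (ps p j) = ps p (-j) := by
  rw [AddChar.map_neg_eq_inv]
  exact conj_eq_inv_of_pow_eq_one hp.out.ne_zero (by rw [← AddChar.map_nsmul_eq_pow]; simp)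

theorem p_ne : (p : ℂ) ≠ 0 := Nat.cast_ne_zero.mpr hp.out.ne_zero

/-- Fourier coefficients of `χ` on `⟨x⟩`. -/
noncomputable def co (x : G) (χ : G → ℂ) (j : ZMod p) : ℂ :=
  (p : ℂ)⁻¹ * ∑ i : ZMod p, χ (X x i) * ps p (-(i * j))

theorem co_nat {x : G} (hx : x ^ p = 1) {χ : G → ℂ} (h : IsCharacter G χ) (j : ZMod p) :
    ∃ n : ℕ, co x χ j = n := by
  let f : Multiplicative (ZMod p) →* G :=
    MonoidHom.mk' (fun i => X x i.toAdd) fun a b => X_add hx _ _
  let l : Multiplicative (ZMod p) →* ℂ := ((ps p).mulShift j).toMonoidHom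
  obtain ⟨n, hn⟩ := classInner_isChar_nat (isChar_comp f h) (isChar_linear l.toHomUnits)
  refine ⟨n, ?_⟩
  rw [← hn, classInner_def, co, Nat.card_eq_fintype_card, Fintype.card_multiplicative, ZMod.card]
  congr 1
  refine Fintype.sum_equiv Multiplicative.ofAdd _ _ fun i => ?_
  rw [← conj_ps, mul_comm i j]
  rfl

theorem co_inv (x : G) (χ : G → ℂ) (i : ZMod p) :
    χ (X x i) = ∑ j : ZMod p, co x χ j * ps p (i * j) := by
  simp only [co, Finset.mul_sum, Finset.sum_mul]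
  rw [Finset.sum_comm]
  have : ∀ k : ZMod p, ∑ j : ZMod p, (p : ℂ)⁻¹ * (χ (X x k) * ps p (-(k * j))) * ps p (i * j) =
      (p : ℂ)⁻¹ * χ (X x k) * ∑ j : ZMod p, ps p (j * (i - k)) := by
    intro k
    rw [Finset.mul_sum]
    refine sum_congr rfl fun j _ => ?_
    rw [show j * (i - k) = -(k * j) + i * j by ring, AddChar.map_add_eq_mul]; ring
  simp only [this, sum_ps, sub_eq_zero, mul_ite, mul_zero, sum_ite_eq, mem_univ, if_true]
  have := p_ne (p := p)
  field_simp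

theorem co_parseval (x : G) (χ : G → ℂ) : ∑ i : ZMod p, χ (X x i) * conj (χ (X x i)) =
    p * ∑ j : ZMod p, co x χ j * conj (co x χ j) := by
  have h1 : ∀ i : ZMod p, χ (X x i) * conj (χ (X x i)) =
      ∑ j : ZMod p, χ (X x i) * ps p (-(i * j)) * conj (co x χ j) := by
    intro i
    nth_rewrite 2 [co_inv x χ i]
    rw [map_sum, Finset.mul_sum]
    exact sum_congr rfl fun j _ => by rw [map_mul, conj_ps]; ring
  simp only [h1]
  rw [Finset.sum_comm, Finset.mul_sum]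
  refine sum_congr rfl fun j _ => ?_
  rw [← Finset.sum_mul, ← mul_assoc]
  congr 1
  rw [co, ← mul_assoc, mul_inv_cancel₀ p_ne, one_mul]

theorem co_one (x : G) (j : ZMod p) : co x (fun _ => 1) j = if j = 0 then 1 else 0 := by
  simp only [co, one_mul, ← mul_neg, sum_ps, neg_eq_zero]
  split_ifs <;> simp [p_ne]

theorem co_mul (x : G) {χ χ' : G → ℂ} {u : ZMod p} (hu : u ≠ 0)
    (h : ∀ i : ZMod p, χ' (X x i) = χ (X x (i * u))) (j : ZMod p) : co x χ' (j * u) = co x χ j := by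
  simp only [co, h]
  rw [← Equiv.sum_comp (Equiv.mulRight₀ u hu) fun i => χ (X x i) * ps p (-(i * j))]
  congr 1
  exact sum_congr rfl fun i _ => by simp [mul_assoc, mul_comm j u]

theorem co_sum {ι : Type*} [Fintype ι] (x : G) (m : ι → ℂ) (χ : ι → G → ℂ) (j : ZMod p) :
    co x (∑ k, m k • χ k) j = ∑ k, m k * co x (χ k) j := by
  simp only [co, Finset.sum_apply, Pi.smul_apply, smul_eq_mul, Finset.mul_sum, Finset.sum_mul]
  rw [Finset.sum_comm]
  exact sum_congr rfl fun _ _ => sum_congr rfl fun _ _ => by ring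

theorem exists_coprime [Finite G] {u : ZMod p} (hu : u ≠ 0) :
    ∃ s : ℕ, s.Coprime (Nat.card G) ∧ (s : ZMod p) = u := by
  haveI : NeZero (p * Nat.card G) := ⟨mul_ne_zero hp.out.ne_zero Nat.card_pos.ne'⟩
  obtain ⟨v, hv⟩ := ZMod.unitsMap_surjective (dvd_mul_right p (Nat.card G)) (Units.mk0 u hu)
  refine ⟨(v : ZMod (p * Nat.card G)).val,
    Nat.Coprime.coprime_dvd_right (dvd_mul_left _ _) (ZMod.val_coe_unit_coprime v), ?_⟩
  have := congrArg Units.val hv
  simpa [ZMod.unitsMap_def] using this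

variable {Ω : Type*} [MulAction G Ω]

omit hp in
theorem pc_pow [Finite G] {s : ℕ} (hs : s.Coprime (Nat.card G)) (g : G) :
    pc G Ω (g ^ s) = pc G Ω g := by
  obtain ⟨k, hk⟩ := exists_pow_eq_self_of_coprime
    (Nat.Coprime.coprime_dvd_right (orderOf_dvd_natCard g) hs)
  have : fixedBy Ω (g ^ s) = fixedBy Ω g := by
    apply subset_antisymm
    · nth_rewrite 2 [← hk]
      simpa using fixedBy_subset_fixedBy_zpow Ω (g ^ s) k
    · simpa using fixedBy_subset_fixedBy_zpow Ω g s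
  simp only [pc, this]

omit hp in
theorem inner_pow [Fintype G] {s : ℕ} (hs : s.Coprime (Nat.card G)) (χ : G → ℂ) :
    classInner (pc G Ω) (fun g => χ (g ^ s)) = classInner (pc G Ω) χ := by
  rw [classInner_def, classInner_def, ← Equiv.sum_comp (powCoprime hs.symm)
    fun g => pc G Ω g * conj (χ g)]
  simp only [powCoprime_apply, pc_pow hs]

/-- The shape of the permutation character. -/
theorem shape [Fintype G] [Fintype Ω] [IsPretransitive G Ω] [Nonempty Ω] {x : G} (hx : x ^ p = 1)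
    (hco : ∀ j : ZMod p, co x (pc G Ω) j = 2) (hperf : ∀ lam : G →* ℂˣ, lam = 1) :
    Nat.card (orbitRel.Quotient G (Ω × Ω)) = 2 ∨
    ∃ χ₁ χ₂ : IrrCharacter G, ∃ f t : ℕ,
      (∀ χ : IrrCharacter G, classInner (pc G Ω) χ = 0 ∨ classInner (pc G Ω) χ = 1) ∧
      (χ₁ : G → ℂ) ≠ (fun _ => 1) ∧ classInner (pc G Ω) χ₁ = 1 ∧ (χ₁ : G → ℂ) 1 = p ∧
      (∀ χ : IrrCharacter G, (χ : G → ℂ) ≠ (fun _ => 1) → χ ≠ χ₁ →
        classInner (pc G Ω) χ * co x χ (0 : ZMod p) = 0) ∧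
      Nat.card (orbitRel.Quotient G (Ω × Ω)) = t + 2 ∧ t * f = p - 1 ∧
      (∃ S : Finset (ZMod p), S.card = f ∧ 0 ∉ S ∧ ∀ j, co x χ₂ j = if j ∈ S then 1 else 0) ∧
      (t = 1 → pc G Ω = fun g => 1 + (χ₂ : G → ℂ) g + (χ₁ : G → ℂ) g) := by
  classical
  obtain ⟨m, hm, hπ⟩ := isChar_exists_mult (pc_isChar (G := G) (Ω := Ω))
  choose c hc using fun (χ : IrrCharacter G) (j : ZMod p) => co_nat hx (irr_isChar χ) j
  set e₀ : IrrCharacter G := ⟨fun _ => 1, isIrr_one⟩ with he₀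
  have hsum : ∀ j, ∑ χ, m χ * c χ j = 2 := fun j => by
    have := hco j
    rw [hπ, co_sum] at this
    simp only [hc] at this
    exact_mod_cast this
  have hm0 : m e₀ = 1 := by
    have := hm e₀
    rw [show classInner (pc G Ω) e₀ = 1 from inner_pc_one] at this
    exact_mod_cast this.symm
  have hc0 : ∀ j, c e₀ j = if j = 0 then 1 else 0 := fun j => by
    have := hc e₀ j
    rw [show co x e₀ j = _ from co_one x j] at this
    split_ifs at this ⊢ <;> exact_mod_cast this.symm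
  have hdeg : ∀ χ : IrrCharacter G, (χ : G → ℂ) 1 = (∑ j, c χ j : ℕ) := fun χ => by
    have := co_inv x χ (0 : ZMod p)
    simpa [X_zero, hc] using this
  have hdeg0 : ∀ χ : IrrCharacter G, ∃ j, c χ j ≠ 0 := fun χ => by
    by_contra h
    push Not at h
    exact isIrr_one_ne_zero χ.2 (by simp [hdeg, h])
  have hrank : Nat.card (orbitRel.Quotient G (Ω × Ω)) = ∑ χ, m χ * m χ := by
    have h1 : classInner (pc G Ω) (pc G Ω) = _ := classInner_perm_perm (G := G) Ω Ω
    rw [classInner_eq_sum (isChar_classFun pc_isChar)] at h1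
    simp only [hm, map_natCast] at h1
    exact_mod_cast h1.symm
  have hgal : ∀ u : ZMod p, u ≠ 0 → ∀ χ : IrrCharacter G, ∃ χ' : IrrCharacter G,
      m χ' = m χ ∧ ∀ j, c χ' (j * u) = c χ j := by
    intro u hu χ
    obtain ⟨s, hs, rfl⟩ := exists_coprime (G := G) hu
    refine ⟨⟨fun g => (χ : G → ℂ) (g ^ s), Galois.isIrr_pow_arg χ.2 hs⟩, ?_, fun j => ?_⟩
    · apply Nat.cast_injective (R := ℂ)
      rw [← hm, ← hm]
      exact inner_pow hs _
    · apply Nat.cast_injective (R := ℂ)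
      rw [← hc, ← hc]
      exact co_mul x hu (fun i => by simp only [X_pow hx]) j
  have two : ∀ (F : IrrCharacter G → ℕ) (a b : IrrCharacter G), a ≠ b → F a + F b ≤ ∑ χ, F χ :=
    fun F a b h => by
      rw [← sum_pair h]; exact sum_le_sum_of_subset (subset_univ _)
  have three : ∀ (F : IrrCharacter G → ℕ) (a b d : IrrCharacter G), a ≠ b → a ≠ d → b ≠ d →
      F a + F b + F d ≤ ∑ χ, F χ := fun F a b d h1 h2 h3 => by
    have : ∑ χ ∈ {a, b, d}, F χ = F a + F b + F d := by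
      rw [sum_insert (by simp [h1, h2]), sum_pair h3, add_assoc]
    rw [← this]; exact sum_le_sum_of_subset (subset_univ _)
  obtain ⟨χ₁, h10, h1⟩ : ∃ χ₁, χ₁ ≠ e₀ ∧ m χ₁ * c χ₁ 0 ≠ 0 := by
    by_contra h
    push Not at h
    have := hsum 0
    rw [sum_eq_single e₀ (fun χ _ hχ => h χ hχ) (by simp), hm0, hc0] at this
    simp at this
  have h1' : m χ₁ * c χ₁ 0 = 1 := by
    have := two (fun χ => m χ * c χ 0) _ _ h10
    simp only [hsum, hm0, hc0, if_true] at this
    omega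
  have hm1 : m χ₁ = 1 := Nat.eq_one_of_mul_eq_one_right h1'
  have hc1 : c χ₁ 0 = 1 := Nat.eq_one_of_mul_eq_one_left h1'
  have hoth : ∀ χ, χ ≠ e₀ → χ ≠ χ₁ → m χ * c χ 0 = 0 := fun χ a1 a2 => by
    have := three (fun χ => m χ * c χ 0) _ _ _ h10.symm a1.symm a2.symm
    simp only [hsum, hm0, hc0, if_true, h1'] at this
    omega
  have hconst : ∀ j, j ≠ 0 → c χ₁ j = c χ₁ 1 := fun j hj => by
    obtain ⟨χ', a1, a2⟩ := hgal j hj χ₁
    have a3 := a2 0
    rw [zero_mul] at a3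
    by_cases b0 : χ' = e₀
    · have b1 : ∀ k, k ≠ 0 → c χ₁ k = 0 := fun k hk => by
        rw [← a2, b0, hc0, if_neg (mul_ne_zero hk hj)]
      rw [b1 j hj, b1 1 one_ne_zero]
    by_cases b1 : χ' = χ₁
    · have := a2 1
      rwa [one_mul, b1] at this
    · have := hoth χ' b0 b1
      rw [a1, a3, h1'] at this
      omega
  have hd1 : ∑ j, c χ₁ j = 1 + (p - 1) * c χ₁ 1 := by
    rw [← add_sum_erase _ _ (mem_univ 0), hc1, sum_congr rfl fun j hj => hconst j (ne_of_mem_erase hj),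
      sum_const, card_erase_of_mem (mem_univ _), card_univ, ZMod.card, smul_eq_mul]
  have hle : c χ₁ 1 ≤ 2 := by
    have := single_le_sum (f := fun χ => m χ * c χ 1) (fun _ _ => Nat.zero_le _) (mem_univ χ₁)
    simpa [hsum, hm1] using this
  have hne : c χ₁ 1 ≠ 0 := fun h => by
    obtain ⟨lam, hl⟩ := isChar_linear_of_degree_one (irr_isChar χ₁) (by rw [hdeg, hd1, h]; simp)
    exact h10 (Subtype.ext (by rw [hl, hperf lam]; rfl))
  rcases (show c χ₁ 1 = 2 ∨ c χ₁ 1 = 1 by omega) with h2 | h2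
  · left
    rw [hrank, ← sum_subset (subset_univ {e₀, χ₁}), sum_pair h10.symm, hm0, hm1]
    intro χ _ hχ
    simp only [mem_insert, mem_singleton, not_or] at hχ
    obtain ⟨j, hj⟩ := hdeg0 χ
    by_cases hj0 : j = 0
    · subst hj0
      simp [(mul_eq_zero.mp (hoth χ hχ.1 hχ.2)).resolve_right hj]
    · have := two (fun χ => m χ * c χ j) _ _ hχ.2
      simp only [hsum, hm1, hconst j hj0, h2] at this
      simp [(mul_eq_zero.mp (show m χ * c χ j = 0 by omega)).resolve_right hj]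
  right
  have hle1 : ∀ χ, χ ≠ χ₁ → ∀ j, j ≠ 0 → m χ * c χ j ≤ 1 := fun χ hχ j hj => by
    have := two (fun χ => m χ * c χ j) _ _ hχ
    simp only [hsum, hm1, hconst j hj, h2] at this
    omega
  have huniq : ∀ χ ψ, χ ≠ χ₁ → ψ ≠ χ₁ → ∀ j, j ≠ 0 → m χ * c χ j ≠ 0 → m ψ * c ψ j ≠ 0 → χ = ψ :=
    fun χ ψ a1 a2 j hj b1 b2 => by
      by_contra h
      have := three (fun χ => m χ * c χ j) _ _ _ h a1 a2
      simp only [hsum, hm1, hconst j hj, h2] at this
      omega
  have hex : ∀ χ, χ ≠ e₀ → χ ≠ χ₁ → m χ ≠ 0 → ∃ j, j ≠ 0 ∧ m χ * c χ j ≠ 0 := fun χ a1 a2 a3 => by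
    obtain ⟨j, hj⟩ := hdeg0 χ
    exact ⟨j, fun h => mul_ne_zero a3 hj (h ▸ hoth χ a1 a2), mul_ne_zero a3 hj⟩
  have hm01 : ∀ χ, m χ = 0 ∨ m χ = 1 := fun χ => by
    by_cases a1 : χ = e₀
    · exact Or.inr (a1 ▸ hm0)
    by_cases a2 : χ = χ₁
    · exact Or.inr (a2 ▸ hm1)
    by_cases a3 : m χ = 0
    · exact Or.inl a3
    obtain ⟨j, hj, hj'⟩ := hex χ a1 a2 a3
    have := hle1 χ a2 j hj
    exact Or.inr (Nat.eq_one_of_mul_eq_one_right (show m χ * c χ j = 1 by omega))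
  obtain ⟨χ₂, h21, h2'⟩ : ∃ χ₂, χ₂ ≠ χ₁ ∧ m χ₂ * c χ₂ 1 ≠ 0 := by
    by_contra h
    push Not at h
    have := hsum 1
    rw [sum_eq_single χ₁ (fun χ _ hχ => h χ hχ) (by simp), hm1, h2] at this
    simp at this
  have h20 : χ₂ ≠ e₀ := fun h => h2' (by rw [h, hc0, if_neg one_ne_zero, mul_zero])
  have hm2 : m χ₂ = 1 := (hm01 χ₂).resolve_left (left_ne_zero_of_mul h2')
  have hc20 : c χ₂ 0 = 0 := by simpa [hm2] using hoth χ₂ h20 h21
  set f := ∑ j, c χ₂ j with hf
  set T := univ.filter fun χ => χ ≠ e₀ ∧ χ ≠ χ₁ ∧ m χ = 1 with hT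
  have hsplit : ∀ {M : Type} [AddCommMonoid M] (F : IrrCharacter G → M), (∀ χ, m χ = 0 → F χ = 0) →
      ∑ χ, F χ = F e₀ + F χ₁ + ∑ χ ∈ T, F χ := by
    intro M _ F hF
    rw [← sum_pair h10.symm, ← sum_union (by simp [hT, disjoint_left])]
    refine (sum_subset (subset_univ _) fun χ _ hχ => hF χ ?_).symm
    simp only [hT, mem_union, mem_insert, mem_singleton, mem_filter, mem_univ, true_and, not_or,
      not_and] at hχ
    exact (hm01 χ).resolve_right (hχ.2 hχ.1.1 hχ.1.2)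
  have hTf : ∀ χ ∈ T, ∑ j, c χ j = f := fun χ hχ => by
    obtain ⟨-, a1, a2, a3⟩ := mem_filter.mp hχ
    obtain ⟨j, hj, hj'⟩ := hex χ a1 a2 (by omega)
    obtain ⟨χ', b1, b2⟩ := hgal j hj χ₂
    have b3 : χ' ≠ χ₁ := fun h => by
      have := b2 0
      rw [zero_mul, h, hc1, hc20] at this
      omega
    rw [huniq χ χ' a2 b3 j hj hj' (by simpa [b1, ← b2 1] using h2'), hf,
      ← Equiv.sum_comp (Equiv.mulRight₀ j hj)]
    exact sum_congr rfl fun i _ => b2 i
  have hp1 := hp.out.one_lt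
  refine ⟨χ₁, χ₂, f, T.card, fun χ => ?_, fun h => h10 (Subtype.ext h), by rw [hm, hm1, Nat.cast_one],
    ?_, fun χ a1 a2 => ?_, ?_, ?_, ⟨univ.filter fun j => c χ₂ j = 1, ?_, by simp [hc20], fun j => ?_⟩,
    fun ht => ?_⟩
  · rw [hm]; exact_mod_cast hm01 χ
  · rw [hdeg, hd1, h2]; congr 1; omega
  · rw [hm, hc]; exact_mod_cast hoth χ (fun h => a1 (congrArg Subtype.val h)) a2
  · rw [hrank, hsplit _ (fun χ h => by simp [h]), hm0, hm1,
      sum_congr rfl fun χ hχ => show m χ * m χ = 1 by rw [(mem_filter.mp hχ).2.2.2]]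
    simp; omega
  · have h3 : ∑ χ, m χ * ∑ j, c χ j = 2 * p := by
      simp only [Finset.mul_sum]
      rw [Finset.sum_comm]
      simp [hsum, mul_comm]
    rw [hsplit _ (fun χ h => by simp [h]), hm0, hm1, hd1, h2,
      sum_congr rfl fun χ hχ => show m χ * ∑ j, c χ j = f by rw [(mem_filter.mp hχ).2.2.2, hTf χ hχ, one_mul]] at h3
    simp only [hc0, sum_ite_eq', mem_univ, if_true, sum_const, smul_eq_mul] at h3
    omega
  · rw [hf, card_filter]
    refine sum_congr rfl fun j _ => ?_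
    by_cases hj : j = 0
    · simp [hj, hc20]
    · have := hle1 χ₂ h21 j hj
      rw [hm2] at this
      split_ifs <;> omega
  · rw [hc]
    by_cases hj : j = 0
    · simp [hj, hc20]
    · have := hle1 χ₂ h21 j hj
      rw [hm2] at this
      simp only [mem_filter, mem_univ, true_and]
      split_ifs with h
      · simp [h]
      · simp [show c χ₂ j = 0 by omega]
  · obtain ⟨χ, hχ⟩ := card_eq_one.mp ht
    have : χ₂ ∈ T := by simp [hT, h20, h21, hm2]
    rw [hχ, mem_singleton] at this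
    funext g
    rw [hπ, Finset.sum_apply, hsplit _ (fun χ h => by simp [h]), hχ, sum_singleton, ← this]
    simp only [Pi.smul_apply, hm0, hm1, hm2, Nat.cast_one, one_smul]
    change 1 + _ + _ = _
    ring

end Cfsg.Agent.Inv.W2p
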