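import Mathlib
import Cfsg.Agent.Inv.W2p
import Cfsg.Agent.Perm.Conj

/-! Wielandt's theorem on primitive groups of degree `2p`, part 2: the perfect case. -/

set_option autoImplicit false
open Cfsg

namespace Cfsg.Agent.Inv.W2p

open Finset Matrix MulAction Cfsg.Agent.Char Cfsg.Agent.Inv.CR
open scoped ComplexConjugate

variable {G : Type*} [Group G] {p : ℕ} [hp : Fact p.Prime] {Ω : Type*} [MulAction G Ω]
  {pt : Bool × ZMod p ≃ Ω} {x : G}

theorem pow_pt {ε : Bool} {c : ZMod p} (hx : ∀ i, x • pt (ε, i) = pt (ε, i + c)) (n : ℕ) (i : ZMod p) :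
    x ^ n • pt (ε, i) = pt (ε, i + n * c) := by
  induction n with
  | zero => simp
  | succ n ih => rw [pow_succ', mul_smul, ih, hx]; congr 2; push_cast; ring

theorem X_pt (hx : ∀ ε i, x • pt (ε, i) = pt (ε, i + 1)) (j : ZMod p) (ε : Bool) (i : ZMod p) :
    X x j • pt (ε, i) = pt (ε, i + j) := by
  rw [X, pow_pt (hx ε), ZMod.natCast_zmod_val, mul_one]

theorem X_inj (hx : ∀ ε i, x • pt (ε, i) = pt (ε, i + 1)) {i j : ZMod p} (h : X x i = X x j) :
    i = j := by
  have := X_pt hx i false 0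
  rw [h, X_pt hx] at this
  simpa using this.symm

theorem co_pc [Finite Ω] (hx : ∀ ε i, x • pt (ε, i) = pt (ε, i + 1)) (j : ZMod p) :
    co x (pc G Ω) j = 2 := by
  rw [co, sum_eq_single 0]
  · rw [X_zero, pc, fixedBy_one_eq_univ, Nat.card_congr (Equiv.Set.univ Ω), ← Nat.card_congr pt]
    simp [p_ne]
    have := p_ne (p := p)
    field_simp
  · intro i _ hi
    have : fixedBy Ω (X x i) = ∅ := by
      ext ω
      obtain ⟨⟨ε, k⟩, rfl⟩ := pt.surjective ω
      simp [X_pt hx, hi]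
    simp [pc, this]
  · simp

variable [FaithfulSMul G Ω]

omit hp in
theorem ext_pt {g : G} (h : ∀ ε i, g • pt (ε, i) = pt (ε, i)) : g = 1 :=
  eq_of_smul_eq_smul (α := Ω) fun ω => by
    obtain ⟨⟨ε, k⟩, rfl⟩ := pt.surjective ω
    rw [h, one_smul]

theorem pow_p (hx : ∀ ε i, x • pt (ε, i) = pt (ε, i + 1)) : x ^ p = 1 :=
  ext_pt (pt := pt) fun ε i => by rw [pow_pt (hx ε)]; simp

theorem aff (hp2 : p ≠ 2) (hperf : ∀ lam : G →* ℂˣ, lam = 1)
    (hx : ∀ ε i, x • pt (ε, i) = pt (ε, i + 1)) {g : G} {u : ZMod p} (hu : u ≠ 0)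
    (h : g * x * g⁻¹ = X x u) :
    ∃ c : Bool → ZMod p, ∀ ε i, g • pt (ε, i) = pt (ε, c ε + u * i) := by
  classical
  set σ : Bool → Bool := fun ε => (pt.symm (g • pt (ε, 0))).1 with hσ
  set c : Bool → ZMod p := fun ε => (pt.symm (g • pt (ε, 0))).2 with hc
  have h1 : ∀ ε i, g • pt (ε, i) = pt (σ ε, c ε + u * i) := by
    intro ε i
    rw [← X_pt hx, ← conj_X (pow_p hx) h, hσ, hc]
    simp only [Prod.mk.eta, Equiv.apply_symm_apply, mul_smul, inv_smul_smul, X_pt hx, zero_add]
  have h2 : σ false ≠ σ true := fun h2 => by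
    have h3 := h1 false ((c true - c false) / u)
    rw [mul_div_cancel₀ _ hu, add_sub_cancel, h2, ← add_zero (c true), ← mul_zero u, ← h1] at h3
    simpa using h3
  by_cases h3 : σ false = false
  · refine ⟨c, fun ε i => ?_⟩
    rw [h1]
    cases ε
    · rw [h3]
    · rw [h3] at h2
      rw [show σ true = true by simpa using h2.symm]
  exfalso
  have h4 : ∀ ε, σ ε = !ε := by
    intro ε
    cases ε
    · simpa using h3
    · have : σ false = true := by simpa using h3
      rw [this] at h2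
      simpa using h2.symm
  haveI : Fintype Ω := Fintype.ofEquiv _ pt
  have h5 : Equiv.Perm.sign (toPermHom G Ω g) = 1 := by
    have := DFunLike.congr_fun (hperf ((Units.map (Int.castRingHom ℂ).toMonoidHom).comp
      (Equiv.Perm.sign.comp (toPermHom G Ω)))) g
    rcases Int.units_eq_one_or (Equiv.Perm.sign (toPermHom G Ω g)) with h | h
    · exact h
    · simp only [MonoidHom.comp_apply, h, MonoidHom.one_apply] at this
      have := congrArg Units.val this
      norm_num at this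
  have h6 : pt.symm.permCongr (toPermHom G Ω g) =
      (Equiv.prodCongrRight fun ε : Bool =>
        (Equiv.addLeft (c (!ε)) * Equiv.mulLeft₀ u hu : Equiv.Perm (ZMod p))) *
      (Equiv.prodCongrLeft fun _ : ZMod p => Equiv.swap false true : Equiv.Perm (Bool × ZMod p)) := by
    ext1 ⟨ε, i⟩
    simp only [Equiv.permCongr_apply, Equiv.symm_symm, toPermHom_apply, toPerm_apply, h1, h4,
      Equiv.symm_apply_apply]
    cases ε <;> simp
  have h7 : ∀ d : ZMod p, Equiv.Perm.sign (Equiv.addLeft d) = 1 := by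
    intro d
    have h8 : (Equiv.addLeft d : Equiv.Perm (ZMod p)) ^ p = 1 := by
      ext z
      simp [Equiv.Perm.coe_pow]
    have h9 := congrArg Equiv.Perm.sign h8
    rw [map_pow, map_one] at h9
    rcases Int.units_eq_one_or (Equiv.Perm.sign (Equiv.addLeft d)) with h | h
    · exact h
    · rw [h, (hp.out.odd_of_ne_two hp2).neg_one_pow] at h9
      exact absurd h9 (by decide)
  have h8 := congrArg Equiv.Perm.sign h6
  rw [Equiv.Perm.sign_permCongr, h5, map_mul, Equiv.Perm.sign_prodCongrRight,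
    Equiv.Perm.sign_prodCongrLeft] at h8
  simp only [map_mul, h7, one_mul, prod_const, card_univ, Fintype.card_bool, ZMod.card,
    Equiv.Perm.sign_swap (show false ≠ true by decide), Int.units_sq,
    (hp.out.odd_of_ne_two hp2).neg_one_pow] at h8
  exact absurd h8 (by decide)

theorem eq_one_of_cent (hp2 : p ≠ 2) (hperf : ∀ lam : G →* ℂˣ, lam = 1)
    (hfpf : ∀ y : G, orderOf y = p → ∀ ω : Ω, y • ω ≠ ω)
    (hx : ∀ ε i, x • pt (ε, i) = pt (ε, i + 1)) {g : G}
    (h : g * x * g⁻¹ = x) (h0 : g • pt (false, 0) = pt (false, 0)) : g = 1 := by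
  obtain ⟨c, hc⟩ := aff hp2 hperf hx one_ne_zero (h.trans (X_one x).symm)
  by_contra hg
  refine hfpf g (orderOf_eq_prime (ext_pt (pt := pt) fun ε i => ?_) hg) _ h0
  rw [pow_pt (c := c ε) (fun i => by rw [hc, one_mul, add_comm])]
  simp

/-- The automizer of `⟨x⟩`. -/
def U (x : G) (hx : x ^ p = 1) : Subgroup (ZMod p)ˣ where
  carrier := {u | ∃ g : G, g * x * g⁻¹ = X x (u : ZMod p)}
  one_mem' := ⟨1, by simp [X_one]⟩
  mul_mem' := by
    rintro u v ⟨g, hg⟩ ⟨h, hh⟩
    refine ⟨g * h, ?_⟩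
    rw [Units.val_mul, ← conj_X hx hg, ← hh]; group
  inv_mem' := by
    rintro u ⟨g, hg⟩
    refine ⟨g⁻¹, ?_⟩
    have := conj_X hx hg (u⁻¹ : (ZMod p)ˣ)
    rw [Units.mul_inv, X_one] at this
    nth_rewrite 1 [← this]; group

theorem card_N_le [Finite G] (hp2 : p ≠ 2) (hperf : ∀ lam : G →* ℂˣ, lam = 1)
    (hfpf : ∀ y : G, orderOf y = p → ∀ ω : Ω, y • ω ≠ ω)
    (hx : ∀ ε i, x • pt (ε, i) = pt (ε, i + 1)) :
    Nat.card {n : G // ∃ u : (ZMod p)ˣ, n * x * n⁻¹ = X x (u : ZMod p)} ≤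
      p * Nat.card (U x (pow_p hx)) := by
  choose u hu using fun n : {n : G // ∃ u : (ZMod p)ˣ, n * x * n⁻¹ = X x (u : ZMod p)} => n.2
  have h1 := Nat.card_le_card_of_injective (β := ZMod p × U x (pow_p hx))
    (fun n => ((pt.symm (n.1 • pt (false, 0))).2, ⟨u n, n.1, hu n⟩)) (by
      intro n n' h
      have h2 : u n = u n' := congrArg Subtype.val (congrArg Prod.snd h)
      have h3 := congrArg Prod.fst h
      obtain ⟨c, hc⟩ := aff hp2 hperf hx (u n).ne_zero (hu n)
      obtain ⟨c', hc'⟩ := aff hp2 hperf hx (u n').ne_zero (hu n')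
      simp only [hc, hc', Equiv.symm_apply_apply, mul_zero] at h3
      have h4 := eq_one_of_cent hp2 hperf hfpf hx (g := n'.1⁻¹ * n.1) (by
        have := hu n
        rw [h2, ← hu n'] at this
        calc n'.1⁻¹ * n.1 * x * (n'.1⁻¹ * n.1)⁻¹ = n'.1⁻¹ * (n.1 * x * n.1⁻¹) * n'.1 := by group
          _ = x := by rw [this]; group) (by
        rw [mul_smul, inv_smul_eq_iff, hc, hc', mul_zero, mul_zero, h3])
      exact Subtype.ext (inv_mul_eq_one.mp h4).symm)
  rwa [Nat.card_prod, Nat.card_zmod] at h1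

theorem norm_ineq [Fintype G] (hp2 : p ≠ 2) (hperf : ∀ lam : G →* ℂˣ, lam = 1)
    (hfpf : ∀ y : G, orderOf y = p → ∀ ω : Ω, y • ω ≠ ω)
    (hx : ∀ ε i, x • pt (ε, i) = pt (ε, i + 1)) {χ : G → ℂ} (hχ : IsIrrCharacter G χ)
    {S : Finset (ZMod p)} (hS : ∀ j, co x χ j = if j ∈ S then 1 else 0) :
    p * S.card < p * Nat.card (U x (pow_p hx)) + S.card * S.card := by
  classical
  have hxp := pow_p hx
  set F : G → ℝ := fun g => ‖χ g‖ ^ 2 with hF
  have hF0 : ∀ g, 0 ≤ F g := fun g => by positivity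
  have hd : χ 1 = S.card := by
    have := co_inv x χ (0 : ZMod p)
    simpa [X_zero, hS] using this
  have h1 : ∑ i : ZMod p, F (X x i) = p * S.card := by
    have := co_parseval (p := p) x χ
    simp only [hS, Complex.mul_conj, Complex.normSq_eq_norm_sq] at this
    simp only [apply_ite norm, norm_one, norm_zero, ite_pow, one_pow, ne_eq, OfNat.ofNat_ne_zero,
      not_false_eq_true, zero_pow, apply_ite Complex.ofReal, Complex.ofReal_one, Complex.ofReal_zero,
      sum_boole, filter_mem_eq_inter, univ_inter] at this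
    exact_mod_cast this
  have h1' : F 1 = S.card * S.card := by simp [hF, hd, pow_two]
  have h2 : ∑ g, F g = Nat.card G := isIrr_sum_norm_sq hχ
  set M := p * Nat.card (U x hxp) with hM
  set D := (univ : Finset G) ×ˢ (univ.erase (0 : ZMod p)) with hD
  set φ : G × ZMod p → G := fun q => q.1 * X x q.2 * q.1⁻¹ with hφ
  have h3 : ∑ q ∈ D, F (φ q) = Nat.card G * (p * S.card - S.card * S.card) := by
    have : ∀ q : G × ZMod p, F (φ q) = F (X x q.2) := fun q => by
      have := classFun_conj_inv (isIrr_classFun hχ) (X x q.2) q.1⁻¹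
      simp only [inv_inv] at this
      simp only [hF, hφ, this]
    simp only [this]
    rw [hD, sum_product]
    simp only [sum_const, card_univ, nsmul_eq_mul, Nat.card_eq_fintype_card]
    rw [← h1, ← add_sum_erase _ _ (mem_univ 0), X_zero, h1']
    ring
  have h4 : ∑ q ∈ D, F (φ q) ≤ M * ∑ g ∈ univ.erase 1, F g := by
    rw [← sum_fiberwise_of_maps_to (t := univ.erase 1) (g := φ), Finset.mul_sum]
    · refine sum_le_sum fun g _ => ?_
      rw [sum_congr rfl fun q hq => show F (φ q) = F g by rw [(mem_filter.mp hq).2], sum_const,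
        nsmul_eq_mul]
      refine mul_le_mul_of_nonneg_right ?_ (hF0 g)
      rcases (D.filter fun q => φ q = g).eq_empty_or_nonempty with h | ⟨⟨h₀, i₀⟩, h⟩
      · rw [h]; simp [hM]; positivity
      have hi₀ : i₀ ≠ 0 := ne_of_mem_erase (mem_product.mp (mem_filter.mp h).1).2
      have hg : h₀ * X x i₀ * h₀⁻¹ = g := (mem_filter.mp h).2
      refine Nat.cast_le.mpr (le_trans ?_ (card_N_le hp2 hperf hfpf hx))
      rw [← Nat.card_eq_finsetCard]
      refine Nat.card_le_card_of_injective (fun q => ⟨h₀⁻¹ * q.1.1, Units.mk0 (i₀ / q.1.2)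
        (div_ne_zero hi₀ (ne_of_mem_erase (mem_product.mp (mem_filter.mp q.2).1).2)), ?_⟩) ?_
      · obtain ⟨⟨h, i⟩, hq⟩ := q
        have hi : i ≠ 0 := ne_of_mem_erase (mem_product.mp (mem_filter.mp hq).1).2
        have hg' : h * X x i * h⁻¹ = g := (mem_filter.mp hq).2
        have e1 : h₀⁻¹ * h * X x i * (h₀⁻¹ * h)⁻¹ = X x i₀ := by
          calc _ = h₀⁻¹ * (h * X x i * h⁻¹) * h₀ := by group
            _ = _ := by rw [hg', ← hg]; group
        have e2 := congrArg (· ^ (i⁻¹).val) e1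
        simp only [conj_pow, X_pow hxp, ZMod.natCast_zmod_val, mul_inv_cancel₀ hi, X_one] at e2
        simpa [div_eq_mul_inv] using e2
      · rintro ⟨⟨h, i⟩, hq⟩ ⟨⟨h', i'⟩, hq'⟩ he
        have e1 : h = h' := mul_left_cancel (congrArg Subtype.val he)
        subst e1
        have e2 : h * X x i * h⁻¹ = h * X x i' * h⁻¹ := (mem_filter.mp hq).2.trans (mem_filter.mp hq').2.symm
        have e3 := X_inj hx (mul_left_cancel (mul_right_cancel e2))
        subst e3
        rfl
    · rintro ⟨h, i⟩ hq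
      have hi : i ≠ 0 := ne_of_mem_erase (mem_product.mp hq).2
      refine mem_erase.mpr ⟨fun h1 => hi (X_inj hx ?_), mem_univ _⟩
      rw [X_zero]
      simpa [hφ] using h1
  have h5 : ∑ g ∈ univ.erase 1, F g < Nat.card G := by
    rw [← h2, ← add_sum_erase _ _ (mem_univ 1)]
    have : 0 < F 1 := by
      have := isIrr_one_ne_zero hχ
      positivity
    linarith
  have hM0 : (0 : ℝ) < M := by
    have := hp.out.pos
    have : 0 < Nat.card (U x hxp) := Nat.card_pos
    positivity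
  have hG0 : (0 : ℝ) < Nat.card G := by exact_mod_cast Nat.card_pos
  have h6 : (p * S.card - S.card * S.card : ℝ) < M := by
    by_contra h
    push Not at h
    nlinarith
  have h7 : (p * S.card : ℝ) < M + S.card * S.card := by linarith
  exact_mod_cast h7

omit [FaithfulSMul G Ω] in
theorem card_U_dvd (hx : x ^ p = 1) {χ : G → ℂ} (hχ : IsClassFunction G χ)
    {S : Finset (ZMod p)} (h0 : 0 ∉ S) (hS : ∀ j, co x χ j = if j ∈ S then 1 else 0) :
    Nat.card (U x hx) ∣ S.card := by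
  have h1 : ∀ u : U x hx, ∀ j ∈ S, (u : (ZMod p)ˣ) * j ∈ S := by
    rintro ⟨u, g, hg⟩ j hj
    have := co_mul x (χ := χ) (χ' := χ) u.ne_zero (fun i => by
      rw [mul_comm, ← conj_X hx hg]
      simpa using (classFun_conj_inv hχ (X x i) g⁻¹).symm) j
    rw [hS, hS, if_pos hj] at this
    by_contra h
    rw [mul_comm] at h
    simp [h] at this
  letI : MulAction (U x hx) S :=
    { smul := fun u j => ⟨(u : (ZMod p)ˣ) * j, h1 u j j.2⟩
      one_smul := fun j => Subtype.ext (one_mul _)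
      mul_smul := fun u v j => Subtype.ext (mul_assoc _ _ _) }
  rw [← Nat.card_eq_finsetCard]
  refine Perm.card_dvd_of_semiregular fun u hu j hj => hu (Subtype.ext (Units.ext ?_))
  have h2 : ((u : (ZMod p)ˣ) : ZMod p) * j = j := congrArg Subtype.val hj
  exact (mul_eq_right₀ (fun h => h0 (h ▸ j.2))).mp h2

omit [FaithfulSMul G Ω] in
theorem exists_mem_orbit [Fintype G] [Fintype Ω] [IsPretransitive G Ω] (hxp : x ^ p = 1)
    (hx : ∀ ε i, x • pt (ε, i) = pt (ε, i + 1)) {χ₁ : IrrCharacter G}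
    (hmf : ∀ χ : IrrCharacter G, classInner (pc G Ω) χ = 0 ∨ classInner (pc G Ω) χ = 1)
    (h1 : (χ₁ : G → ℂ) ≠ (fun _ => 1)) (h2 : classInner (pc G Ω) χ₁ = 1) (h3 : (χ₁ : G → ℂ) 1 = p)
    (h4 : ∀ χ : IrrCharacter G, (χ : G → ℂ) ≠ (fun _ => 1) → χ ≠ χ₁ →
        classInner (pc G Ω) χ * co x χ (0 : ZMod p) = 0) (b : Ω)
    (hb : Nat.card (orbit (stabilizer G (pt (false, 0))) b) ≠ 1) :
    ∃ i, pt (false, i) ∈ orbit (stabilizer G (pt (false, 0))) b := by
  classical
  by_contra hcon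
  push Not at hcon
  set a := pt (false, 0) with ha
  haveI : Nonempty Ω := ⟨a⟩
  set n := Nat.card (orbit (stabilizer G a) b) with hn
  set w : Ω → ℂ := fun ω => if (pt.symm ω).1 then -1 else 1 with hw
  set Q : Matrix Ω Ω ℂ := (p : ℂ)⁻¹ • ∑ i : ZMod p, pm Ω (X x i) with hQ
  have hQw : Q *ᵥ w = w := by
    funext ω
    obtain ⟨⟨ε, k⟩, rfl⟩ := pt.surjective ω
    simp only [hQ, smul_mulVec, sum_mulVec, Pi.smul_apply, Finset.sum_apply, pm_mulVec,
      ← X_neg hxp, X_pt hx, hw, Equiv.symm_apply_apply, sum_const, card_univ, ZMod.card,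
      nsmul_eq_mul, smul_eq_mul]
    rw [← mul_assoc, inv_mul_cancel₀ p_ne, one_mul]
  have hQh : Qᴴ = Q := by
    simp only [hQ, conjTranspose_smul, conjTranspose_sum, pm_conjTranspose, ← X_neg hxp]
    rw [← Equiv.sum_comp (Equiv.neg (ZMod p)) fun i => pm Ω (X x i)]
    simp
  have hQQ : Q * Q = Q := by
    have : ∀ i : ZMod p, pm Ω (X x i) * Q = Q := fun i => by
      simp only [hQ, mul_smul_comm, Finset.mul_sum, ← pm_mul, ← X_add hxp]
      rw [← Equiv.sum_comp (Equiv.addLeft i) fun j => pm Ω (X x j)]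
      rfl
    nth_rewrite 1 [hQ]
    simp only [smul_mul_assoc, Finset.sum_mul, this, sum_const, card_univ, ZMod.card]
    rw [← Nat.cast_smul_eq_nsmul ℂ, smul_smul, inv_mul_cancel₀ p_ne, one_smul]
  have hEw : ∀ χ : IrrCharacter G, χ ≠ χ₁ → E Ω (χ : G → ℂ) *ᵥ w = 0 := by
    intro χ hχ
    by_cases h0 : (χ : G → ℂ) = fun _ => 1
    · funext u
      simp only [h0, mulVec, dotProduct, E_one_apply, ← Finset.mul_sum]
      rw [← Equiv.sum_comp pt, Fintype.sum_prod_type]
      simp [hw]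
    · have hc : Q * E Ω (χ : G → ℂ) = E Ω (χ : G → ℂ) * Q := by
        simp only [hQ, smul_mul_assoc, mul_smul_comm, Finset.sum_mul, Finset.mul_sum,
          (isInv_E (irr_classFun χ)).comm]
      have : E Ω (χ : G → ℂ) * Q = 0 := eq_zero_of_trace
        (by rw [conjTranspose_mul, hQh, E_conjTranspose (irr_isChar χ), hc])
        (by rw [mul_assoc, ← mul_assoc Q, hc, mul_assoc, hQQ, ← mul_assoc, E_mul_self χ.2]) (by
          rw [← h4 χ h0 hχ]
          simp only [hQ, mul_smul_comm, Finset.mul_sum, trace_smul, trace_sum, trace_E_mul χ.2, co,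
            smul_eq_mul, mul_zero, neg_zero, AddChar.map_zero_eq_one, mul_one]
          exact sum_congr rfl fun _ _ => by ring)
      rw [← hQw, mulVec_mulVec, this, zero_mulVec]
  have hE1 : E Ω (χ₁ : G → ℂ) *ᵥ w = w := by
    have := congrArg (· *ᵥ w) (sum_E (G := G) (Ω := Ω))
    simp only [sum_mulVec, one_mulVec] at this
    rwa [sum_eq_single χ₁ (fun χ _ h => hEw χ h) (by simp)] at this
  obtain ⟨θ, hθ⟩ := exists_eq_sum hmf (isInv_ob (G := G) a b)
  have e1 : θ χ₁ = -n := by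
    have h5 := congrFun (congrArg (· *ᵥ w) hθ) a
    simp only [sum_mulVec, smul_mulVec] at h5
    rw [sum_eq_single χ₁ (fun χ _ h => by rw [hEw χ h, smul_zero]) (by simp), hE1] at h5
    have h6 : (ob G a b *ᵥ w) a = -n := by
      rw [hn, ← sum_ob, ← sum_neg_distrib]
      refine sum_congr rfl fun v _ => ?_
      obtain ⟨⟨ε, k⟩, rfl⟩ := pt.surjective v
      cases ε <;> simp [ob_apply, hw, hcon]
    rw [h6] at h5
    simpa [hw, ha] using h5.symm
  have e2 := trace_ob_mul (G := G) a b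
  rw [hθ, trace_sum_E_mul, ← hn] at e2
  have e3 := congrArg Complex.re e2
  rw [Complex.re_sum] at e3
  set e₀ : IrrCharacter G := ⟨fun _ => 1, isIrr_one⟩ with he₀
  have e4 : ∑ ψ ∈ {e₀, χ₁}, (θ ψ * conj (θ ψ) * (classInner (pc G Ω) ψ * (ψ : G → ℂ) 1)).re ≤
      ∑ ψ, (θ ψ * conj (θ ψ) * (classInner (pc G Ω) ψ * (ψ : G → ℂ) 1)).re :=
    sum_le_sum_of_subset_of_nonneg (subset_univ _) fun ψ _ _ => by
      obtain ⟨d, hd⟩ := isChar_degree (irr_isChar ψ)
      rcases hmf ψ with h | h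
      · simp [h]
      · rw [h, hd, Complex.mul_conj, one_mul]
        have := Complex.normSq_nonneg (θ ψ)
        simp only [Complex.mul_re, Complex.ofReal_re, Complex.natCast_re, Complex.ofReal_im,
          Complex.natCast_im, mul_zero, sub_zero]
        positivity
  rw [e3, sum_pair (fun h => h1 (congrArg Subtype.val h).symm), e1, theta_one hθ, h2, h3,
    show classInner (pc G Ω) e₀ = 1 from inner_pc_one, ← hn, ← Fintype.card_congr pt] at e4
  simp [he₀] at e4
  have hn0 : 0 < n := by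
    haveI : Nonempty (orbit (stabilizer G a) b) := ⟨⟨b, mem_orbit_self b⟩⟩
    exact Nat.card_pos
  have e5 : n * n + n * n * p ≤ 2 * p * n := by exact_mod_cast e4
  have : 2 ≤ n := by omega
  have h7 : 2 * (p * n) ≤ n * (p * n) := Nat.mul_le_mul_right _ this
  nlinarith

theorem core [Fintype G] [Fintype Ω] [IsPretransitive G Ω] (hp2 : p ≠ 2)
    (hperf : ∀ lam : G →* ℂˣ, lam = 1) (hfpf : ∀ y : G, orderOf y = p → ∀ ω : Ω, y • ω ≠ ω)
    (hx : ∀ ε i, x • pt (ε, i) = pt (ε, i + 1)) {a : Ω} (ha : a = pt (false, 0))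
    (hk : ∀ b, b ≠ a → Nat.card (orbit (stabilizer G a) b) ≠ 1) :
    Nat.card (orbitRel.Quotient (stabilizer G a) Ω) = 2 ∨
    (Nat.card (orbitRel.Quotient (stabilizer G a) Ω) = 3 ∧
      ∃ t : ℕ, 0 < t ∧ p = 2 * t ^ 2 + 2 * t + 1 ∧ ∀ b : Ω, b ≠ a →
      Nat.card (orbit (stabilizer G a) b) = t * (2 * t + 1) ∨
      Nat.card (orbit (stabilizer G a) b) = (t + 1) * (2 * t + 1)) := by
  classical
  haveI : Nonempty Ω := ⟨a⟩
  have hxp := pow_p hx
  have hcard : Fintype.card Ω = 2 * p := by rw [← Fintype.card_congr pt]; simp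
  have hp1 := hp.out.one_lt
  rcases shape (Ω := Ω) hxp (co_pc hx) hperf with h | ⟨χ₁, χ₂, f, t, hmf, h1, h2, h3, h4, h5, h6,
    ⟨S, hS1, hS2, hS3⟩, h7⟩
  · exact Or.inl (by rw [card_orbits_prod, h])
  rw [← card_orbits_prod a] at h5
  by_cases ht : t = 1
  · subst ht
    refine Or.inr ⟨h5, rank_three hcard h5 hk χ₂.2 χ₁.2 (h7 rfl) ?_ h3⟩
    have := co_inv x χ₂ (0 : ZMod p)
    simp only [X_zero, hS3, zero_mul, AddChar.map_zero_eq_one, mul_one, sum_boole,
      filter_mem_eq_inter, univ_inter, hS1] at this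
    rw [this, show f = p - 1 by omega, Nat.cast_sub hp1.le, Nat.cast_one]
  exfalso
  have ht0 : t ≠ 0 := by rintro rfl; omega
  have hf0 : f ≠ 0 := by rintro rfl; omega
  have e1 := norm_ineq hp2 hperf hfpf hx χ₂.2 hS3
  obtain ⟨k, hk'⟩ := card_U_dvd hxp (irr_classFun χ₂) hS2 hS3
  rw [hS1] at e1 hk'
  set e := Nat.card (U x hxp) with he
  have hf2 : 2 * f ≤ p - 1 := h6 ▸ Nat.mul_le_mul_right f (by omega)
  have hef : e = f := by
    have hk0 : k ≠ 0 := by rintro rfl; omega
    by_contra hne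
    have hk1 : k ≠ 1 := by rintro rfl; omega
    have : 2 * e ≤ f := by rw [hk', mul_comm]; exact Nat.mul_le_mul_left e (by omega)
    have : 2 * f + 1 ≤ p := by omega
    nlinarith
  haveI : Fintype (orbitRel.Quotient (stabilizer G a) Ω) := Fintype.ofFinite _
  set φ : ZMod p → orbitRel.Quotient (stabilizer G a) Ω := fun i => Quotient.mk'' (pt (false, i))
    with hφ
  have hφ0 : ∀ i, i ≠ 0 → φ i ≠ Quotient.mk'' a := fun i hi h => by
    have := eq_of_mem_orbit_self (G := G) (Quotient.exact' h)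
    rw [ha] at this
    simp [hi] at this
  have e2 := mul_card_image_le_card_of_maps_to (f := φ) (s := univ.erase 0)
    (t := univ.erase (Quotient.mk'' a)) (fun i hi => by simp [hφ0 i (ne_of_mem_erase hi)]) e (by
      intro q hq
      induction q using Quotient.inductionOn' with | h b => ?_
      have hb : b ≠ a := fun h => by simp [h] at hq
      subst ha
      obtain ⟨i, hi⟩ := exists_mem_orbit hxp hx hmf h1 h2 h3 h4 b (hk b hb)
      have hi0 : i ≠ 0 := by
        rintro rfl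
        exact not_mem_orbit hb hi
      rw [← Nat.card_eq_finsetCard]
      refine Nat.card_le_card_of_injective (fun u : U x hxp => ⟨(u : (ZMod p)ˣ) * i, ?_⟩) ?_
      · obtain ⟨u, g, hg⟩ := u
        obtain ⟨c, hc⟩ := aff hp2 hperf hx u.ne_zero hg
        refine mem_filter.mpr ⟨by simp [hi0], ?_⟩
        rw [← Quotient.sound' (s₁ := orbitRel _ Ω) hi]
        refine Quotient.sound' ⟨⟨X x (-c false) * g, ?_⟩, ?_⟩
        · rw [mem_stabilizer_iff, mul_smul, hc, X_pt hx]; simp
        · change (X x (-c false) * g) • pt (false, i) = _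
          rw [mul_smul, hc, X_pt hx]; simp
      · intro u v h
        exact Subtype.ext (Units.ext (mul_right_cancel₀ hi0 (congrArg Subtype.val h))))
  rw [card_erase_of_mem (mem_univ _), card_erase_of_mem (mem_univ _), card_univ, card_univ,
    ZMod.card, ← Nat.card_eq_fintype_card, h5, hef, ← h6] at e2
  have : t + 2 - 1 = t + 1 := by omega
  rw [this] at e2
  nlinarith [Nat.pos_of_ne_zero hf0]

end Cfsg.Agent.Inv.W2p
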