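import Mathlib
import Cfsg.Agent.Inv.W2p2
import Cfsg.Agent.Perm.Multi
import Cfsg.Agent.Perm.PrimeDegree

/-! Wielandt's theorem on primitive groups of degree `2p`. -/

set_option autoImplicit false
open Cfsg

namespace Cfsg.Agent.Inv.W2p

open MulAction Cfsg.Agent.Inv.CR Subgroup

variable {G : Type*} [Group G] {Ω : Type*} [MulAction G Ω]

theorem two_trans_of [IsPretransitive G Ω] {a : Ω}
    (h : ∀ b c, b ≠ a → c ≠ a → c ∈ orbit (stabilizer G a) b) : IsMultiplyPretransitive G Ω 2 := by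
  rw [is_two_pretransitive_iff]
  intro u v w z huv hwz
  obtain ⟨g, rfl⟩ := exists_smul_eq G a u
  obtain ⟨k, rfl⟩ := exists_smul_eq G a w
  obtain ⟨⟨s, hs⟩, h1⟩ := h (g⁻¹ • v) (k⁻¹ • z) (fun h => huv (inv_smul_eq_iff.mp h).symm)
    (fun h => hwz (inv_smul_eq_iff.mp h).symm)
  have h2 : s • g⁻¹ • v = k⁻¹ • z := h1
  exact ⟨k * s * g⁻¹, by simp [mul_smul, mem_stabilizer_iff.mp hs], by simp [mul_smul, h2]⟩

theorem two_trans_of_fixed [FaithfulSMul G Ω] [Fintype Ω] [IsPreprimitive G Ω] {p : ℕ} (hp : p.Prime)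
    (hΩ : Fintype.card Ω = 2 * p) {y : G} (hy : orderOf y = p) {ω : Ω} (h : y • ω = ω) :
    IsMultiplyPretransitive G Ω 2 := by
  classical
  set σ := toPermHom G Ω y with hσ
  have ho : orderOf σ = p := by rw [hσ, orderOf_injective _ toPerm_injective, hy]
  have hc : σ.IsCycle := Equiv.Perm.isCycle_of_prime_order (ho ▸ hp) (by
    rw [ho, ← hΩ]
    exact Finset.card_lt_univ_of_notMem (x := ω) (by simpa [hσ] using h))
  have h1 : σ.support.card = p := by rw [← hc.orderOf, ho]
  have hp1 := hp.one_lt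
  refine IsPreprimitive.is_two_pretransitive inferInstance (s := ((σ.supportᶜ : Finset Ω) : Set Ω))
    (n := p - 1) ?_ ?_ ⟨fun ⟨u, hu⟩ ⟨v, hv⟩ => ?_⟩
  · rw [Set.ncard_coe_finset, Finset.card_compl, h1, hΩ]; omega
  · rw [Nat.card_eq_fintype_card, hΩ]; omega
  · obtain ⟨i, hi⟩ := hc.exists_pow_eq (x := u) (y := v)
      (by simpa [SubMulAction.mem_ofFixingSubgroup_iff] using hu)
      (by simpa [SubMulAction.mem_ofFixingSubgroup_iff] using hv)
    refine ⟨⟨y ^ i, (mem_fixingSubgroup_iff G).mpr fun z hz => ?_⟩, Subtype.ext ?_⟩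
    · have : σ z = z := by simpa using hz
      have h2 := Equiv.Perm.pow_apply_eq_self_of_apply_eq_self this i
      rwa [hσ, ← map_pow] at h2
    · rwa [hσ, ← map_pow] at hi

theorem exists_pt [Fintype Ω] {p : ℕ} [hp : Fact p.Prime] (hΩ : Fintype.card Ω = 2 * p) {x : G}
    (hx : orderOf x = p) (hf : ∀ y : G, orderOf y = p → ∀ ω : Ω, y • ω ≠ ω) (a : Ω) :
    ∃ pt : Bool × ZMod p ≃ Ω, a = pt (false, 0) ∧ ∀ ε i, x • pt (ε, i) = pt (ε, i + 1) := by
  classical
  have hxp : x ^ p = 1 := hx ▸ pow_orderOf_eq_one x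
  have h1 : ∀ (ω : Ω) (i j : ZMod p), X x i • ω = X x j • ω → i = j := by
    intro ω i j h
    by_contra hij
    have hne : i - j ≠ 0 := sub_ne_zero.mpr hij
    refine hf (X x (i - j)) ?_ ω ?_
    · rw [X, Nat.Coprime.orderOf_pow, hx]
      rw [hx]
      exact (Nat.coprime_of_lt_prime ((ZMod.val_ne_zero _).mpr hne) (ZMod.val_lt _) hp.out)
    · rw [sub_eq_neg_add, X_add hxp, mul_smul, h, ← mul_smul, ← X_add hxp, neg_add_cancel, X_zero,
        one_smul]
  obtain ⟨b, hb⟩ : ∃ b : Ω, ∀ i : ZMod p, X x i • a ≠ b := by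
    by_contra h
    push Not at h
    have := Fintype.card_le_of_surjective (fun i : ZMod p => X x i • a) h
    rw [hΩ, ZMod.card] at this
    have := hp.out.pos
    omega
  have h2 : ∀ i j : ZMod p, X x i • a ≠ X x j • b := fun i j h => hb (-j + i) (by
    rw [X_add hxp, mul_smul, h, ← mul_smul, ← X_add hxp, neg_add_cancel, X_zero, one_smul])
  refine ⟨Equiv.ofBijective (fun q => X x q.2 • (if q.1 then b else a))
    ((Fintype.bijective_iff_injective_and_card _).mpr ⟨?_, by simp [hΩ]⟩), by simp [X_zero],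
    fun ε i => ?_⟩
  · rintro ⟨ε, i⟩ ⟨ε', j⟩ h
    cases ε <;> cases ε'
    · rw [h1 a i j h]
    · exact absurd h (h2 i j)
    · exact absurd h.symm (h2 j i)
    · rw [h1 b i j h]
  · simp only [Equiv.ofBijective_apply]
    rw [add_comm, X_add hxp, X_one, mul_smul]

theorem of_rank_two {a : Ω} (h : Nat.card (orbitRel.Quotient (stabilizer G a) Ω) = 2) (b c : Ω)
    (hb : b ≠ a) (hc : c ≠ a) : c ∈ orbit (stabilizer G a) b := by
  obtain ⟨y, -, hy⟩ := (Nat.card_eq_two_iff' (Quotient.mk'' a)).mp h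
  have h1 : ∀ v, v ≠ a → (Quotient.mk'' v : orbitRel.Quotient (stabilizer G a) Ω) = y := fun v hv =>
    hy _ fun h => hv (eq_of_mem_orbit_self (G := G) (Quotient.exact' h))
  exact Quotient.exact' ((h1 c hc).trans (h1 b hb).symm)

theorem wielandt [Finite G] [FaithfulSMul G Ω] [Fintype Ω] [IsPreprimitive G Ω] {p : ℕ} (hp : p.Prime)
    (hΩ : Fintype.card Ω = 2 * p) (a : Ω) : IsMultiplyPretransitive G Ω 2 ∨
    (Nat.card (orbitRel.Quotient (stabilizer G a) Ω) = 3 ∧
      ∃ t : ℕ, 0 < t ∧ p = 2 * t ^ 2 + 2 * t + 1 ∧ ∀ b : Ω, b ≠ a →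
      Nat.card (orbit (stabilizer G a) b) = t * (2 * t + 1) ∨
      Nat.card (orbit (stabilizer G a) b) = (t + 1) * (2 * t + 1)) := by
  classical
  haveI := Fact.mk hp
  have hp1 := hp.two_le
  haveI : Nontrivial Ω := Fintype.one_lt_card_iff_nontrivial.mp (by omega)
  have hΩ' : Nat.card Ω = 2 * p := by rw [Nat.card_eq_fintype_card, hΩ]
  have hreg : ∀ N : Subgroup G, [N.Normal] → N ≠ ⊥ → (∀ c : Ω, N ⊓ stabilizer G a ≤ stabilizer G c) →
      Nat.card N = 2 * p := by
    intro N _ hN h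
    haveI := Perm.transitive_of_normal (α := Ω) N hN
    rw [← Perm.card_mul_card_stabilizer (G := N) a, hΩ', card_eq_one.mpr, mul_one]
    exact eq_bot_iff.mpr fun g hg => Subtype.ext (Perm.eq_one_of_forall_smul (α := Ω)
      fun c => h c ⟨g.2, hg⟩)
  by_cases hp2 : p = 2
  · subst hp2
    left
    have hk : ∀ b, b ≠ a → 2 ≤ (orbit (stabilizer G a) b).ncard := by
      intro b hb
      by_contra hlt
      have h0 := (Set.ncard_pos (s := orbit (stabilizer G a) b)).mpr ⟨b, mem_orbit_self b⟩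
      have h1 := fix_all (G := G) ⊤ hb (inf_le_right.trans (fix_of_card_orbit
        (show (orbit (stabilizer G a) b).ncard = 1 by omega)))
      haveI : Nontrivial G := by
        obtain ⟨g, hg⟩ := exists_smul_eq G a b
        exact ⟨g, 1, fun h => hb (by simpa [h] using hg.symm)⟩
      have h2 := hreg ⊤ top_ne_bot h1
      rw [card_top] at h2
      have h3 := Perm.card_mul_card_stabilizer (G := G) a
      rw [h2, hΩ'] at h3
      obtain ⟨H, hH⟩ := Sylow.exists_subgroup_card_pow_prime (G := G) 2 (n := 1) (by simp [h2])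
      have hco := (isCoatom_stabilizer_iff_preprimitive G a).mpr inferInstance
      rw [card_eq_one.mp (show Nat.card (stabilizer G a) = 1 by omega)] at hco
      have h4 := hco.2 H (bot_lt_iff_ne_bot.mpr (by rintro rfl; simp at hH))
      rw [h4, card_top, h2] at hH
      omega
    refine two_trans_of (a := a) fun b c hb hc => ?_
    by_contra hbc
    have h1 : Disjoint (orbit (stabilizer G a) b) (orbit (stabilizer G a) c) :=
      Set.disjoint_left.mpr fun v h1 h2 => hbc (by
        rw [← orbit_eq_iff.mpr h1]; exact mem_orbit_symm.mp h2)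
    have h2 : (orbit (stabilizer G a) b ∪ orbit (stabilizer G a) c).ncard < (Set.univ : Set Ω).ncard :=
      Set.ncard_lt_ncard (Set.ssubset_univ_iff.mpr fun h => by
        have : a ∈ orbit (stabilizer G a) b ∪ orbit (stabilizer G a) c := h ▸ Set.mem_univ a
        exact this.elim (not_mem_orbit hb) (not_mem_orbit hc))
    rw [Set.ncard_union_eq h1, Set.ncard_univ, hΩ'] at h2
    have := hk b hb
    have := hk c hc
    omega
  by_cases h2 : IsMultiplyPretransitive G Ω 2
  · exact Or.inl h2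
  right
  have hfpf : ∀ y : G, orderOf y = p → ∀ ω : Ω, y • ω ≠ ω := fun y hy ω h =>
    h2 (two_trans_of_fixed hp hΩ hy h)
  haveI : Nontrivial G := by
    obtain ⟨b, hb⟩ := exists_ne a
    obtain ⟨g, hg⟩ := exists_smul_eq G a b
    exact ⟨g, 1, fun h => hb (by simpa [h] using hg.symm)⟩
  obtain ⟨K, ⟨hKn, hK0⟩, hmin⟩ := (wellFounded_lt (α := Subgroup G)).has_min
    {K | K.Normal ∧ K ≠ ⊥} ⟨⊤, inferInstance, top_ne_bot⟩
  haveI := Perm.transitive_of_normal (α := Ω) K hK0
  have hchar : ∀ L : Subgroup K, [L.Characteristic] → L = ⊥ ∨ L = ⊤ := by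
    intro L _
    by_cases h : L = ⊥
    · exact Or.inl h
    right
    have h1 := hmin (L.map K.subtype) ⟨inferInstance, fun h' =>
      h ((map_eq_bot_iff_of_injective _ K.subtype_injective).mp h')⟩
    have h3 := (map_subtype_le L).eq_of_not_lt h1
    exact map_injective K.subtype_injective (by rw [h3, ← MonoidHom.range_eq_map, range_subtype])
  have hK2 : Nat.card K ≠ 2 * p := fun h => by
    obtain ⟨P⟩ : Nonempty (Sylow p K) := inferInstance
    have h1 : Nat.card P = p := Perm.card_sylow_of_not_sq_dvd (by simp [h]) (by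
      rw [h, pow_two]
      intro h3
      exact hp2 ((Nat.prime_dvd_prime_iff_eq hp Nat.prime_two).mp
        (Nat.dvd_of_mul_dvd_mul_right hp.pos h3))) P
    have h3 : (P : Subgroup K).index = 2 := by
      have := (P : Subgroup K).index_mul_card
      rw [h1, h] at this
      exact Nat.eq_of_mul_eq_mul_right hp.pos this
    haveI := P.characteristic_of_normal (normal_of_index_eq_two h3)
    rcases hchar P with h4 | h4
    · rw [h4] at h1; simp at h1; omega
    · rw [h4] at h3; simp at h3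
  have hst : ∀ b : Ω, stabilizer K a ≤ stabilizer K b → K ⊓ stabilizer G a ≤ stabilizer G b :=
    fun b h g hg => h (show (⟨g, hg.1⟩ : K) ∈ stabilizer K a from hg.2)
  have hk : ∀ b, b ≠ a → Nat.card (orbit (stabilizer K a) b) ≠ 1 := fun b hb h =>
    hK2 (hreg K hK0 (fix_all K hb (hst b (fix_of_card_orbit h))))
  have hperf : ∀ lam : K →* ℂˣ, lam = 1 := by
    intro lam
    rcases hchar (_root_.commutator K) with h | h
    · exfalso
      refine hK2 (hreg K hK0 fun c => hst c fun g hg => ?_)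
      obtain ⟨k, rfl⟩ := exists_smul_eq K a c
      have := commutator_eq_bot_iff_le_centralizer.mp h (mem_top g) k (mem_top k)
      rw [mem_stabilizer_iff, ← mul_smul, ← this, mul_smul, mem_stabilizer_iff.mp hg]
    · exact MonoidHom.ext fun g => Abelianization.commutator_subset_ker lam (h ▸ mem_top g)
  obtain ⟨x, hx⟩ := exists_prime_orderOf_dvd_card' (G := K) p
    ((Dvd.intro_left 2 hΩ'.symm).trans Perm.dvd_card_of_transitive)
  have hfpf' : ∀ y : K, orderOf y = p → ∀ ω : Ω, y • ω ≠ ω := fun y hy =>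
    hfpf y (by rwa [orderOf_coe])
  obtain ⟨pt, hpt1, hpt2⟩ := exists_pt hΩ hx hfpf' a
  haveI := Fintype.ofFinite K
  have hsub : ∀ b : Ω, orbit (stabilizer K a) b ⊆ orbit (stabilizer G a) b := by
    rintro b _ ⟨⟨g, hg⟩, rfl⟩
    exact ⟨⟨g, hg⟩, rfl⟩
  rcases core hp2 hperf hfpf' hpt2 hpt1 hk with h | ⟨h, ht⟩
  · exact absurd (two_trans_of fun b c hb hc => hsub b (of_rank_two h b c hb hc)) h2
  obtain ⟨b, c, hb, hc, hbc, hall, -⟩ := exists_of_rank_three h
  have hbc' : c ∉ orbit (stabilizer G a) b := fun h3 => h2 (two_trans_of (a := a) (by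
    have h4 : ∀ v, v ≠ a → v ∈ orbit (stabilizer G a) b := fun v hv => by
      rcases hall v with h | h | h
      · exact absurd h hv
      · exact hsub b h
      · rw [← orbit_eq_iff.mpr h3]; exact hsub c h
    intro u v hu hv
    rw [orbit_eq_iff.mpr (h4 u hu)]; exact h4 v hv))
  have heq : ∀ v : Ω, orbit (stabilizer G a) v = orbit (stabilizer K a) v := by
    intro v
    refine subset_antisymm (fun u hu => ?_) (hsub v)
    rcases hall v with rfl | hv | hv
    · rw [eq_of_mem_orbit_self hu]; exact mem_orbit_self _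
    · rw [orbit_eq_iff.mpr hv]
      rw [orbit_eq_iff.mpr (hsub b hv)] at hu
      rcases hall u with rfl | h | h
      · exact absurd hu (not_mem_orbit hb)
      · exact h
      · exact absurd (by rw [← orbit_eq_iff.mpr hu]; exact mem_orbit_symm.mp (hsub c h)) hbc'
    · rw [orbit_eq_iff.mpr hv]
      rw [orbit_eq_iff.mpr (hsub c hv)] at hu
      rcases hall u with rfl | h | h
      · exact absurd hu (not_mem_orbit hc)
      · exact absurd (by rw [← orbit_eq_iff.mpr (hsub b h)]; exact mem_orbit_symm.mp hu) hbc'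
      · exact h
  refine ⟨?_, by simpa only [heq] using ht⟩
  rw [← h]
  exact Nat.card_congr (Quotient.congrRight fun u v => by
    rw [orbitRel_apply, orbitRel_apply, heq])

end Cfsg.Agent.Inv.W2p
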